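import Cfsg.Agent.Lib.AH.N5
import Cfsg.Agent.Lib.CoprimeAction
import Cfsg.Agent.Lib.PGroupMaxClass
import Cfsg.Agent.Lib.CoreElements

set_option autoImplicit false

namespace CfsgLib.AH

open Subgroup

universe u

theorem fix_min_ne_five {G : Type u} [Group G] [Finite G] (h : RatG G) {M A : Subgroup G}
    (hM : IsMinNormal M) (h5 : IsPGroup 5 M) (hA : (Nat.card A).Coprime 5) :
    Nat.card ↥(M ⊓ centralizer (A : Set G)) ≠ 5 := by
  classical
  have : Fact (Nat.Prime 5) := ⟨Nat.prime_five⟩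
  intro hc
  have := hM.1
  have := Fintype.ofFinite A
  obtain ⟨W, _, _, _, _, ι, e⟩ := exists_mod M (hM.isElementaryAbelian_of_isPGroup h5)
  obtain ⟨-, B, h1, h2, h3⟩ := alt le_rfl h hM e
  obtain ⟨⟨x, hx⟩, x1⟩ := ne_bot_iff_exists_ne_one.1
    (show M ⊓ centralizer (A : Set G) ≠ ⊥ from fun e => by simp [e] at hc)
  have hz : zpowers x = M ⊓ centralizer (A : Set G) := by
    refine eq_of_le_of_card_ge (zpowers_le.2 hx) ?_
    have e1 := card_dvd_of_le (zpowers_le.2 hx)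
    rw [hc, Nat.dvd_prime Nat.prime_five] at e1
    exact (hc.trans (e1.resolve_left fun e =>
      x1 (Subtype.ext (zpowers_eq_bot.1 (card_eq_one.1 e)))).symm).le
  obtain ⟨a, rfl⟩ := (e.mem x).1 hx.1
  refine x1 (Subtype.ext (e.eq_one.2 (h2 a fun w => ?_)))
  have h4 : ι (∑ g : A, (g : G) • w) ∈ zpowers (ι a) := by
    rw [hz]
    refine ⟨e.mem' _, fun g hg => e.smul_eq.1 ?_⟩
    rw [Finset.smul_sum]
    exact Fintype.sum_equiv (Equiv.mulLeft (⟨g, hg⟩ : A)) _ _ fun b => (mul_smul _ _ _).symm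
  obtain ⟨n, hn⟩ := mem_powers_iff_mem_zpowers.2 h4
  have h6 : n • a = ∑ g : A, (g : G) • w := e.inj ((e.nsmul n a).trans hn)
  have h7 := congrArg (B a) h6
  rw [map_nsmul, h3, smul_zero, map_sum, Finset.sum_congr rfl (g := fun _ => B a w) fun g _ => by
    conv_lhs => rw [← e.smul_eq.2 (hx.2 g g.2)]
    exact h1 _ _ _, Finset.sum_const, Finset.card_univ, nsmul_eq_mul, eq_comm, mul_eq_zero,
    ZMod.natCast_eq_zero_iff, ← Nat.card_eq_fintype_card] at h7
  exact h7.resolve_left (Nat.prime_five.coprime_iff_not_dvd.1 hA.symm)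

theorem fix_ne_five (G : Type u) [Group G] [Finite G] : RatG G → ∀ P A : Subgroup G, P.Normal →
    IsPGroup 5 P → (Nat.card A).Coprime 5 → Nat.card ↥(P ⊓ centralizer (A : Set G)) ≠ 5 := by
  have : Fact (Nat.Prime 5) := ⟨Nat.prime_five⟩
  refine card_induction (P := fun G _ _ => RatG G → ∀ P A : Subgroup G, P.Normal →
    IsPGroup 5 P → (Nat.card A).Coprime 5 → Nat.card ↥(P ⊓ centralizer (A : Set G)) ≠ 5) ?_ G
  intro G _ _ ih h P A hn hP hA hc
  obtain ⟨M, hM, hMP⟩ := exists_isMinNormal_le P fun e => by simp [e] at hc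
  have := hM.1
  have h1 := card_dvd_of_le (inf_le_inf_right (centralizer (A : Set G)) hMP)
  rw [hc, Nat.dvd_prime Nat.prime_five] at h1
  have h2 := card_eq_one.1 (h1.resolve_right (fix_min_ne_five h hM (hP.to_le hMP) hA))
  obtain ⟨k, hk⟩ := (hP.to_inf_left (K := M)).exists_card_eq
  refine ih (G ⧸ M) (card_quotient_lt hM.2.1) (h.quot _ (QuotientGroup.mk'_surjective M))
    (P.map (QuotientGroup.mk' M)) (A.map (QuotientGroup.mk' M))
    (hn.map _ (QuotientGroup.mk'_surjective M)) (hP.map _)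
    (hA.coprime_dvd_left (card_map_dvd _ _)) ?_
  rw [Cop.map_mk'_inf_centralizer M le_normalizer_of_normal (hk ▸ hA.pow_right k)
    (Or.inr (isSolvable_of_isPGroup hP.to_inf_left)), ← hc, ← relIndex_ker, QuotientGroup.ker_mk',
    ← inf_relIndex_right, ← inf_assoc, inf_eq_left.2 hMP, h2, relIndex_bot_left]

/-- (plan C25) -/
theorem dvd25 {G : Type*} [Group G] [Finite G] (hs : Group.IsSolvable G) (h : RatG G) (g : G)
    (h5 : 5 ∣ Nat.card (centralizer ({g} : Set G))) :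
    25 ∣ Nat.card (centralizer ({g} : Set G)) := by
  have : Fact (Nat.Prime 5) := ⟨Nat.prime_five⟩
  obtain ⟨P⟩ : Nonempty (Sylow 5 G) := inferInstance
  have hn := sylow5_normal hs h P
  have hm : ∀ {x : G} {k : ℕ}, orderOf x = 5 ^ k → x ∈ (P : Subgroup G) := fun {x k} e => by
    obtain ⟨Q, hQ⟩ := (IsPGroup.of_card (p := 5) ((Nat.card_zpowers x).trans e)).exists_le_sylow
    have := Sylow.unique_of_normal P hn
    exact Subsingleton.elim Q P ▸ hQ (mem_zpowers x)
  obtain ⟨v, hv, y, hy, e, hc, ⟨k, hk⟩, ho⟩ := exists_p_part Nat.prime_five g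
  set R := (P : Subgroup G) ⊓ centralizer (zpowers y : Set G) with hR
  have hRp : IsPGroup 5 R := P.isPGroup'.to_inf_left
  have hcy : ∀ {x : G}, x * y = y * x → x ∈ centralizer (zpowers y : Set G) := fun {x} e => by
    rintro _ ⟨n, rfl⟩
    exact (Commute.zpow_right e n).eq.symm
  have h25 : 5 ^ 2 ≤ Nat.card R := by
    obtain ⟨⟨x, hx⟩, ox⟩ := exists_prime_orderOf_dvd_card' 5 h5
    rw [← orderOf_coe] at ox
    have h1 : 5 ∣ Nat.card R := ox ▸ R.orderOf_dvd_natCard ⟨hm (k := 1) ox, hcy (by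
      obtain ⟨n, rfl⟩ := hy
      exact Commute.zpow_right (mem_centralizer_singleton_iff.1 hx) n)⟩
    have h2 := fix_ne_five G h P (zpowers y) hn P.isPGroup' (by rwa [Nat.card_zpowers])
    obtain ⟨j, hj⟩ := hRp.exists_card_eq
    rw [← hR, hj] at h2
    rw [hj] at h1 ⊢
    refine Nat.pow_le_pow_right (by norm_num) ?_
    by_contra h3
    interval_cases j <;> simp_all
  have h1 := PGrp.sq_le_card_centralizer hRp h25 ⟨v, hm hk, hcy hc.eq⟩
  set C := centralizer ({⟨v, hm hk, hcy hc.eq⟩} : Set R) with hC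
  obtain ⟨j, hj⟩ := (hRp.to_subgroup C).exists_card_eq
  have h2 : C.map R.subtype ≤ centralizer ({g} : Set G) := by
    rintro _ ⟨x, hx, rfl⟩
    rw [mem_centralizer_singleton_iff, e]
    exact Commute.mul_right (congrArg Subtype.val (mem_centralizer_singleton_iff.1 hx))
      (x.2.2 y (mem_zpowers y)).symm
  refine dvd_trans ?_ (card_dvd_of_le h2)
  rw [card_map_of_injective R.subtype_injective, hj]
  rw [hj] at h1
  exact Nat.pow_dvd_pow 5 ((Nat.pow_le_pow_iff_right (by norm_num)).1 h1)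

end CfsgLib.AH
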