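import Cfsg.Agent.Lib.AH.Defs
import Cfsg.Agent.Lib.ClassSize
import Cfsg.Agent.Lib.SylowIn
import Cfsg.Agent.Lib.H5Small
import Cfsg.Agent.Lib.TwoGroupMaxClass

set_option autoImplicit false

namespace CfsgLib.AH

open Subgroup

variable {G : Type*} [Group G] [Finite G]

omit [Finite G] in
theorem isConj_of_index (h : Function.Injective fun C : ConjClasses G => Nat.card C.carrier)
    {x y : G} (e : (centralizer ({x} : Set G)).index = (centralizer ({y} : Set G)).index) :
    IsConj x y := by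
  rw [Frob.index_centralizer_eq_card_carrier, Frob.index_centralizer_eq_card_carrier] at e
  exact ConjClasses.mk_eq_mk_iff_isConj.1 (h e)

omit [Finite G] in
theorem eq_one_of_center (h : Function.Injective fun C : ConjClasses G => Nat.card C.carrier)
    {x : G} (hx : x ∈ center G) : x = 1 :=
  isConj_one_left.1 (isConj_of_index h ((Frob.index_centralizer_eq_one_iff.2 hx).trans
    (Frob.index_centralizer_eq_one_iff.2 (one_mem _)).symm))

/-- (plan C2) -/
theorem cent_two (h : Function.Injective fun C : ConjClasses G => Nat.card C.carrier) {g : G}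
    (h2 : Nat.card (centralizer ({g} : Set G)) = 2) : Nonempty (G ≃* Equiv.Perm (Fin 3)) := by
  have hz := fun x => eq_one_of_center h (x := x)
  have g1 : g ≠ 1 := by
    rintro rfl
    rw [Frob.centralizer_singleton_eq_top_iff.2 (one_mem _), card_top] at h2
    have : Fact (Nat.Prime 2) := ⟨Nat.prime_two⟩
    have := isCyclic_of_prime_card h2
    have : Subsingleton G := ⟨fun a b => by
      rw [hz a (mem_center_iff.2 fun c => mul_comm' c a),
        hz b (mem_center_iff.2 fun c => mul_comm' c b)]⟩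
    rw [Nat.card_of_subsingleton (1 : G)] at h2
    omega
  have h1 : ∀ y, y * g = g * y → y = 1 ∨ y = g := fun y hy => by
    obtain ⟨c, -, hc⟩ := (Nat.card_eq_two_iff' (1 : centralizer ({g} : Set G))).1 h2
    by_contra e
    push Not at e
    have e1 := hc ⟨y, mem_centralizer_singleton_iff.2 hy⟩ fun e1 => e.1 (congrArg Subtype.val e1)
    have e2 := hc ⟨g, mem_centralizer_singleton_iff.2 rfl⟩ fun e1 => g1 (congrArg Subtype.val e1)
    exact e.2 (congrArg Subtype.val (e1.trans e2.symm))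
  have gg : g * g = 1 := (h1 (g * g) (mul_assoc _ _ _)).resolve_right fun e => g1 (by simpa using e)
  set K := {y : G | IsConj g y} with hK
  have k1 : ∀ k ∈ K, k * k = 1 := fun k hk => by
    obtain ⟨c, rfl⟩ := isConj_iff.1 hk
    rw [conj_mul, gg]; group
  have k0 : (1 : G) ∉ K := fun e => g1 (isConj_one_left.1 e)
  have k2 : ∀ k ∈ K, ∀ y, y * k = k * y → y = 1 ∨ y = k := fun k hk y hy => by
    obtain ⟨c, rfl⟩ := isConj_iff.1 hk
    refine (h1 (c⁻¹ * y * c) ?_).imp (fun e => ?_) fun e => ?_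
    · calc _ = c⁻¹ * (y * (c * g * c⁻¹)) * c := by group
        _ = _ := by rw [hy]; group
    · calc y = c * (c⁻¹ * y * c) * c⁻¹ := by group
        _ = _ := by rw [e]; group
    · rw [← e]; group
  have k3 : ∀ k ∈ K, ∀ l ∈ K, k * l ∉ K := fun k hk l hl e => by
    have e1 : l * k = k * l := by
      rw [← inv_eq_of_mul_eq_one_right (k1 _ e), mul_inv_rev, inv_eq_of_mul_eq_one_right (k1 k hk),
        inv_eq_of_mul_eq_one_right (k1 l hl)]
    rcases k2 k hk l e1 with rfl | rfl
    · exact k0 hl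
    · exact k0 (k1 l hl ▸ e)
  have hc : 2 * K.ncard = Nat.card G := by
    rw [← Frob.index_centralizer_eq_ncard, ← h2, card_mul_index]
  have hc' : Kᶜ.ncard = K.ncard := by
    have := Set.ncard_add_ncard_compl K
    omega
  have k4 : ∀ k ∈ K, ∀ a ∉ K, ∃ l ∈ K, k * l = a := fun k hk a ha => by
    have : (fun l => k * l) '' K = Kᶜ := Set.eq_of_subset_of_ncard_le
      (by rintro _ ⟨l, hl, rfl⟩; exact k3 k hk l hl)
      (by rw [Set.ncard_image_of_injective _ (mul_right_injective k), hc'])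
    exact (this.ge ha :)
  have k5 : ∀ k ∈ K, ∀ a ∉ K, k * a * k⁻¹ = a⁻¹ := fun k hk a ha => by
    obtain ⟨l, hl, rfl⟩ := k4 k hk a ha
    rw [← mul_assoc, k1 k hk, one_mul, mul_inv_rev, inv_eq_of_mul_eq_one_right (k1 l hl)]
  have hg : g ∈ K := IsConj.refl g
  have k6 : ∀ a ∉ K, a⁻¹ ∉ K := fun a ha e => ha (by
    rw [← k5 g hg a ha] at e
    exact e.trans (isConj_iff.2 ⟨g, rfl⟩).symm)
  have k7 : ∀ a ∉ K, ∀ b, IsConj a b → b = a ∨ b = a⁻¹ := fun a ha b hb => by
    obtain ⟨y, rfl⟩ := isConj_iff.1 hb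
    by_cases e : y ∈ K
    · exact Or.inr (k5 y e a ha)
    · obtain ⟨l, hl, rfl⟩ := k4 g hg y e
      left
      calc _ = g * (l * a * l⁻¹) * g⁻¹ := by group
        _ = _ := by rw [k5 l hl a ha, k5 g hg _ (k6 a ha), inv_inv]
  have k8 : ∀ a ∉ K, a ≠ 1 → (centralizer ({a} : Set G)).index = 2 := fun a ha a1 => by
    have e1 : (centralizer ({a} : Set G)).index ≤ 2 := by
      rw [Frob.index_centralizer_eq_ncard]
      exact (Set.ncard_le_ncard (t := {a, a⁻¹}) (k7 a ha)).trans (Set.ncard_insert_le _ _ |>.trans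
        (by rw [Set.ncard_singleton]))
    have e2 := (centralizer ({a} : Set G)).index_ne_zero_of_finite
    have e3 := mt Frob.index_centralizer_eq_one_iff.1 (mt (hz a) a1)
    omega
  obtain ⟨y, hy⟩ : ∃ y, y * g ≠ g * y := by
    by_contra e
    push Not at e
    exact g1 (hz g (mem_center_iff.2 e))
  have hk : y * g * y⁻¹ ∈ K := isConj_iff.2 ⟨y, rfl⟩
  have ha := k3 g hg _ hk
  set a := g * (y * g * y⁻¹) with ha0
  have a1 : a ≠ 1 := fun e => hy (by
    rw [← mul_inv_eq_iff_eq_mul, eq_inv_of_mul_eq_one_right e, inv_eq_of_mul_eq_one_right gg])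
  have a2 : a * g ≠ g * a := fun e => (h1 a e).elim a1 fun e => ha (e ▸ hg)
  have a3 : a ≠ a⁻¹ := fun e => a2 (by
    rw [eq_comm, ← mul_inv_eq_iff_eq_mul, k5 g hg a ha, ← e])
  have k9 : Kᶜ = {1, a, a⁻¹} := by
    ext b
    constructor
    · intro hb
      by_cases e : b = 1
      · exact Or.inl e
      · exact Or.inr (k7 a ha b (isConj_of_index h ((k8 a ha a1).trans (k8 b hb e).symm)))
    · rintro (rfl | rfl | rfl)
      exacts [k0, ha, k6 a ha]
  have h6 : Nat.card G = 6 := by
    rw [k9, Set.ncard_eq_three.2 ⟨1, a, a⁻¹, a1.symm, by simpa using a1, a3, rfl⟩] at hc'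
    omega
  refine H5.nonempty_equiv_perm_of_normalCore (H := centralizer ({g} : Set G)) ?_ (by norm_num)
    ?_ h6
  · refine eq_bot_iff.2 fun x hx => by_contra fun e => ?_
    obtain rfl := (h1 x (mem_centralizer_singleton_iff.1 (normalCore_le _ hx))).resolve_left e
    rcases h1 _ (mem_centralizer_singleton_iff.1 (hx a)) with e1 | e1
    · exact g1 (by simpa using e1)
    · exact a2 (mul_inv_eq_iff_eq_mul.1 e1)
  · have := card_mul_index (centralizer ({g} : Set G))
    rw [h2] at this
    omega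

theorem cent_eq_of_prime {p : ℕ} (hp : p.Prime) {g x : G}
    (h3 : Nat.card (centralizer ({g} : Set G)) = p) (hx : x ≠ 1)
    (hg : x ∈ centralizer ({g} : Set G)) (h1 : g ≠ 1) :
    centralizer ({x} : Set G) = centralizer ({g} : Set G) := by
  have : Fact p.Prime := ⟨hp⟩
  have key : ∀ y ∈ centralizer ({g} : Set G), y ≠ 1 → zpowers y = centralizer ({g} : Set G) :=
    fun y hy y1 => by
      refine eq_of_le_of_card_ge (zpowers_le.2 hy) ?_
      have e1 := card_dvd_of_le (zpowers_le.2 hy)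
      rw [h3, Nat.dvd_prime hp] at e1
      exact (h3.trans (e1.resolve_left fun e => y1 (zpowers_eq_bot.1 (card_eq_one.1 e))).symm).le
  have e := (key x hg hx).trans (key g (mem_centralizer_singleton_iff.2 rfl) h1).symm
  exact le_antisymm (Frob.centralizer_le_centralizer_of_mem_zpowers (e ▸ mem_zpowers g))
    (Frob.centralizer_le_centralizer_of_mem_zpowers (e ▸ mem_zpowers x))

/-- (plan C3) -/
theorem cent_three {g : G} (h3 : Nat.card (centralizer ({g} : Set G)) = 3) {x : G} (hx : x ≠ 1)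
    (hd : 3 ∣ Nat.card (centralizer ({x} : Set G))) :
    Nat.card (centralizer ({x} : Set G)) = 3 := by
  have : Fact (Nat.Prime 3) := ⟨Nat.prime_three⟩
  by_cases g1 : g = 1
  · subst g1
    rw [Frob.centralizer_singleton_eq_top_iff.2 (one_mem _), card_top] at h3
    exact Nat.dvd_antisymm (h3 ▸ card_subgroup_dvd_card _) hd
  have hg : IsPGroup 3 (centralizer ({g} : Set G)) := IsPGroup.of_card (n := 1) h3
  have hS : IsSylowIn 3 (centralizer ({g} : Set G)) ⊤ := IsSylowIn.of_maximal le_top hg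
    fun T hT a _ => by
      have h0 : T ≠ ⊥ := fun e => g1 (mem_bot.1 (e ▸ a (mem_centralizer_singleton_iff.2 rfl)))
      have : Nontrivial T := (T.nontrivial_iff_ne_bot).2 h0
      have := hT.center_nontrivial
      obtain ⟨⟨z, hz⟩, z1⟩ := exists_ne (1 : center T)
      have z2 : (z : G) ≠ 1 := fun e => z1 (Subtype.ext (Subtype.ext e))
      have z3 : ∀ t ∈ T, t * z = z * t := fun t ht =>
        congrArg Subtype.val (mem_center_iff.1 hz ⟨t, ht⟩)
      rw [← cent_eq_of_prime Nat.prime_three h3 z2 (mem_centralizer_singleton_iff.2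
        (z3 g (a (mem_centralizer_singleton_iff.2 rfl))).symm) g1]
      exact fun t ht => mem_centralizer_singleton_iff.2 (z3 t ht)
  obtain ⟨⟨y, hy⟩, hy3⟩ := exists_prime_orderOf_dvd_card' 3 hd
  rw [← orderOf_coe] at hy3
  have y1 : y ≠ 1 := fun e => by simp [e] at hy3
  obtain ⟨c, -, hc⟩ := hS.exists_conj_le (Q := zpowers y)
    (IsPGroup.of_card (n := 1) (by rw [Nat.card_zpowers]; exact hy3)) le_top
  have h4 := cent_eq_of_prime Nat.prime_three h3 (x := c * y * c⁻¹) (by simpa using y1)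
    (hc (mem_map_of_mem _ (mem_zpowers y))) g1
  have h5 : Nat.card (centralizer ({y} : Set G)) = 3 := by
    rw [← Frob.card_centralizer_conj c, h4, h3]
  rw [cent_eq_of_prime Nat.prime_three h5 hx
    (mem_centralizer_singleton_iff.2 (mem_centralizer_singleton_iff.1 hy).symm) y1, h5]

theorem RatG.mul_totient_dvd (h : RatG G) (a : G) :
    orderOf a * (orderOf a).totient ∣ Nat.card G := by
  have h1 : Function.Surjective (zpowers a).normalizerMonoidHom := fun σ => by
    obtain ⟨k, hk⟩ := (mem_powers_iff_mem_zpowers.2 (σ ⟨a, mem_zpowers a⟩).2)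
    change a ^ k = _ at hk
    have h2 : orderOf (a ^ k) = orderOf a := by
      rw [hk, orderOf_coe, MulEquiv.orderOf_eq, ← orderOf_coe]
    have h3 : k.Coprime (orderOf a) := by
      rw [orderOf_pow, Nat.div_eq_self] at h2
      exact Nat.Coprime.symm (h2.resolve_left (orderOf_pos a).ne')
    obtain ⟨g, hg⟩ := isConj_iff.1 (h a k h3)
    refine ⟨⟨g, mem_normalizer_fintype ?_⟩, MulEquiv.toMonoidHom_injective
      (MonoidHom.eq_of_eqOn_dense (s := {⟨a, mem_zpowers a⟩}) ?_ ?_)⟩
    · rintro _ ⟨j, rfl⟩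
      rw [← conj_zpow, hg]
      exact zpow_mem (pow_mem (mem_zpowers a) k) j
    · rw [← zpowers_eq_closure, eq_top_iff]
      rintro ⟨_, j, rfl⟩ -
      exact ⟨j, rfl⟩
    · rintro _ rfl
      exact Subtype.ext (hg.trans hk)
  have h2 := card_mul_index (zpowers a).normalizerMonoidHom.ker
  rw [index_ker, MonoidHom.range_eq_top.2 h1, card_top, IsCyclic.card_mulAut, Nat.card_zpowers,
    normalizerMonoidHom_ker, card_subgroupOf_of_le (centralizer_le_normalizer _)] at h2
  refine dvd_trans (Nat.mul_dvd_mul_right ?_ _) (h2 ▸ card_subgroup_dvd_card _)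
  rw [← Nat.card_zpowers]
  exact card_dvd_of_le (le_centralizer _)

/-- (plan C4) -/
theorem cent_four (h : RatG G) {g : G} (h4 : Nat.card (centralizer ({g} : Set G)) = 4) :
    ¬ 16 ∣ Nat.card G := by
  have : Fact (Nat.Prime 2) := ⟨Nat.prime_two⟩
  intro hd
  have hg : IsPGroup 2 (centralizer ({g} : Set G)) := IsPGroup.of_card (n := 2) h4
  obtain ⟨P, hP⟩ := hg.exists_le_sylow
  have hgP : g ∈ (P : Subgroup G) := hP (mem_centralizer_singleton_iff.2 rfl)
  have h1 : Nat.card (centralizer ({⟨g, hgP⟩} : Set (P : Subgroup G))) = 4 := by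
    rw [← h4, ← card_subgroupOf_of_le hP]
    congr 2
    ext x
    simp only [mem_subgroupOf, mem_centralizer_singleton_iff, Subtype.ext_iff, coe_mul]
  have h2 : 2 ^ 4 ∣ Nat.card P := P.pow_dvd_card_of_pow_dvd_card hd
  obtain ⟨n, x, y, -, h3, h5, -⟩ := PGrp.isDQSD_of_card_centralizer P.2 (fun e => by
    rw [Frob.centralizer_singleton_eq_top_iff.2 (mem_center_iff.2 fun c => mul_comm' c _),
      card_top] at h1
    rw [h1] at h2
    exact absurd h2 (by decide)) h1
  rw [h3, Nat.pow_dvd_pow_iff_le_right one_lt_two] at h2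
  have h6 := h.mul_totient_dvd x
  rw [orderOf_coe, h5, Nat.totient_prime_pow Nat.prime_two (by omega), show 2 - 1 = 1 from rfl, mul_one,
    ← pow_add] at h6
  have h7 := P.pow_dvd_card_of_pow_dvd_card h6
  rw [h3, Nat.pow_dvd_pow_iff_le_right one_lt_two] at h7
  omega

end CfsgLib.AH
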