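import Cfsg.Agent.Lib.AH.Defs

set_option autoImplicit false

namespace CfsgLib.AH

open Subgroup

namespace Q8M

/-- `(e, a, b)` stands for `z ^ e * i ^ a * j ^ b` -/
abbrev Q := Bool × Bool × Bool

def mul (p q : Q) : Q :=
  (p.1 ^^ q.1 ^^ (p.2.2 && q.2.1) ^^ (p.2.1 && q.2.1) ^^ (p.2.2 && q.2.2), p.2.1 ^^ q.2.1,
    p.2.2 ^^ q.2.2)

def ap (α : Q × Q) (q : Q) : Q :=
  mul (mul (q.1, false, false) (cond q.2.1 α.1 (false, false, false)))
    (cond q.2.2 α.2 (false, false, false))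

def comp (α β : Q × Q) : Q × Q := (ap α β.1, ap α β.2)

def one : Q × Q := ((false, true, false), (false, false, true))

def inn (q : Q) : Q × Q := ((q.2.2, true, false), (q.2.1, false, true))

def Val (α : Q × Q) : Prop :=
  α.1.2 ≠ (false, false) ∧ α.2.2 ≠ (false, false) ∧ α.1.2 ≠ α.2.2

instance decVal : DecidablePred Val := fun α => by unfold Val; infer_instance

theorem val_of : ∀ α β : Q × Q, comp β α = one → Val α := by decide +kernel

set_option synthInstance.maxSize 4000 in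
set_option synthInstance.maxHeartbeats 400000 in
theorem d1 : ∀ α : Q × Q, Val α → comp α (comp α α) = one → α.1.2 ≠ (true, false) →
    ∀ β : Q × Q, Val β → comp β α = comp (comp α α) β →
    ∃ q h : Q, mul h h = (true, false, false) ∧ comp (comp β (inn q)) (comp β (inn q)) = inn h := by
  decide +kernel

set_option synthInstance.maxSize 4000 in
set_option synthInstance.maxHeartbeats 400000 in
theorem d2 : ∀ γ : Q × Q, Val γ → (∃ h : Q, mul h h = (true, false, false) ∧ comp γ γ = inn h) →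
    ∀ τ : Q × Q, Val τ → comp τ γ = comp γ τ →
    τ = one ∨ τ = γ ∨ τ = comp γ γ ∨ τ = comp γ (comp γ γ) := by
  decide +kernel

variable {Γ : Type*} [Group Γ]

def ph (z i j : Γ) (q : Q) : Γ := cond q.1 z 1 * cond q.2.1 i 1 * cond q.2.2 j 1

structure R (z i j : Γ) : Prop where
  zc : ∀ g : Γ, z * g = g * z
  zz : z * z = 1
  z1 : z ≠ 1
  ii : i * i = z
  jj : j * j = z
  ij : i * j = z * (j * i)

variable {z i j : Γ}

theorem R.zz' (h : R z i j) (x : Γ) : z * (z * x) = x := by rw [← mul_assoc, h.zz, one_mul]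
theorem R.ii' (h : R z i j) (x : Γ) : i * (i * x) = z * x := by rw [← mul_assoc, h.ii]
theorem R.jj' (h : R z i j) (x : Γ) : j * (j * x) = z * x := by rw [← mul_assoc, h.jj]
theorem R.ji (h : R z i j) : j * i = z * (i * j) := by rw [h.ij, h.zz']
theorem R.ji' (h : R z i j) (x : Γ) : j * (i * x) = z * (i * (j * x)) := by
  rw [← mul_assoc, h.ji]; simp only [mul_assoc]
theorem R.gz (h : R z i j) (g x : Γ) : g * (z * x) = z * (g * x) := by
  rw [← mul_assoc, ← h.zc, mul_assoc]
theorem R.iz (h : R z i j) : i * z = z * i := (h.zc i).symm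
theorem R.jz (h : R z i j) : j * z = z * j := (h.zc j).symm

theorem R.map_mul (h : R z i j) (p q : Q) : ph z i j (mul p q) = ph z i j p * ph z i j q := by
  obtain ⟨a, b, c⟩ := p
  obtain ⟨d, e, f⟩ := q
  cases a <;> cases b <;> cases c <;> cases d <;> cases e <;> cases f <;>
    simp [ph, mul, mul_assoc, h.zz, h.zz', h.ii, h.ii', h.jj, h.jj', h.ji, h.ji', h.gz i, h.gz j,
      h.iz, h.jz]

theorem R.eq_one (h : R z i j) {p : Q} (e : ph z i j p = 1) : p = (false, false, false) := by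
  have h1 := h.map_mul p p
  rw [e, mul_one] at h1
  obtain ⟨a, b, c⟩ := p
  cases a <;> cases b <;> cases c <;> simp_all [ph, mul, h.z1]

theorem R.inj (h : R z i j) {p q : Q} (e : ph z i j p = ph z i j q) : p = q := by
  have h1 : ph z i j (mul p (mul q (mul q q))) = 1 := by
    rw [h.map_mul, e, ← h.map_mul]
    have : ∀ q : Q, mul q (mul q (mul q q)) = (false, false, false) := by decide
    rw [this]; simp [ph]
  have : ∀ p q : Q, mul p (mul q (mul q q)) = (false, false, false) → p = q := by decide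
  exact this p q (h.eq_one h1)

def Act (z i j g : Γ) (α : Q × Q) : Prop :=
  g * i * g⁻¹ = ph z i j α.1 ∧ g * j * g⁻¹ = ph z i j α.2

theorem Act.ap (h : R z i j) {g : Γ} {α : Q × Q} (a : Act z i j g α) (q : Q) :
    g * ph z i j q * g⁻¹ = ph z i j (ap α q) := by
  have hz : g * z * g⁻¹ = z := by rw [← h.zc, mul_inv_cancel_right]
  obtain ⟨x, y, w⟩ := q
  rw [Q8M.ap, h.map_mul, h.map_mul]
  have e : ∀ u v t : Γ, g * (u * v * t) * g⁻¹ = (g * u * g⁻¹) * (g * v * g⁻¹) * (g * t * g⁻¹) := by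
    intro u v t; group
  rw [ph, e]
  cases x <;> cases y <;> cases w <;> simp [hz, a.1, a.2] <;> simp [ph]

theorem Act.mul (h : R z i j) {g g' : Γ} {α β : Q × Q} (a : Act z i j g α) (b : Act z i j g' β) :
    Act z i j (g * g') (comp α β) := by
  constructor
  · rw [comp, ← a.ap h, ← b.1]; group
  · rw [comp, ← a.ap h, ← b.2]; group

theorem Act.uniq (h : R z i j) {g : Γ} {α β : Q × Q} (a : Act z i j g α) (b : Act z i j g β) :
    α = β :=
  Prod.ext (h.inj (a.1.symm.trans b.1)) (h.inj (a.2.symm.trans b.2))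

theorem act_one : Act z i j 1 one := by simp [Act, ph, one]

theorem R.act_inn (h : R z i j) (q : Q) : Act z i j (ph z i j q) (inn q) := by
  have e1 : i = ph z i j (false, true, false) := by simp [ph]
  have e2 : j = ph z i j (false, false, true) := by simp [ph]
  constructor
  · rw [mul_inv_eq_iff_eq_mul, ← h.map_mul]
    nth_rw 2 [e1]
    rw [← h.map_mul]
    congr 1
    revert q; decide
  · rw [mul_inv_eq_iff_eq_mul, ← h.map_mul]
    nth_rw 2 [e2]
    rw [← h.map_mul]
    congr 1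
    revert q; decide

theorem Act.z_mul (h : R z i j) {g : Γ} {α : Q × Q} (a : Act z i j g α) : Act z i j (z * g) α := by
  have e : ∀ x : Γ, z * g * x * (z * g)⁻¹ = g * x * g⁻¹ := fun x => by
    rw [show z * g * x * (z * g)⁻¹ = z * (g * x * g⁻¹) * z⁻¹ by group, h.zc, mul_inv_cancel_right]
  exact ⟨(e i).trans a.1, (e j).trans a.2⟩

theorem Act.eq (h : R z i j) (hc : ∀ g : Γ, g * i = i * g → g * j = j * g → g = 1 ∨ g = z)
    {g g' : Γ} {α : Q × Q} (a : Act z i j g α) (b : Act z i j g' α) : g = g' ∨ g = z * g' := by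
  have e : ∀ x : Γ, g * x * g⁻¹ = g' * x * g'⁻¹ → g'⁻¹ * g * x = x * (g'⁻¹ * g) := fun x hx => by
    calc g'⁻¹ * g * x = g'⁻¹ * (g * x * g⁻¹) * g := by group
      _ = _ := by rw [hx]; group
  rcases hc _ (e i (a.1.trans b.1.symm)) (e j (a.2.trans b.2.symm)) with e | e
  · exact Or.inl (inv_mul_eq_one.mp e).symm
  · exact Or.inr (by rw [h.zc, ← e]; group)

end Q8M

open Q8M in
/-- (plan Q8) a normal self-centralizing `Q₈` with `S₃` on top gives an element of order `8`
not conjugate to its fifth power -/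
theorem q8 {Γ : Type*} [Group Γ] {z i j ρ s : Γ} (zc : ∀ g : Γ, z * g = g * z) (zz : z * z = 1)
    (z1 : z ≠ 1) (ii : i * i = z) (jj : j * j = z) (ij : i * j = z * (j * i))
    (hn : ∀ g : Γ, ∀ e : Γ, (e = i ∨ e = j) → ∃ f : Γ, (f = i ∨ f = j ∨ f = i * j) ∧
      (g * e * g⁻¹ = f ∨ g * e * g⁻¹ = z * f))
    (hc : ∀ g : Γ, g * i = i * g → g * j = j * g → g = 1 ∨ g = z)
    (h3 : ρ ^ 3 = 1) (hρ : ρ * i * ρ⁻¹ ≠ i ∧ ρ * i * ρ⁻¹ ≠ z * i) (hs : s * ρ * s⁻¹ = ρ⁻¹) :
    ∃ σ : Γ, σ ^ 4 = z ∧ ¬ IsConj σ (z * σ) := by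
  have h : R z i j := ⟨zc, zz, z1, ii, jj, ij⟩
  have ex0 : ∀ g e : Γ, (e = i ∨ e = j) → ∃ q, g * e * g⁻¹ = ph z i j q := by
    intro g e he
    obtain ⟨f, rfl | rfl | rfl, hf | hf⟩ := hn g e he
    · exact ⟨(false, true, false), by simp [ph, hf]⟩
    · exact ⟨(true, true, false), by simp [ph, hf]⟩
    · exact ⟨(false, false, true), by simp [ph, hf]⟩
    · exact ⟨(true, false, true), by simp [ph, hf]⟩
    · exact ⟨(false, true, true), by simp [ph, hf]⟩
    · exact ⟨(true, true, true), by simp [ph, hf, mul_assoc]⟩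
  have ex1 : ∀ g : Γ, ∃ α, Act z i j g α := fun g => by
    obtain ⟨a, ha⟩ := ex0 g i (Or.inl rfl)
    obtain ⟨b, hb⟩ := ex0 g j (Or.inr rfl)
    exact ⟨(a, b), ha, hb⟩
  have val : ∀ {g : Γ} {α : Q × Q}, Act z i j g α → Val α := fun {g α} a => by
    obtain ⟨β, b⟩ := ex1 g⁻¹
    have := b.mul h a
    rw [inv_mul_cancel] at this
    exact val_of α β (this.uniq h act_one)
  obtain ⟨α, a⟩ := ex1 ρ
  obtain ⟨β, b⟩ := ex1 s
  have r3 : ρ * (ρ * ρ) = 1 := by rw [← h3]; simp [pow_succ, mul_assoc]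
  obtain ⟨q, t, ht, hq⟩ := d1 α (val a) (by
      have := a.mul h (a.mul h a)
      rw [r3] at this
      exact this.uniq h act_one) (by
      intro e
      obtain ⟨⟨x, y⟩, w⟩ := α
      have a1 := a.1
      simp only at e
      subst e
      cases x
      · exact hρ.1 (by simpa [ph] using a1)
      · exact hρ.2 (by simpa [ph] using a1)) β (val b) (by
      have e : s * ρ = ρ * ρ * s := by
        rw [mul_inv_eq_iff_eq_mul.mp hs, inv_eq_of_mul_eq_one_right r3]
      have := b.mul h a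
      rw [e] at this
      exact this.uniq h ((a.mul h a).mul h b))
  have c := b.mul h (h.act_inn q)
  generalize s * ph z i j q = σ at c
  generalize comp β (inn q) = γ at c hq
  have tt : ph z i j t * ph z i j t = z := by rw [← h.map_mul, ht]; simp [ph]
  refine ⟨σ, ?_, fun hcj => ?_⟩
  · have := c.mul h c
    rw [hq] at this
    rw [show σ ^ 4 = (σ * σ) * (σ * σ) by simp [pow_succ, mul_assoc]]
    rcases this.eq h hc (h.act_inn t) with e | e
    · rw [e, tt]
    · rw [e, mul_assoc, h.gz, h.zz', tt]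
  · obtain ⟨τ, hτ⟩ := isConj_iff.mp hcj
    obtain ⟨δ, d⟩ := ex1 τ
    have e : τ * σ = z * (σ * τ) := by rw [mul_inv_eq_iff_eq_mul.mp hτ, mul_assoc]
    have hcm : ∀ g : Γ, Act z i j g δ → g * σ = σ * g → False := by
      intro g hg hgσ
      have : τ * σ = σ * τ := by
        rcases d.eq h hc hg with e | e
        · rw [e, hgσ]
        · rw [e, mul_assoc, hgσ, h.gz σ]
      rw [this] at e
      exact z1 (right_eq_mul.mp e)
    rcases d2 γ (val c) ⟨t, ht, hq⟩ δ (val d) (by
      have := d.mul h c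
      rw [e] at this
      exact this.uniq h ((c.mul h d).z_mul h)) with e | e | e | e
    · exact hcm 1 (e ▸ act_one) (by simp)
    · exact hcm σ (e ▸ c) rfl
    · exact hcm _ (e ▸ c.mul h c) (by simp [mul_assoc])
    · exact hcm _ (e ▸ c.mul h (c.mul h c)) (by simp [mul_assoc])

end CfsgLib.AH
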