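import Cfsg.Agent.Lib.AH.C6a
import Cfsg.Agent.Lib.AH.Q8

/-! The module lemma for `C6`. -/

set_option autoImplicit false

namespace CfsgLib.AH

open Subgroup Cfsg

theorem isPGroup_two_of {G : Type*} [Group G] [Finite G]
    (hπ : ∀ p : ℕ, p.Prime → p ∣ Nat.card G → p = 2 ∨ p = 3) {C : Subgroup G}
    (h : ¬ 3 ∣ Nat.card C) : IsPGroup 2 C := by
  haveI : Fact (Nat.Prime 2) := ⟨Nat.prime_two⟩
  refine IsPGroup.iff_card.2 ⟨_, Nat.eq_prime_pow_of_unique_prime_dvd Nat.card_pos.ne' ?_⟩
  intro d hd hd'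
  exact (hπ d hd (hd'.trans (card_subgroup_dvd_card C))).resolve_right fun e => h (e ▸ hd')

namespace L6
variable {W H : Type*} [Group H] [AddCommGroup W] [DistribMulAction H W] {t y : H}
  (h : L6 W t y) [Finite H]
include h

omit [Finite H] in
theorem zt_normal : (zpowers t).Normal := ⟨fun a ha g => by
  rcases (mem_zp2 h.t2).1 ha with rfl | rfl
  · simp
  · rw [← h.tc, mul_inv_cancel_right]; exact mem_zpowers _⟩

omit [Finite H] in
theorem zt_two : IsPGroup 2 (zpowers t) := fun a => ⟨1, Subtype.ext (by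
  rcases (mem_zp2 h.t2).1 a.2 with e | e
  · change (a : H) ^ 2 ^ 1 = 1
    rw [e, one_pow]
  · change (a : H) ^ 2 ^ 1 = 1
    rw [e, pow_one, sq, h.t2])⟩

omit [Finite H] in
theorem t_mem : t ∈ pCore 2 H := by
  haveI := h.zt_normal
  exact le_pCore h.zt_two (mem_zpowers t)

theorem normal (hs : Group.IsSolvable H)
    (hπ : ∀ p : ℕ, p.Prime → p ∣ Nat.card H → p = 2 ∨ p = 3)
    (hQ : ∀ q ∈ pCore 2 H, q = 1 ∨ q = t) : (zpowers y).Normal := by
  haveI : Fact (Nat.Prime 3) := ⟨by norm_num⟩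
  have h1 : pCore 3 H ≠ ⊥ := fun e => by
    have h2 : fittingSubgroup H ≤ center H := fitting_le_of_forall_pCore_le fun p hp => by
      intro x hx
      by_cases x1 : x = 1
      · exact x1 ▸ one_mem _
      obtain ⟨k, hk⟩ := orderOf_eq_pow_of_mem_isPGroup (pCore_isPGroup p) hx
      have k0 : k ≠ 0 := by
        rintro rfl
        exact x1 (orderOf_eq_one_iff.1 hk)
      rcases hπ p hp.out ((dvd_pow_self p k0).trans (hk ▸ orderOf_dvd_natCard x)) with rfl | rfl
      · rw [(hQ x hx).resolve_left x1]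
        exact mem_center_iff.2 fun g => (h.tc g).symm
      · rw [e] at hx; exact absurd hx x1
    have h3 : y ∈ fittingSubgroup H := centralizer_fitting_le fun x hx =>
      (mem_center_iff.1 (h2 hx) y).symm
    have h4 := le_pCore_of_le_fitting (p := 3) (zpowers_le.2 h3)
      (isPGroup_zpowers_iff.2 ⟨1, h.y3⟩) (mem_zpowers y)
    rw [e, mem_bot] at h4
    have := h.y3
    rw [h4, orderOf_one] at this
    omega
  obtain ⟨S, hS⟩ := sylow_three h.y3 h.not9
  have h2 : pCore 3 H ≤ zpowers y := hS ▸ pCore_le_sylow S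
  obtain ⟨x, hx, x1⟩ := (bot_or_exists_ne_one _).resolve_left h1
  have h3 : zpowers y ≤ pCore 3 H := zpowers_le.2 (by
    rcases mem_zp3 h.y3 (h2 hx) with e | e | e
    · exact absurd e x1
    · exact e ▸ hx
    · exact inv_mem_iff.1 (e ▸ hx))
  rw [le_antisymm h3 h2]
  haveI := pCore_characteristic (G := H) 3
  infer_instance

omit [Finite H] in
theorem conj_y (hn : (zpowers y).Normal) (g : H) : g * y = y * g ∨ g * y * g⁻¹ = y⁻¹ := by
  rcases mem_zp3 h.y3 (hn.conj_mem y (mem_zpowers y) g) with e | e | e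
  · have := (h.conj g).y3
    rw [e, orderOf_one] at this
    omega
  · exact .inl (mul_inv_eq_iff_eq_mul.1 e)
  · exact .inr e

theorem norm_end (hn : (zpowers y).Normal) (hr : t = 1 ∨ RatG H) {s : H} {v : W} (hv : v ≠ 0)
    (hs : (s * s) • v = -v) : False := by
  have nv : v ≠ -v := fun e => hv (h.two v (by conv_lhs => congr; rw [e]
                                               rw [neg_add_cancel]))
  have inv2 : ∀ a b : H, a * y * a⁻¹ = y⁻¹ → b * y * b⁻¹ = y⁻¹ → a * b * y = y * (a * b) := by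
    intro a b ha hb
    rw [← mul_inv_eq_iff_eq_mul, show a * b * y * (a * b)⁻¹ = a * (b * y * b⁻¹) * a⁻¹ by group, hb,
      show a * y⁻¹ * a⁻¹ = (a * y * a⁻¹)⁻¹ by group, ha, inv_inv]
  have ssy : s * s * y = y * (s * s) := by
    rcases h.conj_y hn s with e | e
    · rw [mul_assoc, e, ← mul_assoc, e, mul_assoc]
    · exact inv2 s s e e
  have n1 : s * s ∉ zpowers y := fun a => by
    have := congrArg (· • v) (cube_of_mem h.y3 a)
    simp only [mul_smul (s * s * (s * s)), mul_smul (s * s) (s * s), hs, smul_neg, neg_neg,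
      one_smul] at this
    exact nv this.symm
  have h1 := (h.cy _ ssy).resolve_left n1
  have t1 : t ≠ 1 := by
    rintro rfl
    exact n1 (by simpa using h1)
  have tn := h.tt.resolve_left t1
  have ty : t ∉ zpowers y := fun a =>
    t1 (eq_one_of_two_three h.y3 a (k := 1) (by rw [pow_one, sq, h.t2]))
  have h2 : (t * (s * s)) • v = v := by rw [mul_smul, hs, tn, neg_neg]
  have ss : s * s = t := by
    rcases mem_zp3 h.y3 h1 with e | e | e
    · rw [← h.t2] at e; exact mul_left_cancel e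
    · exact absurd (h.fpf v (e ▸ h2)) hv
    · exact absurd (h.inv.fpf v (e ▸ h2)) hv
  have sy : s * y * s⁻¹ = y⁻¹ := (h.conj_y hn s).resolve_left fun e => by
    rcases h.cy s e with a | a
    · exact n1 (mul_mem a a)
    · have := mul_mem a a
      rw [show t * s * (t * s) = t * (s * t) * s by group, ← h.tc, ← mul_assoc t t, h.t2,
        one_mul] at this
      exact n1 this
  have key : ∀ c : H, c ∈ zpowers y → c * s * c⁻¹ ≠ s⁻¹ := fun c hc e => by
    have := mul_mem hc (hn.conj_mem _ (inv_mem hc) s)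
    rw [show c * (s * c⁻¹ * s⁻¹) = c * s * c⁻¹ * s⁻¹ by group, e, ← mul_inv_rev, ss] at this
    exact ty (inv_mem_iff.1 this)
  have key2 : ∀ c : H, c * y = y * c → c * s * c⁻¹ ≠ s⁻¹ := fun c hc e => by
    rcases h.cy c hc with a | a
    · exact key c a e
    · refine key _ a ?_
      rw [show t * c * s * (t * c)⁻¹ = t * (c * s * c⁻¹) * t⁻¹ by group, e, h.tc,
        mul_inv_cancel_right]
  obtain ⟨c, hc⟩ := isConj_iff.1 ((hr.resolve_left t1).real s)
  rcases h.conj_y hn c with e | e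
  · exact key2 c e hc
  · exact key2 (c * s) (inv2 c s e sy) (by rw [← hc]; group)

theorem q8_end (hπ : ∀ p : ℕ, p.Prime → p ∣ Nat.card H → p = 2 ∨ p = 3)
    (hr : t = 1 ∨ RatG H) : ∀ q ∈ pCore 2 H, q = 1 ∨ q = t := by
  haveI : Fact (Nat.Prime 2) := ⟨Nat.prime_two⟩
  haveI := pCore_characteristic (G := H) 2
  haveI := h.zt_normal
  have hQ := pCore_isPGroup (G := H) 2
  set Q := pCore 2 H with hQdef
  have tQ : t ∈ Q := h.t_mem
  have tc := h.tc
  have t2 := h.t2
  have mZ : ∀ {x : H}, x ∈ zpowers t ↔ x = 1 ∨ x = t := mem_zp2 t2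
  -- squares
  have sq : ∀ a ∈ Q, a ∉ zpowers t → a * a ∈ zpowers t → a * a = t := fun a ha h1 h2 =>
    (mZ.1 h2).resolve_left fun e => h1 (mZ.2 (h.uniq hQ ha e))
  have root : ∀ g ∈ Q, g ∉ zpowers t → ∃ a ∈ zpowers g, a ∉ zpowers t ∧ a * a = t :=
    fun g hg h1 => by
      obtain ⟨k, hk⟩ := hQ ⟨g, hg⟩
      obtain ⟨a, h2, h3, h4⟩ := exists_sq_mem' (congrArg Subtype.val hk) h1
      exact ⟨a, h2, h3, sq a (zpowers_le.2 hg h2) h3 h4⟩
  intro q hq
  by_contra hn
  have qZ : q ∉ zpowers t := fun a => hn (mZ.1 a)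
  have t1 : t ≠ 1 := fun e => by
    obtain ⟨a, h2, h3, h4⟩ := root q hq qZ
    exact h3 (mZ.2 (h.uniq hQ (zpowers_le.2 hq h2) (h4.trans e)))
  have hr := hr.resolve_left t1
  -- the subgroup `A`
  obtain ⟨M, hM, hMQ⟩ := exists_isMinNormal_le (Q.map (QuotientGroup.mk' (zpowers t)))
    (hN := Normal.map inferInstance _ (QuotientGroup.mk'_surjective _)) (fun e => by
      have : (q : H ⧸ zpowers t) ∈ Q.map (QuotientGroup.mk' (zpowers t)) := ⟨q, hq, rfl⟩
      rw [e, mem_bot, QuotientGroup.eq_one_iff] at this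
      exact qZ this)
  have hE := hM.isElementaryAbelian_of_isPGroup ((hQ.map _).to_le hMQ)
  set A := M.comap (QuotientGroup.mk' (zpowers t)) with hA
  have An : A.Normal := hM.1.comap _
  have AQ : ∀ a ∈ A, a ∈ Q := fun a ha => by
    obtain ⟨b, hb, e⟩ := hMQ ha
    have := QuotientGroup.eq.1 e
    rw [show a = b * (b⁻¹ * a) by group]
    exact mul_mem hb (zpowers_le.2 tQ this)
  have Asq : ∀ a ∈ A, a ∉ zpowers t → a * a = t := fun a ha h1 => sq a (AQ a ha) h1 (by
    rw [← QuotientGroup.eq_one_iff, QuotientGroup.mk_mul, ← pow_two]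
    exact hE.2 _ ha)
  have tA : t ∈ A := by
    change (t : H ⧸ zpowers t) ∈ M
    rw [(QuotientGroup.eq_one_iff t).2 (mem_zpowers t)]; exact one_mem _
  have anti : ∀ a ∈ A, ∀ b ∈ A, a ∉ zpowers t → b ∉ zpowers t → a * b ∉ zpowers t →
      a * b = t * (b * a) := fun a ha b hb h1 h2 h3 => by
    have e1 := Asq a ha h1
    have e2 := Asq b hb h2
    have e3 := Asq _ (mul_mem ha hb) h3
    have e4 : b * a * b = a := mul_left_cancel (a := a) (by rw [e1, ← e3]; group)
    calc a * b = b * a * b * b := by rw [e4]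
      _ = b * a * t := by rw [mul_assoc (b * a), e2]
      _ = t * (b * a) := (tc _).symm
  have near : ∀ a : H, ∀ b ∈ A, b ∉ zpowers t → a * b ∈ zpowers t → a = b ∨ a = t * b :=
    fun a b hb h1 h2 => by
      have e := Asq b hb h1
      rcases mZ.1 h2 with e' | e'
      · right
        refine mul_right_cancel (b := b) ?_
        rw [e', mul_assoc, e, t2]
      · exact .inl (mul_right_cancel (e'.trans e.symm))
  have cZ : ∀ a g : H, g * a * g⁻¹ ∈ zpowers t → a ∈ zpowers t := fun a g e => by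
    simpa using (h.zt_normal.mem_comm_iff.1 e)
  obtain ⟨i', hi', i1⟩ := (bot_or_exists_ne_one M).resolve_left hM.2.1
  obtain ⟨i, rfl⟩ := QuotientGroup.mk_surjective i'
  have iA : i ∈ A := hi'
  have iZ : i ∉ zpowers t := fun a => i1 ((QuotientGroup.eq_one_iff i).2 a)
  have iy : i * y ≠ y * i := fun e => iZ (mZ.2 (h.two_mem hQ tQ (AQ i iA) e))
  have hρ : y * i * y⁻¹ ≠ i ∧ y * i * y⁻¹ ≠ t * i := by
    refine ⟨fun e => iy (mul_inv_eq_iff_eq_mul.1 e).symm, fun e => t1 ?_⟩
    have e1 : y * i = t * (i * y) := by rw [← mul_assoc, ← e]; group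
    have e2 : y * y * y * i = t * (t * t) * (i * (y * y * y)) := by
      calc y * y * y * i = y * (y * (y * i)) := by group
        _ = t * (t * t) * (i * (y * y * y)) := by
          rw [e1, ← mul_assoc y t, ← tc y, mul_assoc t y, ← mul_assoc y i, e1, ← mul_assoc y t,
            ← tc y, mul_assoc t y, mul_assoc t (i * y), ← mul_assoc y t, ← tc y, mul_assoc t y,
            mul_assoc i y y, ← mul_assoc y i, e1]
          group
    rw [pow3 h.y3, t2, mul_one, one_mul, mul_one] at e2
    exact (right_eq_mul.1 e2)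
  set j := y * i * y⁻¹ with hj
  have jA : j ∈ A := An.conj_mem i iA y
  have jZ : j ∉ zpowers t := fun a => iZ (cZ i y a)
  have ji : j * i ∉ zpowers t := fun a => (near j i iA iZ a).elim hρ.1 hρ.2
  have ijZ : i * j ∉ zpowers t := fun a => ji (h.zt_normal.mem_comm a)
  have ij := anti i iA j jA iZ jZ ijZ
  have all : ∀ f ∈ A, f ∉ zpowers t → ∃ e : H, (e = i ∨ e = j ∨ e = i * j) ∧
      (f = e ∨ f = t * e) := fun f hf fZ => by
    by_cases c1 : f * i ∈ zpowers t
    · exact ⟨i, .inl rfl, near f i iA iZ c1⟩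
    by_cases c2 : f * j ∈ zpowers t
    · exact ⟨j, .inr (.inl rfl), near f j jA jZ c2⟩
    by_cases c3 : f * (i * j) ∈ zpowers t
    · exact ⟨i * j, .inr (.inr rfl), near f _ (mul_mem iA jA) ijZ c3⟩
    have e1 := anti f hf i iA fZ iZ c1
    have e2 := anti f hf j jA fZ jZ c2
    have e3 := anti f hf _ (mul_mem iA jA) fZ ijZ c3
    rw [← mul_assoc, e1, mul_assoc t, mul_assoc i, e2, ← mul_assoc i, ← tc i, mul_assoc t i,
      ← mul_assoc i] at e3
    exact (t1 (right_eq_mul.1 (mul_left_cancel e3).symm)).elim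
  have hc : ∀ g : H, g * i = i * g → g * j = j * g → g = 1 ∨ g = t := fun g gi gj => by
    have gC : g ∈ centralizer (A : Set H) := fun a ha => by
      by_cases aZ : a ∈ zpowers t
      · rcases mZ.1 aZ with rfl | rfl
        · simp
        · exact tc g
      obtain ⟨e, he, h1⟩ := all a ha aZ
      have : Commute e g := by
        rcases he with rfl | rfl | rfl
        · exact gi.symm
        · exact gj.symm
        · exact Commute.mul_left (show Commute i g from gi.symm) (show Commute j g from gj.symm)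
      rcases h1 with rfl | rfl
      · exact this
      · exact (show Commute t g from tc g).mul_left this
    have C3 : ¬ 3 ∣ Nat.card (centralizer (A : Set H)) := fun a =>
      iy (mem_of_three h.y3 h.not9 a i iA)
    have CQ : centralizer (A : Set H) ≤ Q := le_pCore (isPGroup_two_of hπ C3)
    by_contra gn
    obtain ⟨a, h2, h3, h4⟩ := root g (CQ gC) fun a => gn (mZ.1 a)
    have aC := zpowers_le.2 gC h2
    have h5 : a * i ∈ zpowers t := mZ.2 (h.uniq hQ (mul_mem (CQ aC) (AQ i iA)) (by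
      rw [show a * i * (a * i) = a * (i * a) * i by group, aC i iA, ← mul_assoc a, h4, mul_assoc,
        Asq i iA iZ, t2]))
    have h6 : j * i = i * j := by
      have e := aC j jA
      rcases near a i iA iZ h5 with e' | e'
      · rwa [e'] at e
      · rw [e', ← mul_assoc j, ← tc j, mul_assoc t j, mul_assoc t i] at e
        exact mul_left_cancel e
    rw [h6] at ij
    exact t1 (right_eq_mul.1 ij)
  obtain ⟨s, hs⟩ := isConj_iff.1 (hr.real y)
  obtain ⟨σ, h4, h5⟩ := q8 tc t2 t1 (Asq i iA iZ) (Asq j jA jZ) ij (fun g e he => by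
    have : e ∈ A ∧ e ∉ zpowers t := by
      rcases he with rfl | rfl
      · exact ⟨iA, iZ⟩
      · exact ⟨jA, jZ⟩
    exact all _ (An.conj_mem e this.1 g) fun a => this.2 (cZ e g a)) hc
    (by rw [pow_succ, pow_two]; exact pow3 h.y3) hρ hs
  have h8 : orderOf σ ∣ 8 := orderOf_dvd_of_pow_eq_one (by
    rw [show 8 = 4 + 4 from rfl, pow_add, h4, t2])
  have := hr σ 5 (Nat.Coprime.coprime_dvd_right h8 (by norm_num))
  rw [pow_succ, h4] at this
  exact h5 this

/-- the module lemma -/
theorem false (hs : Group.IsSolvable H) (hπ : ∀ p : ℕ, p.Prime → p ∣ Nat.card H → p = 2 ∨ p = 3)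
    (hr : t = 1 ∨ RatG H) {s : H} {v : W} (hv : v ≠ 0) (e : (s * s) • v = -v) : False :=
  h.norm_end (h.normal hs hπ (h.q8_end hπ hr)) hr hv e

end L6

end CfsgLib.AH
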