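import Cfsg.Agent.Lib.AH.N5
import Cfsg.Agent.Lib.AH.C6b
import Cfsg.Agent.Lib.ClassSize2
import Cfsg.Agent.Lib.SchurZassenhausConj

set_option autoImplicit false

namespace CfsgLib.AH

open Subgroup Cfsg

section
variable {G : Type*} [Group G] [Finite G]

theorem cyB {t y : G} (tc : ∀ g : G, t * g = g * t) (t2 : t * t = 1) (y3 : orderOf y = 3)
    (cy : ∀ c : G, c * y = y * c → c ∈ zpowers y ∨ t * c ∈ zpowers y) (K : Subgroup G) [K.Normal]
    (yK : y ∉ K) (c : G ⧸ K) (hc : c * y = y * c) :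
    c ∈ zpowers (y : G ⧸ K) ∨ t * c ∈ zpowers (y : G ⧸ K) := by
  obtain ⟨c, rfl⟩ := QuotientGroup.mk_surjective c
  have h3 : ¬ 3 ∣ Nat.card K := fun a => yK (mem_of_three y3 (not_nine tc t2 y3 cy) a)
  obtain ⟨u, hu, h1⟩ := Cop.exists_mul_mem_centralizer_of_coset' (A := zpowers y) (U := K)
    (by rw [normalizer_eq_top]; exact le_top)
    (by rw [Nat.card_zpowers, y3]; exact (Nat.Prime.coprime_iff_not_dvd (by norm_num)).2 h3)
    (.inl inferInstance) (g := c) (by
      rintro _ ⟨n, rfl⟩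
      rw [← QuotientGroup.eq_one_iff]
      have := ((show Commute (c : G ⧸ K) y from hc).zpow_right n).eq
      simp only [QuotientGroup.mk_mul, QuotientGroup.mk_inv, QuotientGroup.mk_zpow]
      rw [← this]; group)
  have e : ((u * c : G) : G ⧸ K) = c := by
    rw [QuotientGroup.mk_mul, (QuotientGroup.eq_one_iff u).2 hu, one_mul]
  have key : ∀ a ∈ zpowers y, (a : G ⧸ K) ∈ zpowers (y : G ⧸ K) := by
    rintro _ ⟨n, rfl⟩
    exact ⟨n, rfl⟩
  rw [← e]
  exact (cy _ (h1 y (mem_zpowers y)).symm).imp (key _) (key _)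

omit [Finite G] in
theorem mem_zp6 {t y c : G} (t2 : t * t = 1) (ty : t * y = y * t) (h : c ∈ zpowers (t * y)) :
    c ∈ zpowers y ∨ t * c ∈ zpowers y := by
  obtain ⟨n, rfl⟩ := h
  change (t * y) ^ n ∈ _ ∨ t * (t * y) ^ n ∈ _
  rw [(show Commute t y from ty).mul_zpow]
  rcases (mem_zp2 t2).1 (zpow_mem (mem_zpowers t) n) with e | e <;> rw [e]
  · exact .inl (by rw [one_mul]; exact ⟨n, rfl⟩)
  · exact .inr (by rw [← mul_assoc, t2, one_mul]; exact ⟨n, rfl⟩)

omit [Finite G] in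
theorem orderOf_six {t y : G} (t2 : orderOf t = 2) (y3 : orderOf y = 3) (ty : t * y = y * t) :
    orderOf (t * y) = 6 := by
  rw [(show Commute t y from ty).orderOf_mul_eq_mul_orderOf_of_coprime (by rw [t2, y3]; norm_num),
    t2, y3]

theorem cent_six {t y : G} (t2 : orderOf t = 2) (y3 : orderOf y = 3) (ty : t * y = y * t)
    (h6 : Nat.card (centralizer ({t * y} : Set G)) ≤ 6) {c : G} (ct : c * t = t * c)
    (cy : c * y = y * c) : c ∈ zpowers y ∨ t * c ∈ zpowers y := by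
  have h1 : zpowers (t * y) = centralizer ({t * y} : Set G) :=
    eq_of_le_of_card_ge (zpowers_le.2 (mem_centralizer_singleton_iff.2 rfl))
      (by rwa [Nat.card_zpowers, orderOf_six t2 y3 ty])
  refine mem_zp6 (by rw [← sq, ← t2, pow_orderOf_eq_one]) ty (h1 ▸ ?_)
  exact mem_centralizer_singleton_iff.2
    (Commute.mul_right (show Commute c t from ct) (show Commute c y from cy))

theorem red6 (hs : Group.IsSolvable G)
    (hπ : ∀ p : ℕ, p.Prime → p ∣ Nat.card G → p = 2 ∨ p = 3 ∨ p = 5) (P : Subgroup G) [P.Normal]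
    (hP : IsPGroup 5 P) (hi : ¬ 5 ∣ P.index) (P1 : P ≠ ⊥) {t y : G} (t2 : t * t = 1)
    (y3 : orderOf y = 3) (fpf : ∀ v ∈ P, y * v = v * y → v = 1)
    (ev : ∀ v ∈ P, orderOf v = 5 → ∃ s, s * v * s⁻¹ = v ^ 2)
    (hc : ((∀ g : G, t * g = g * t) ∧
        ∀ c : G, c * y = y * c → c ∈ zpowers y ∨ t * c ∈ zpowers y) ∨
      ((∀ v ∈ P, t * v = v * t → v = 1) ∧ RatG G ∧ t * y = y * t ∧
        Nat.card (centralizer ({t * y} : Set G)) ≤ 6)) : False := by
  haveI : Fact (Nat.Prime 5) := ⟨by norm_num⟩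
  obtain ⟨M, hM, hMP⟩ := exists_isMinNormal_le P P1
  haveI := hM.1
  have hE := hM.isElementaryAbelian_of_isPGroup (hP.to_le hMP)
  obtain ⟨W, _, _, _, _, ι, e⟩ := exists_mod M hE
  obtain ⟨K, _, _, mK, sm⟩ := exists_quot G W
  have PK : P ≤ K := fun a ha => (mK a).2 fun w => e.smul_eq.2 (by
    have := commutator_eq_bot_iff_le_centralizer.1 hM.commutator_fitting_eq_bot (e.mem' w) a
      (pCore_le_fitting 5 (le_pCore hP ha))
    exact this)
  have h5 : ∀ w : W, 5 • w = 0 := fun w => e.eq_one.1 (by rw [e.nsmul]; exact hE.2 _ (e.mem' w))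
  have two : ∀ w : W, w + w = 0 → w = 0 := fun w hw => by
    rw [show w = 5 • w - (w + w) - (w + w) by abel, h5, hw]; simp
  have fpf' : ∀ w : W, y • w = w → w = 0 := fun w hw =>
    e.eq_one.1 (fpf _ (hMP (e.mem' w)) (e.smul_eq.1 hw))
  obtain ⟨v, hv, v1⟩ := (bot_or_exists_ne_one M).resolve_left hM.2.1
  obtain ⟨v, rfl⟩ := (e.mem v).1 hv
  have v0 : v ≠ 0 := fun a => v1 (e.eq_one.2 a)
  have yK : y ∉ K := fun a => v0 (fpf' v ((mK y).1 a v))
  have y3' : orderOf (y : G ⧸ K) = 3 := by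
    haveI : Fact (Nat.Prime 3) := ⟨by norm_num⟩
    refine orderOf_eq_prime ?_ fun a => yK ((QuotientGroup.eq_one_iff y).1 a)
    rw [← QuotientGroup.mk_pow, ← y3, pow_orderOf_eq_one, QuotientGroup.mk_one]
  have faith : ∀ g : G ⧸ K, (∀ w : W, g • w = w) → g = 1 := fun g hg => by
    obtain ⟨g, rfl⟩ := QuotientGroup.mk_surjective g
    exact (QuotientGroup.eq_one_iff g).2 ((mK g).2 fun w => by rw [← sm, hg])
  obtain ⟨s, hsv⟩ := ev _ (hMP hv) (orderOf_eq_prime (hE.2 _ hv) v1)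
  have sv : s • v = 2 • v := e.inj (by rw [e.smul, e.nsmul, hsv])
  have ssv : ((s : G ⧸ K) * s) • v = -v := by
    rw [mul_smul, sm, sm, sv, smul_comm s, sv, eq_neg_iff_add_eq_zero, ← h5 v]; abel
  have hπ' : ∀ p : ℕ, p.Prime → p ∣ Nat.card (G ⧸ K) → p = 2 ∨ p = 3 := fun p hp hd => by
    rcases hπ p hp (hd.trans (card_quotient_dvd_card K)) with a | a | a
    · exact .inl a
    · exact .inr a
    · exact absurd ((a ▸ hd).trans (index_dvd_of_le PK)) hi
  have fpf2 : ∀ w : W, (y : G ⧸ K) • w = w → w = 0 := fun w hw => fpf' w (by rw [← sm, hw])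
  rcases hc with ⟨tc, cy⟩ | ⟨tf, hr, ty, h6⟩
  · have t1 : (t : G ⧸ K) = 1 := faith _ fun w => by rw [sm]; exact e.smul_eq.2 (tc _)
    exact L6.false (W := W) ⟨faith, two, y3', fpf2, .inl t1, cyB tc t2 y3 cy K yK⟩ inferInstance
      hπ' (.inl t1) v0 ssv
  · have tn : ∀ w : W, (t : G ⧸ K) • w = -w := fun w => by
      rw [sm, eq_neg_iff_add_eq_zero]
      refine e.eq_one.1 (tf _ (hMP (e.mem' _)) (e.smul_eq.1 ?_))
      rw [smul_add, ← mul_smul, t2, one_smul, add_comm]
    have tc : ∀ g : G ⧸ K, t * g = g * t := fun g =>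
      (inv_mul_eq_one.1 (faith _ fun w => by
        rw [mul_smul, inv_smul_eq_iff, mul_smul, mul_smul, tn, tn, smul_neg])).symm
    have t2' : orderOf (t : G ⧸ K) = 2 := by
      haveI : Fact (Nat.Prime 2) := ⟨by norm_num⟩
      refine orderOf_eq_prime (by rw [sq, ← QuotientGroup.mk_mul, t2, QuotientGroup.mk_one])
        fun a => v0 (two v ?_)
      have := tn v
      rw [a, one_smul] at this
      exact eq_neg_iff_add_eq_zero.1 this
    refine L6.false (W := W) ⟨faith, two, y3', fpf2, .inr tn, fun c hc => ?_⟩ inferInstance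
      hπ' (.inr (hr.quot (QuotientGroup.mk' K) (QuotientGroup.mk'_surjective K))) v0 ssv
    exact cent_six t2' y3' (tc _) ((Frob.card_centralizer_mk_le K (t * y)).trans h6) (tc c).symm hc

theorem four_dvd {s v : G} (hv : orderOf v = 5) (h : s * v * s⁻¹ = v ^ 2) : 4 ∣ orderOf s := by
  have key : ∀ n : ℕ, s ^ n * v * (s ^ n)⁻¹ = v ^ 2 ^ n := fun n => by
    induction n with
    | zero => simp
    | succ n ih =>
      rw [pow_succ' s, show s * s ^ n * v * (s * s ^ n)⁻¹ = s * (s ^ n * v * (s ^ n)⁻¹) * s⁻¹ by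
        group, ih, ← conj_pow, h, ← pow_mul, pow_succ']
  have h1 := key (orderOf s)
  rw [pow_orderOf_eq_one, one_mul, inv_one, mul_one] at h1
  have h2 : 1 ≡ 2 ^ orderOf s [MOD 5] := by
    rw [← hv, ← pow_eq_pow_iff_modEq, pow_one]; exact h1
  rw [← Nat.div_add_mod (orderOf s) 4, pow_add, pow_mul] at h2
  have h3 := h2.trans (((show 2 ^ 4 ≡ 1 [MOD 5] by decide).pow _).mul_right _)
  rw [one_pow, one_mul] at h3
  have h4 : orderOf s % 4 < 4 := Nat.mod_lt _ (by norm_num)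
  refine Nat.dvd_of_mod_eq_zero ?_
  generalize orderOf s % 4 = r at h3 h4
  interval_cases r <;> first | rfl | exact absurd h3 (by decide)

theorem exists_six {g : G} (g1 : g ≠ 1) (h6 : Nat.card (centralizer ({g} : Set G)) = 6) :
    ∃ t y : G, orderOf t = 2 ∧ orderOf y = 3 ∧ t * y = y * t ∧
      Nat.card (centralizer ({t * y} : Set G)) ≤ 6 := by
  haveI : Fact (Nat.Prime 2) := ⟨by norm_num⟩
  haveI : Fact (Nat.Prime 3) := ⟨by norm_num⟩
  have gC : g ∈ centralizer ({g} : Set G) := mem_centralizer_singleton_iff.2 rfl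
  suffices ∃ t ∈ centralizer ({g} : Set G), ∃ y ∈ centralizer ({g} : Set G),
      orderOf t = 2 ∧ orderOf y = 3 ∧ t * y = y * t by
    obtain ⟨t, ht, y, hy, t2, y3, ty⟩ := this
    refine ⟨t, y, t2, y3, ty, h6 ▸ card_le_of_le fun c hc => ?_⟩
    have h1 : zpowers (t * y) = centralizer ({g} : Set G) :=
      eq_of_le_of_card_ge (zpowers_le.2 (mul_mem ht hy))
        (by rw [Nat.card_zpowers, orderOf_six t2 y3 ty, h6])
    obtain ⟨n, rfl⟩ : g ∈ zpowers (t * y) := h1 ▸ gC
    exact mem_centralizer_singleton_iff.2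
      ((show Commute c (t * y) from mem_centralizer_singleton_iff.1 hc).zpow_right n)
  have h1 : orderOf g ∣ 6 := h6 ▸ orderOf_dvd_natCard _ gC
  obtain ⟨t, t2⟩ := exists_prime_orderOf_dvd_card' 2 (h6 ▸ (by norm_num) :
    2 ∣ Nat.card (centralizer ({g} : Set G)))
  obtain ⟨y, y3⟩ := exists_prime_orderOf_dvd_card' 3 (h6 ▸ (by norm_num) :
    3 ∣ Nat.card (centralizer ({g} : Set G)))
  have h2 := Nat.le_of_dvd (by norm_num) h1
  have h3 : orderOf g ≠ 1 := fun a => g1 (orderOf_eq_one_iff.1 a)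
  have h4 := orderOf_pos g
  have h5 : orderOf g = 2 ∨ orderOf g = 3 ∨ orderOf g = 6 := by
    generalize orderOf g = n at *
    interval_cases n <;> omega
  rcases h5 with a | a | a
  · exact ⟨g, gC, y, y.2, a, (orderOf_coe y).trans y3, (mem_centralizer_singleton_iff.1 y.2).symm⟩
  · exact ⟨t, t.2, g, gC, (orderOf_coe t).trans t2, a, mem_centralizer_singleton_iff.1 t.2⟩
  · exact ⟨g ^ 3, pow_mem gC 3, g ^ 2, pow_mem gC 2, by rw [orderOf_pow, a]; norm_num,
      by rw [orderOf_pow, a]; norm_num, (Commute.pow_pow_self g 3 2).eq⟩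

theorem exists_five {v : G} {k : ℕ} (hk : orderOf v = 5 ^ k) (v1 : v ≠ 1) :
    ∃ u ∈ zpowers v, orderOf u = 5 := by
  refine ⟨_, pow_mem (mem_zpowers v) _, orderOf_pow_orderOf_div (orderOf_pos v).ne' ?_⟩
  rw [hk]
  refine dvd_pow_self 5 ?_
  rintro rfl
  exact v1 (orderOf_eq_one_iff.1 hk)

end

/-- (plan C6) -/
theorem ne6 {G : Type*} [Group G] [Finite G] (hs : Group.IsSolvable G) (h : RatG G)
    (hπ : ∀ p : ℕ, p.Prime → p ∣ Nat.card G → p = 2 ∨ p = 3 ∨ p = 5) (h5 : 5 ∣ Nat.card G)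
    (g : G) : Nat.card (centralizer ({g} : Set G)) ≠ 6 := fun h6 => by
  haveI : Fact (Nat.Prime 5) := ⟨by norm_num⟩
  haveI : Fact (Nat.Prime 2) := ⟨by norm_num⟩
  have g1 : g ≠ 1 := by
    rintro rfl
    rw [show centralizer ({1} : Set G) = ⊤ from
      eq_top_iff.2 fun c _ => mem_centralizer_singleton_iff.2 (by simp), card_top] at h6
    omega
  obtain ⟨t, y, t2, y3, ty, h6⟩ := exists_six g1 h6
  have tt : t * t = 1 := by rw [← sq, ← t2, pow_orderOf_eq_one]
  obtain ⟨P⟩ : Nonempty (Sylow 5 G) := inferInstance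
  haveI := sylow5_normal hs h P
  have pair : ∀ x v : G, x * v = v * x → (orderOf x).Coprime 5 → orderOf v = 5 →
      ∃ s : G, s * x = x * s ∧ s * v * s⁻¹ = v ^ 2 := fun x v e hx hv => by
    obtain ⟨s, h1, h2⟩ := h.pair (show Commute x v from e) (hv ▸ hx) (m := 1) (n := 2)
      (Nat.coprime_one_left _) (by rw [hv]; norm_num)
    exact ⟨s, mul_inv_eq_iff_eq_mul.1 (h1.trans (pow_one x)), h2⟩
  have comm : ∀ {x v u : G}, x * v = v * x → u ∈ zpowers v → x * u = u * x := by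
    rintro x v _ e ⟨n, rfl⟩
    exact ((show Commute x v from e).zpow_right n).eq
  have fpf : ∀ v ∈ (P : Subgroup G), y * v = v * y → v = 1 := fun v hv e => by
    by_contra v1
    obtain ⟨k, hk⟩ := orderOf_eq_pow_of_mem_isPGroup P.isPGroup' hv
    obtain ⟨u, hu, u5⟩ := exists_five hk v1
    obtain ⟨s, h1, h2⟩ := pair y u (comm e hu) (by rw [y3]; norm_num) u5
    have h4 : 2 ^ 2 ∣ Nat.card (centralizer ({y} : Set G)) :=
      (four_dvd u5 h2).trans (orderOf_dvd_natCard _ (mem_centralizer_singleton_iff.2 h1))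
    obtain ⟨c, h7, h8, j, h9⟩ := exists_cent (p := 2)
      (a := (⟨t, mem_centralizer_singleton_iff.2 ty⟩ : centralizer ({y} : Set G)))
      ((orderOf_mk _ _).trans t2) h4
    have ct : (c : G) * t = t * c := congrArg Subtype.val h7
    have h9' : (c : G) ^ 2 ^ j = 1 := congrArg Subtype.val h9
    refine h8 ((mem_zp2 (Subtype.ext tt)).2 ?_)
    refine (cent_six t2 y3 ty h6 ct (mem_centralizer_singleton_iff.1 c.2)).imp
      (fun a => Subtype.ext (eq_one_of_two_three y3 a h9')) fun a => Subtype.ext ?_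
    have := eq_one_of_two_three y3 a (k := j + 1) (by
      rw [(show Commute t c from ct.symm).mul_pow, pow_succ' 2 j, pow_mul, sq, tt, one_pow,
        one_mul, mul_comm, pow_mul, h9', one_pow])
    rw [← tt] at this
    exact mul_left_cancel this
  by_cases hb : ∀ v ∈ (P : Subgroup G), t * v = v * t → v = 1
  · refine red6 hs hπ P P.isPGroup' P.not_dvd_index (P.ne_bot_of_dvd_card h5) tt y3 fpf
      (fun v _ hv => ?_) (.inr ⟨hb, h, ty, h6⟩)
    exact (pair 1 v (by simp) (by simp) hv).imp fun _ a => a.2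
  · push Not at hb
    obtain ⟨v, hv, e, v1⟩ := hb
    refine red6 (G := centralizer ({t} : Set G)) inferInstance
      (fun p hp hd => hπ p hp (hd.trans (card_subgroup_dvd_card _)))
      ((P : Subgroup G).subgroupOf _) P.isPGroup'.comap_subtype
      (fun a => P.not_dvd_index (a.trans (relIndex_dvd_index_of_normal _ _))) (fun a => v1 ?_)
      (t := ⟨t, mem_centralizer_singleton_iff.2 rfl⟩)
      (y := ⟨y, mem_centralizer_singleton_iff.2 ty.symm⟩) (Subtype.ext tt)
      ((orderOf_mk _ _).trans y3)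
      (fun w hw a => Subtype.ext (fpf w hw (congrArg Subtype.val a))) (fun w _ hw => ?_)
      (.inl ⟨fun c => Subtype.ext (mem_centralizer_singleton_iff.1 c.2).symm, fun c hc => ?_⟩)
    · have : (⟨v, mem_centralizer_singleton_iff.2 e.symm⟩ : centralizer ({t} : Set G)) ∈
          (P : Subgroup G).subgroupOf _ := hv
      rw [a, mem_bot] at this
      exact congrArg Subtype.val this
    · obtain ⟨s, h1, h2⟩ := pair t w (mem_centralizer_singleton_iff.1 w.2).symm
        (by rw [t2]; norm_num) ((orderOf_coe w).trans hw)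
      exact ⟨⟨s, mem_centralizer_singleton_iff.2 h1⟩, Subtype.ext h2⟩
    · have key : ∀ a : centralizer ({t} : Set G), (a : G) ∈ zpowers y →
          a ∈ zpowers (⟨y, mem_centralizer_singleton_iff.2 ty.symm⟩ : centralizer ({t} : Set G)) :=
        fun a ⟨n, hn⟩ => ⟨n, Subtype.ext hn⟩
      exact (cent_six t2 y3 ty h6 (mem_centralizer_singleton_iff.1 c.2)
        (congrArg Subtype.val hc)).imp (key _) (key _)

end CfsgLib.AH
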