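import Cfsg.Agent.Lib.AH.Defs
import Cfsg.Agent.Lib.CoreElements

/-! Tools for `C6` and `C25`: small centralizers and a faithful module with a fixed point free
element of order three. -/

set_option autoImplicit false

namespace CfsgLib.AH

open Subgroup Cfsg

section
variable {G : Type*} [Group G]

theorem sq_dvd_card_cent [Finite G] {p : ℕ} [hp : Fact p.Prime] {S : Subgroup G}
    (hS : IsPGroup p S) (h : p ^ 2 ∣ Nat.card S) {a : G} (ha : a ∈ S) :
    p ^ 2 ∣ Nat.card ↥(S ⊓ centralizer ({a} : Set G)) := by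
  set T := S ⊓ centralizer ({a} : Set G) with hT
  obtain ⟨k, hk⟩ := IsPGroup.iff_card.1 (hS.to_le (inf_le_left : T ≤ S))
  by_contra hn
  have h1 := hp.out.one_lt
  have k1 : k ≤ 1 := by
    by_contra h2
    exact hn (hk ▸ pow_dvd_pow p (by omega))
  have : Nontrivial S := by
    rw [← Finite.one_lt_card_iff_nontrivial]
    exact lt_of_lt_of_le (Nat.one_lt_pow two_ne_zero h1) (Nat.le_of_dvd Nat.card_pos h)
  haveI := hS.center_nontrivial
  obtain ⟨⟨z, hz⟩, z1⟩ := exists_ne (1 : center S)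
  have zc : ∀ s ∈ S, s * z = z * s := fun s hs =>
    congrArg Subtype.val (mem_center_iff.1 hz ⟨s, hs⟩)
  have z1' : (z : G) ≠ 1 := fun e => z1 (Subtype.ext (Subtype.ext e))
  have zT : zpowers (z : G) ≤ T := zpowers_le.2 ⟨z.2, mem_centralizer_singleton_iff.2 (zc a ha).symm⟩
  have e : zpowers (z : G) = T := by
    refine eq_of_le_of_card_ge zT ?_
    have h2 := card_dvd_of_le zT
    have h3 : Nat.card (zpowers (z : G)) ≠ 1 := by
      rw [Nat.card_zpowers]; exact fun e => z1' (orderOf_eq_one_iff.1 e)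
    rw [hk] at h2 ⊢
    interval_cases k
    · exact Nat.card_pos
    · rw [pow_one] at h2 ⊢
      exact (((Nat.dvd_prime hp.out).1 h2).resolve_left h3).ge
  have aT : a ∈ zpowers (z : G) := e ▸ ⟨ha, mem_centralizer_singleton_iff.2 rfl⟩
  have : T = S := le_antisymm inf_le_left fun s hs => ⟨hs, mem_centralizer_singleton_iff.2 (by
    obtain ⟨n, rfl⟩ := aT
    exact ((show Commute s z from zc s hs).zpow_right n).eq)⟩
  exact hn (this ▸ h)

theorem exists_cent [Finite G] {p : ℕ} [hp : Fact p.Prime] {a : G} (ha : orderOf a = p)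
    (h : p ^ 2 ∣ Nat.card G) : ∃ c : G, c * a = a * c ∧ c ∉ zpowers a ∧ ∃ k, c ^ p ^ k = 1 := by
  obtain ⟨S, hS⟩ := exists_sylow_mem_of_orderOf (p := p) (k := 1) (ha.trans (pow_one p).symm)
  have h1 := sq_dvd_card_cent S.isPGroup' (S.pow_dvd_card_of_pow_dvd_card h) hS
  by_contra hn
  push Not at hn
  have h2 : (S : Subgroup G) ⊓ centralizer ({a} : Set G) ≤ zpowers a := fun c hc => by
    by_contra h3
    obtain ⟨k, hk⟩ := S.isPGroup' ⟨c, hc.1⟩
    exact hn c (mem_centralizer_singleton_iff.1 hc.2) h3 k (congrArg Subtype.val hk)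
  have h3 := h1.trans (card_dvd_of_le h2)
  rw [Nat.card_zpowers, ha] at h3
  have := Nat.le_of_dvd hp.out.pos h3
  have := hp.out.one_lt
  nlinarith

theorem pow3 {y : G} (hy : orderOf y = 3) : y * y * y = 1 := by
  have := pow_orderOf_eq_one y
  rwa [hy, pow_succ, sq] at this

theorem inv3 {y : G} (hy : orderOf y = 3) : y⁻¹ = y * y := (eq_inv_of_mul_eq_one_left (pow3 hy)).symm

theorem mem_zp3 {y x : G} (hy : orderOf y = 3) (hx : x ∈ zpowers y) : x = 1 ∨ x = y ∨ x = y⁻¹ := by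
  obtain ⟨n, rfl⟩ := hx
  change y ^ n = 1 ∨ y ^ n = y ∨ y ^ n = y⁻¹
  rw [← zpow_mod_orderOf, hy]
  have : n % ((3 : ℕ) : ℤ) = 0 ∨ n % ((3 : ℕ) : ℤ) = 1 ∨ n % ((3 : ℕ) : ℤ) = 2 := by omega
  rcases this with e | e | e <;> rw [e]
  · exact .inl (zpow_zero y)
  · exact .inr (.inl (zpow_one y))
  · exact .inr (.inr (by rw [inv3 hy, zpow_two]))

theorem cube_of_mem {y x : G} (hy : orderOf y = 3) (hx : x ∈ zpowers y) : x * x * x = 1 := by
  rcases mem_zp3 hy hx with rfl | rfl | rfl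
  · simp
  · exact pow3 hy
  · exact pow3 (by rwa [orderOf_inv])

theorem eq_one_of_two_three {y x : G} (hy : orderOf y = 3) (hx : x ∈ zpowers y) {k : ℕ}
    (h : x ^ 2 ^ k = 1) : x = 1 := by
  have h1 : x ^ 3 = 1 := by rw [pow_succ, sq]; exact cube_of_mem hy hx
  have := (pow_gcd_eq_one (a := x)).2 ⟨h, h1⟩
  rwa [Nat.Coprime.gcd_eq_one (Nat.Coprime.pow_left k (by norm_num)), pow_one] at this

theorem sylow_three [Finite G] [Fact (Nat.Prime 3)] {y : G} (hy : orderOf y = 3)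
    (h9 : ¬ 9 ∣ Nat.card G) : ∃ S : Sylow 3 G, (S : Subgroup G) = zpowers y := by
  obtain ⟨S, hS⟩ := exists_sylow_mem_of_orderOf (p := 3) (k := 1) (hy.trans (pow_one 3).symm)
  refine ⟨S, (eq_of_le_of_card_ge (zpowers_le.2 hS) ?_).symm⟩
  obtain ⟨k, hk⟩ := IsPGroup.iff_card.1 S.isPGroup'
  have k1 : k ≤ 1 := by
    by_contra h2
    exact h9 (((pow_dvd_pow 3 (by omega : 2 ≤ k)).trans hk.symm.dvd).trans
      (card_subgroup_dvd_card _))
  rw [Nat.card_zpowers, hy, hk]
  interval_cases k <;> norm_num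

theorem conj_three [Finite G] {y x : G} (hy : orderOf y = 3) (h9 : ¬ 9 ∣ Nat.card G)
    (hx : orderOf x = 3) : ∃ g : G, g * y * g⁻¹ = x ∨ g * y⁻¹ * g⁻¹ = x := by
  haveI : Fact (Nat.Prime 3) := ⟨by norm_num⟩
  obtain ⟨S, hS⟩ := sylow_three hy h9
  obtain ⟨T, hT⟩ := exists_sylow_mem_of_orderOf (p := 3) (k := 1) (hx.trans (pow_one 3).symm)
  obtain ⟨g, rfl⟩ := MulAction.exists_smul_eq G S T
  obtain ⟨a, ha, e⟩ := hT
  have e' : g * a * g⁻¹ = x := e
  have ha' : a ∈ zpowers y := hS ▸ ha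
  rcases mem_zp3 hy ha' with rfl | rfl | rfl
  · rw [← e', mul_one, mul_inv_cancel, orderOf_one] at hx
    omega
  · exact ⟨g, .inl e'⟩
  · exact ⟨g, .inr e'⟩

theorem mem_of_three [Finite G] {y : G} (hy : orderOf y = 3) (h9 : ¬ 9 ∣ Nat.card G)
    {N : Subgroup G} [hN : N.Normal] (h : 3 ∣ Nat.card N) : y ∈ N := by
  haveI : Fact (Nat.Prime 3) := ⟨by norm_num⟩
  obtain ⟨x, hx⟩ := exists_prime_orderOf_dvd_card' 3 h
  obtain ⟨g, e | e⟩ := conj_three hy h9 ((orderOf_coe x).trans hx)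
  · exact (hN.mem_comm_iff.1 (e ▸ x.2 : g * y * g⁻¹ ∈ N)) |> fun h => by simpa using h
  · exact inv_mem_iff.1 ((hN.mem_comm_iff.1 (e ▸ x.2 : g * y⁻¹ * g⁻¹ ∈ N)) |> fun h => by
      simpa using h)

theorem exists_sq_mem' {C : Subgroup G} {x : G} {k : ℕ} (hk : x ^ 2 ^ k = 1) (h : x ∉ C) :
    ∃ y ∈ zpowers x, y ∉ C ∧ y * y ∈ C := by
  classical
  have h1 : ∃ j, x ^ 2 ^ j ∈ C := ⟨k, hk ▸ one_mem C⟩
  obtain ⟨j, hj⟩ : ∃ j, Nat.find h1 = j + 1 := Nat.exists_eq_succ_of_ne_zero fun e => by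
    have := Nat.find_spec h1
    rw [e, pow_zero, pow_one] at this
    exact h this
  refine ⟨x ^ 2 ^ j, pow_mem (mem_zpowers x) _, Nat.find_min h1 (by omega), ?_⟩
  have := Nat.find_spec h1
  rwa [hj, pow_succ, pow_mul, sq] at this

theorem mem_zp2 {t x : G} (ht : t * t = 1) : x ∈ zpowers t ↔ x = 1 ∨ x = t := by
  constructor
  · rintro ⟨n, rfl⟩
    have h3 : ∀ m : ℤ, t ^ (2 * m) = 1 := fun m => by rw [zpow_mul, zpow_two, ht, one_zpow]
    rcases Int.even_or_odd' n with ⟨m, rfl | rfl⟩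
    · exact .inl (h3 m)
    · exact .inr (by change t ^ (2 * m + 1) = t; rw [zpow_add_one, h3, one_mul])
  · rintro (rfl | rfl)
    · exact one_mem _
    · exact mem_zpowers _

theorem not_nine [Finite G] {t y : G} (tc : ∀ g : G, t * g = g * t) (t2 : t * t = 1)
    (y3 : orderOf y = 3) (cy : ∀ c : G, c * y = y * c → c ∈ zpowers y ∨ t * c ∈ zpowers y) :
    ¬ 9 ∣ Nat.card G := fun h9 => by
  haveI : Fact (Nat.Prime 3) := ⟨by norm_num⟩
  obtain ⟨c, h1, h2, k, h3⟩ := exists_cent y3 h9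
  have h4 := (cy c h1).resolve_left h2
  have h5 : c * c ∈ zpowers y := by
    have := mul_mem h4 h4
    rwa [show t * c * (t * c) = t * (c * t) * c by group, ← tc, ← mul_assoc t t, t2,
      one_mul] at this
  obtain ⟨m, hm⟩ : Odd (3 ^ k) := Odd.pow (by decide)
  rw [hm, pow_succ, pow_mul, sq] at h3
  exact h2 (eq_inv_of_mul_eq_one_right h3 ▸ inv_mem (pow_mem h5 m))

theorem exists_quot (G W : Type*) [Group G] [AddCommGroup W] [DistribMulAction G W] :
    ∃ (K : Subgroup G) (_ : K.Normal) (_ : DistribMulAction (G ⧸ K) W),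
      (∀ g : G, g ∈ K ↔ ∀ w : W, g • w = w) ∧ ∀ (g : G) (w : W), (g : G ⧸ K) • w = g • w :=
  ⟨(DistribMulAction.toAddMonoidEnd G W).ker, inferInstance,
    DistribMulAction.compHom W (QuotientGroup.lift _ (DistribMulAction.toAddMonoidEnd G W) le_rfl),
    fun _ => ⟨fun h w => DFunLike.congr_fun h w, fun h => AddMonoidHom.ext h⟩, fun _ _ => rfl⟩

end

/-- `y` has order three, acts without fixed points, and `C(y) ≤ ⟨t, y⟩` with `t = ± 1` -/
structure L6 (W : Type*) {H : Type*} [Group H] [AddCommGroup W] [DistribMulAction H W] (t y : H) :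
    Prop where
  faith : ∀ g : H, (∀ w : W, g • w = w) → g = 1
  two : ∀ w : W, w + w = 0 → w = 0
  y3 : orderOf y = 3
  fpf : ∀ w : W, y • w = w → w = 0
  tt : t = 1 ∨ ∀ w : W, t • w = -w
  cy : ∀ c : H, c * y = y * c → c ∈ zpowers y ∨ t * c ∈ zpowers y

namespace L6
variable {W H : Type*} [Group H] [AddCommGroup W] [DistribMulAction H W] {t y : H}
  (h : L6 W t y)
include h

theorem ext' {a b : H} (e : ∀ w : W, a • w = b • w) : a = b :=
  (inv_mul_eq_one.1 (h.faith _ fun w => by rw [mul_smul, e, inv_smul_smul])).symm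

theorem tc (g : H) : t * g = g * t := by
  rcases h.tt with e | e
  · rw [e, one_mul, mul_one]
  · exact h.ext' fun w => by rw [mul_smul, mul_smul, e, e, smul_neg]

theorem t2 : t * t = 1 := by
  rcases h.tt with e | e
  · rw [e, one_mul]
  · exact h.faith _ fun w => by rw [mul_smul, e, e, neg_neg]

theorem conj (g : H) : L6 W t (g * y * g⁻¹) := by
  refine ⟨h.faith, h.two, ?_, fun w hw => ?_, h.tt, fun c hc => ?_⟩
  · rw [← h.y3]; exact (MulAut.conj g).orderOf_eq y
  · have := h.fpf (g⁻¹ • w) (by rw [← mul_smul, eq_inv_smul_iff, ← mul_smul, ← mul_assoc, hw])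
    rwa [smul_eq_zero_iff_eq] at this
  · have key : ∀ a : H, g⁻¹ * a * g ∈ zpowers y → a ∈ zpowers (g * y * g⁻¹) := by
      rintro a ⟨n, e⟩
      exact ⟨n, by change (g * y * g⁻¹) ^ n = a; rw [conj_zpow, show y ^ n = _ from e]; group⟩
    refine (h.cy (g⁻¹ * c * g) ?_).imp (key _) fun e => key _ ?_
    · rw [show g⁻¹ * c * g * y = g⁻¹ * (c * (g * y * g⁻¹)) * g by group, hc]; group
    · rwa [show g⁻¹ * (t * c) * g = g⁻¹ * t * c * g by group, ← h.tc, mul_assoc t, mul_assoc t]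

theorem inv : L6 W t y⁻¹ := by
  refine ⟨h.faith, h.two, by rw [orderOf_inv, h.y3], fun w hw => h.fpf w ?_, h.tt, fun c hc => ?_⟩
  · exact (inv_smul_eq_iff.1 hw).symm
  · rw [zpowers_inv]
    exact h.cy c (Commute.inv_right_iff.1 (show Commute c y⁻¹ from hc)).eq

theorem sum (w : W) : y • w + y⁻¹ • w = -w := by
  have := h.fpf (w + (y • w + y⁻¹ • w)) (by
    rw [smul_add, smul_add, smul_inv_smul, ← mul_smul, ← inv3 h.y3]; abel)
  exact (neg_eq_of_add_eq_zero_right this).symm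

theorem two_mem {Q : Subgroup H} (hQ : IsPGroup 2 Q) (tQ : t ∈ Q) {c : H} (hc : c ∈ Q)
    (e : c * y = y * c) : c = 1 ∨ c = t := by
  refine (h.cy c e).imp (fun a => ?_) fun a => ?_
  · obtain ⟨k, hk⟩ := hQ ⟨c, hc⟩
    exact eq_one_of_two_three h.y3 a (congrArg Subtype.val hk)
  · obtain ⟨k, hk⟩ := hQ ⟨t * c, mul_mem tQ hc⟩
    have := eq_one_of_two_three h.y3 a (congrArg Subtype.val hk)
    rw [← h.t2] at this
    exact mul_left_cancel this

variable [Finite H]

theorem not9 : ¬ 9 ∣ Nat.card H := not_nine h.tc h.t2 h.y3 h.cy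

theorem of_three {x : H} (hx : orderOf x = 3) : L6 W t x := by
  obtain ⟨g, rfl | rfl⟩ := conj_three h.y3 h.not9 hx
  · exact h.conj g
  · exact h.inv.conj g

theorem cases {g : H} (hg : 3 ∣ orderOf g) : orderOf g = 3 ∨ orderOf (t * g) = 3 := by
  have hu := orderOf_pow_orderOf_div (orderOf_pos g).ne' hg
  refine ((h.of_three hu).cy g (Commute.self_pow g _).eq).imp (fun a => ?_) fun a => ?_
  · rcases mem_zp3 hu a with e | e | e
    · rw [e, orderOf_one] at hg; omega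
    · rw [e, hu]
    · rw [e, orderOf_inv, hu]
  · rcases mem_zp3 hu a with e | e | e
    · rw [← h.t2] at e
      rw [mul_left_cancel e] at hg
      have := Nat.le_of_dvd two_pos (hg.trans (orderOf_dvd_of_pow_eq_one (by rw [sq, h.t2])))
      omega
    · rw [e, hu]
    · rw [e, orderOf_inv, hu]

theorem eq_one {q : H} (hq : q * q = 1) (h3 : orderOf (q * y) = 3) : q = 1 := by
  have qq : ∀ w : W, q • q • w = w := fun w => by rw [← mul_smul, hq, one_smul]
  have A : ∀ w : W, q • y • w - y • q • w = q • w - w := fun w => by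
    have h1 := (h.of_three h3).sum w
    have h2 := h.sum (q • w)
    rw [mul_inv_rev, inv_eq_of_mul_eq_one_left hq, mul_smul, mul_smul] at h1
    rw [eq_sub_of_add_eq h1, eq_sub_of_add_eq h2]; abel
  refine h.faith q fun w => sub_eq_zero.1 (h.two _ ?_)
  have h1 := congrArg (q • ·) (A (q • w))
  simp only [smul_sub, qq] at h1
  conv_lhs => congr; rw [← h1]; rfl; rw [← A w]
  abel

theorem uniq {Q : Subgroup H} [Q.Normal] (hQ : IsPGroup 2 Q) {q : H} (hq : q ∈ Q)
    (h2 : q * q = 1) : q = 1 ∨ q = t := by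
  have h3 : 3 ∣ orderOf (q * y) := by
    have e : ((q * y : H) : H ⧸ Q) = y := by
      rw [QuotientGroup.mk_mul, (QuotientGroup.eq_one_iff q).2 hq, one_mul]
    have h4 : y ^ orderOf (q * y) ∈ Q := by
      rw [← QuotientGroup.eq_one_iff, QuotientGroup.mk_pow, ← e, ← QuotientGroup.mk_pow,
        pow_orderOf_eq_one, QuotientGroup.mk_one]
    obtain ⟨k, hk⟩ := hQ ⟨_, h4⟩
    have := eq_one_of_two_three h.y3 (pow_mem (mem_zpowers y) _) (congrArg Subtype.val hk)
    exact h.y3 ▸ orderOf_dvd_of_pow_eq_one this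
  refine (h.cases h3).imp (h.eq_one h2) fun a => ?_
  have := h.eq_one (q := t * q) (by
    rw [show t * q * (t * q) = t * (q * t) * q by group, ← h.tc, ← mul_assoc t t, h.t2, one_mul,
      h2]) (by rwa [mul_assoc])
  rw [← h.t2] at this
  exact mul_left_cancel this

end L6

end CfsgLib.AH
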