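import Cfsg.Agent.Lib.AH.E

set_option autoImplicit false
set_option linter.unusedSectionVars false
set_option linter.unusedSimpArgs false
set_option linter.unusedTactic false

namespace CfsgLib.AH

open Subgroup Equiv
open scoped commutatorElement

variable {k Γ W : Type*} [Field k] [Group Γ] [Finite Γ] [AddCommGroup W] [Module k W]
  [DistribMulAction Γ W] [SMulCommClass Γ k W] {B : W →ₗ[k] W →ₗ[k] k}

variable {z : Γ} {X : Subgroup Γ}

/-- five anticommuting involutions spanning `C_X(D)` modulo `⟨D, z⟩` -/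
structure F5 (W : Type*) [AddCommGroup W] [DistribMulAction Γ W] (z : Γ)
    (X D : Subgroup Γ) (e : Fin 5 → Γ) : Prop where
  le : D ≤ X
  fix : ∃ w : W, w ≠ 0 ∧ ∀ d ∈ D, d • w = w
  mem : ∀ s, e s ∈ X
  cent : ∀ s, ∀ d ∈ D, e s * d = d * e s
  sq : ∀ s, e s * e s = 1
  anti : ∀ s t, s ≠ t → e s * e t = z * (e t * e s)
  all : ∀ f ∈ X, (∀ d ∈ D, f * d = d * f) →
    InA z D f 1 ∨ (∃ s, InA z D f (e s)) ∨ ∃ s t, s ≠ t ∧ InA z D f (e s * e t)

def c3 : Perm (Fin 5) := swap 2 3 * swap 3 4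

theorem comb : ∀ π : Perm (Fin 5), ((π 0 = 0 ∧ π 1 = 1) ∨ (π 0 = 1 ∧ π 1 = 0)) →
    (∀ s t : Fin 5, s ≠ t → 2 ≤ s → 2 ≤ t → ¬ ((π s = s ∧ π t = t) ∨ (π s = t ∧ π t = s))) →
    π * π = c3 ∨ (π * π)⁻¹ = c3 := by
  decide +kernel

theorem comm3 : ∃ α β : Perm (Fin 5), c3 = ⁅α * c3 * α⁻¹, β * c3 * β⁻¹⁆ := by
  decide +kernel

variable {D : Subgroup Γ} {e : Fin 5 → Γ}

theorem F5.perm (h : F5 W z X D e) (σ : Perm (Fin 5)) : F5 W z X D (e ∘ σ) where
  le := h.le
  fix := h.fix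
  mem s := h.mem _
  cent s := h.cent _
  sq s := h.sq _
  anti s t hst := h.anti _ _ (σ.injective.ne hst)
  all f hf hc := by
    rcases h.all f hf hc with h1 | ⟨s, h1⟩ | ⟨s, t, hst, h1⟩
    · exact Or.inl h1
    · exact Or.inr (Or.inl ⟨σ⁻¹ s, by simpa using h1⟩)
    · exact Or.inr (Or.inr ⟨σ⁻¹ s, σ⁻¹ t, σ⁻¹.injective.ne hst, by simpa using h1⟩)

theorem XS.not_both (x : XS W z X) {a b : Γ} (h1 : a * b = b * a) (h2 : a * b = z * (b * a)) :
    False := by
  rw [h1] at h2
  exact x.z1 (by simpa using h2.symm)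

theorem cent_mul {a b : Γ} (ha : ∀ d ∈ D, a * d = d * a) (hb : ∀ d ∈ D, b * d = d * b) :
    ∀ d ∈ D, a * b * d = d * (a * b) := fun d hd => by
  rw [mul_assoc, hb d hd, ← mul_assoc, ha d hd, mul_assoc]

theorem F5.pair_sq (x : XS W z X) (h : F5 W z X D e) {s t : Fin 5} (hst : s ≠ t) :
    e s * e t * (e s * e t) = z := by
  rw [x.sq_mul_anti (h.anti s t hst), h.sq, h.sq]; simp

theorem F5.pair_anti (x : XS W z X) (h : F5 W z X D e) {s t : Fin 5} (hst : s ≠ t) :
    e s * e t * e s = z * (e s * (e s * e t)) := by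
  rw [mul_assoc, h.anti t s hst.symm, x.mz]

theorem F5.eq_of_inA (x : XS W z X) (h : F5 W z X D e) {s t : Fin 5}
    (hst : InA z D (e s) (e t)) : s = t := by
  by_contra hne
  exact x.not_both (hst.comm x (h.cent t) rfl) (h.anti s t hne)

theorem F5.not_inA_one (x : XS W z X) (h : F5 W z X D e) (s : Fin 5) : ¬ InA z D (e s) 1 := by
  intro h1
  obtain ⟨t, ht⟩ := exists_ne s
  exact x.not_both (h1.comm x (h.cent t) (by simp)) (h.anti s t ht.symm)

theorem F5.inv (c : Ctx Γ B) (x : XS W z X) (h : F5 W z X D e) {f : Γ} (hf : f ∈ X)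
    (hc : ∀ d ∈ D, f * d = d * f) (hff : f * f = 1) : InA z D f 1 ∨ ∃ s, InA z D f (e s) := by
  rcases h.all f hf hc with h1 | h1 | ⟨s, t, hst, h1⟩
  · exact Or.inl h1
  · exact Or.inr h1
  · have := h1.sq c x h.le h.fix (cent_mul (h.cent s) (h.cent t))
    rw [hff, h.pair_sq x hst] at this
    exact absurd this.symm x.z1

theorem F5.A (h : F5 W z X D e) (s t : Fin 5) (hst : s ≠ t) (y : Γ) :
    e s * (e t * y) = z * (e t * (e s * y)) := by
  rw [← mul_assoc, h.anti s t hst]; simp [mul_assoc]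

theorem F5.S (h : F5 W z X D e) (s : Fin 5) (y : Γ) : e s * (e s * y) = y := by
  rw [← mul_assoc, h.sq, one_mul]

/-- normal form for words in the five involutions -/
theorem F5.nf (x : XS W z X) (h : F5 W z X D e) :
    (∀ y, e 1 * (e 0 * y) = z * (e 0 * (e 1 * y))) ∧
    (∀ y, e 2 * (e 0 * y) = z * (e 0 * (e 2 * y))) ∧
    (∀ y, e 3 * (e 0 * y) = z * (e 0 * (e 3 * y))) ∧
    (∀ y, e 4 * (e 0 * y) = z * (e 0 * (e 4 * y))) ∧
    (∀ y, e 2 * (e 1 * y) = z * (e 1 * (e 2 * y))) ∧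
    (∀ y, e 3 * (e 1 * y) = z * (e 1 * (e 3 * y))) ∧
    (∀ y, e 4 * (e 1 * y) = z * (e 1 * (e 4 * y))) ∧
    (∀ y, e 3 * (e 2 * y) = z * (e 2 * (e 3 * y))) ∧
    (∀ y, e 4 * (e 2 * y) = z * (e 2 * (e 4 * y))) ∧
    (∀ y, e 4 * (e 3 * y) = z * (e 3 * (e 4 * y))) ∧
    (∀ s y, e s * (e s * y) = y) ∧ (∀ s y, e s * (z * y) = z * (e s * y)) ∧
    (∀ y, z * (z * y) = y) :=
  ⟨h.A 1 0 (by decide), h.A 2 0 (by decide), h.A 3 0 (by decide), h.A 4 0 (by decide), h.A 2 1 (by decide), h.A 3 1 (by decide), h.A 4 1 (by decide), h.A 3 2 (by decide), h.A 4 2 (by decide), h.A 4 3 (by decide),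
    h.S, fun _ _ => x.mz _ _, x.zmul⟩

theorem eq_of_mul_one {a b : Γ} (h : a * 1 = b * 1) : a = b := by simpa using h

theorem F5.prod (x : XS W z X) (h : F5 W z X D e) :
    InA z D (e 0 * e 1 * e 2 * e 3 * e 4) 1 := by
  have hP : ∀ s, e 0 * e 1 * e 2 * e 3 * e 4 * e s = e s * (e 0 * e 1 * e 2 * e 3 * e 4) := by
    intro s
    have : s = 0 ∨ s = 1 ∨ s = 2 ∨ s = 3 ∨ s = 4 := by revert s; decide
    rcases this with rfl | rfl | rfl | rfl | rfl <;>
      exact eq_of_mul_one (by simp only [mul_assoc, h.nf x])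
  rcases h.all _ (X.mul_mem (X.mul_mem (X.mul_mem (X.mul_mem (h.mem 0) (h.mem 1)) (h.mem 2))
    (h.mem 3)) (h.mem 4)) (cent_mul (cent_mul (cent_mul (cent_mul (h.cent 0) (h.cent 1))
    (h.cent 2)) (h.cent 3)) (h.cent 4)) with h1 | ⟨s, h1⟩ | ⟨s, t, hst, h1⟩
  · exact h1
  · obtain ⟨t, ht⟩ := exists_ne s
    exact (x.not_both ((h1.symm x).comm x (h.cent t) (hP t)) (h.anti s t ht.symm)).elim
  · exact (x.not_both ((h1.symm x).comm x (h.cent s) (hP s)) (h.pair_anti x hst)).elim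

theorem InA.of_eq (x : XS W z X) {P f g : Γ} (hP : InA z D P 1)
    (h : f = g * P ∨ f = z * (g * P)) : InA z D f g := by
  have := hP.mul_left x g
  rw [mul_one] at this
  rcases h with rfl | rfl
  · exact this
  · exact this.zl x

theorem InA.of_eq1 {f g : Γ} (h : f = g ∨ f = z * g) : InA z D f g :=
  ⟨1, D.one_mem, by simpa using h⟩

theorem InA.mono {D' : Subgroup Γ} (hD : D ≤ D') {f g : Γ} (h : InA z D f g) : InA z D' f g :=
  let ⟨d, hd, h⟩ := h; ⟨d, hD hd, h⟩

theorem InA.mul (x : XS W z X) {f f' g g' : Γ} (h : InA z D f f') (h' : InA z D g g')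
    (hg : ∀ d ∈ D, g' * d = d * g') : InA z D (f * g) (f' * g') := by
  refine (h'.mul_left x f).trans x ?_
  obtain ⟨d, hd, h⟩ := h
  refine ⟨d, hd, ?_⟩
  rcases h with rfl | rfl
  · left; rw [mul_assoc, ← hg d hd, mul_assoc]
  · right; rw [mul_assoc, mul_assoc, ← hg d hd, mul_assoc]

theorem InA.conj (x : XS W z X) {f f' g : Γ} (h : InA z D f f') (hg : g ∈ normalizer (D : Set Γ)) :
    InA z D (g * f * g⁻¹) (g * f' * g⁻¹) := by
  obtain ⟨d, hd, h⟩ := h
  refine ⟨g * d * g⁻¹, (mem_normalizer_iff.mp hg d).mp hd, ?_⟩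
  rcases h with rfl | rfl
  · left; group
  · right; rw [x.mz]; group

/-- `g` induces `π` on the five cosets -/
def Ind (z : Γ) (D : Subgroup Γ) (e : Fin 5 → Γ) (g : Γ) (π : Perm (Fin 5)) : Prop :=
  g ∈ normalizer (D : Set Γ) ∧ ∀ s, InA z D (g * e s * g⁻¹) (e (π s))

theorem Ind.mul (x : XS W z X) {g g' : Γ} {π π' : Perm (Fin 5)} (h : Ind z D e g π)
    (h' : Ind z D e g' π') : Ind z D e (g * g') (π * π') := by
  refine ⟨mul_mem h.1 h'.1, fun s => ?_⟩
  have := ((h'.2 s).conj x h.1).trans x (h.2 (π' s))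
  rwa [show g * (g' * e s * g'⁻¹) * g⁻¹ = g * g' * e s * (g * g')⁻¹ by group] at this

theorem Ind.inv (x : XS W z X) {g : Γ} {π : Perm (Fin 5)} (h : Ind z D e g π) :
    Ind z D e g⁻¹ π⁻¹ := by
  refine ⟨inv_mem h.1, fun s => ?_⟩
  have := ((h.2 (π⁻¹ s)).conj x (inv_mem h.1)).symm x
  simpa [mul_assoc] using this

theorem F5.exists_ind (c : Ctx Γ B) (x : XS W z X) (h : F5 W z X D e) {g : Γ}
    (hg : g ∈ normalizer (D : Set Γ)) : ∃ π, Ind z D e g π := by
  have : ∀ s, ∃ t, InA z D (g * e s * g⁻¹) (e t) := by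
    intro s
    refine (h.inv c x (x.normal.conj_mem _ (h.mem s) g) (fun d hd => ?_) ?_).resolve_left ?_
    · have := h.cent s (g⁻¹ * d * g) (by
        simpa using (mem_normalizer_iff.mp (inv_mem hg) d).mp hd)
      calc g * e s * g⁻¹ * d = g * (e s * (g⁻¹ * d * g)) * g⁻¹ := by group
        _ = _ := by rw [this]; group
    · calc g * e s * g⁻¹ * (g * e s * g⁻¹) = g * (e s * e s) * g⁻¹ := by group
        _ = 1 := by rw [h.sq]; simp
    · intro h1
      have := h1.conj x (inv_mem hg)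
      exact h.not_inA_one x s (by simpa [mul_assoc] using this)
  choose f hf using this
  have hi : Function.Injective f := by
    intro s t hst
    have := ((hf s).trans x (hst ▸ (hf t).symm x)).conj x (inv_mem hg)
    exact h.eq_of_inA x (by simpa [mul_assoc] using this)
  exact ⟨Equiv.ofBijective f (Finite.injective_iff_bijective.mp hi), hg, hf⟩

theorem F5.qd (x : XS W z X) (h : F5 W z X D e) :
    QD W z X (D ⊔ zpowers (e 0)) (e 2 * e 3) (e 3 * e 4) := by
  have cen : ∀ f : Γ, (∀ d ∈ D, f * d = d * f) → f * e 0 = e 0 * f →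
      ∀ d ∈ D ⊔ zpowers (e 0), f * d = d * f := by
    intro f h1 h2 d hd
    have : D ⊔ zpowers (e 0) ≤ centralizer {f} :=
      sup_le (fun d hd => mem_centralizer_singleton_iff.mpr (h1 d hd).symm)
        (zpowers_le.mpr (mem_centralizer_singleton_iff.mpr h2.symm))
    exact (mem_centralizer_singleton_iff.mp (this hd)).symm
  have e0 : e 0 ∈ D ⊔ zpowers (e 0) := mem_sup_right (mem_zpowers _)
  have hP : InA z (D ⊔ zpowers (e 0)) (e 0 * (e 0 * e 1 * e 2 * e 3 * e 4)) 1 := by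
    have h1 := ((h.prod x).mono (le_sup_left (b := zpowers (e 0)))).mul_left x (e 0)
    exact h1.trans x ⟨e 0, e0, Or.inl (by simp)⟩
  refine ⟨sup_le h.le (zpowers_le.mpr (h.mem 0)), ?_, X.mul_mem (h.mem _) (h.mem _),
    X.mul_mem (h.mem _) (h.mem _), cen _ (cent_mul (h.cent _) (h.cent _)) (eq_of_mul_one (by simp only [mul_assoc, h.nf x])),
    cen _ (cent_mul (h.cent _) (h.cent _)) (eq_of_mul_one (by simp only [mul_assoc, h.nf x])), h.pair_sq x (by decide),
    h.pair_sq x (by decide), eq_of_mul_one (by simp only [mul_assoc, h.nf x]), fun f hf hc => ?_⟩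
  · obtain ⟨w, hw0, hw⟩ := h.fix
    have key : ∀ v : W, v ≠ 0 → (∀ d ∈ D, d • v = v) → e 0 • v = v →
        ∃ w : W, w ≠ 0 ∧ ∀ d ∈ D ⊔ zpowers (e 0), d • w = w := by
      intro v h0 h1 h2
      have : D ⊔ zpowers (e 0) ≤ MulAction.stabilizer Γ v :=
        sup_le (fun d hd => h1 d hd) (zpowers_le.mpr h2)
      exact ⟨v, h0, fun d hd => this hd⟩
    by_cases h0 : w + e 0 • w = 0
    · refine key (e 1 • w) (fun h1 => hw0 ((smul_eq_zero_iff_eq _).mp h1)) (fun d hd => ?_) ?_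
      · rw [← mul_smul, ← h.cent 1 d hd, mul_smul, hw d hd]
      · rw [← mul_smul, h.anti 0 1 (by decide), mul_smul, mul_smul, x.neg,
          eq_neg_of_add_eq_zero_right h0]
        simp
    · refine key _ h0 (fun d hd => ?_) ?_
      · rw [smul_add, ← mul_smul, ← h.cent 0 d hd, mul_smul, hw d hd]
      · rw [smul_add, ← mul_smul, h.sq, one_smul, add_comm]
  have hf0 := hc _ e0
  rcases h.all f hf (fun d hd => hc d (mem_sup_left hd)) with h2 | ⟨s, h2⟩ | ⟨s, t, hst, h2⟩
  · exact Or.inl (h2.mono le_sup_left)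
  · by_cases hs : s = 0
    · subst hs
      exact Or.inl ((h2.mono le_sup_left).trans x ⟨e 0, e0, Or.inl (by simp)⟩)
    · exact (x.not_both ((h2.symm x).comm x (h.cent 0) hf0) (h.anti s 0 hs)).elim
  · have h3 := (h2.symm x).comm x (h.cent 0) hf0
    have h4 := h2.mono (le_sup_left (b := zpowers (e 0)))
    have hs : s = 0 ∨ s = 1 ∨ s = 2 ∨ s = 3 ∨ s = 4 := by clear * -; revert s; decide
    have ht : t = 0 ∨ t = 1 ∨ t = 2 ∨ t = 3 ∨ t = 4 := by clear * -; revert t; decide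
    rcases hs with rfl | rfl | rfl | rfl | rfl <;> rcases ht with rfl | rfl | rfl | rfl | rfl <;>
    first
      | exact absurd rfl hst
      | (refine (x.not_both h3 (eq_of_mul_one ?_)).elim; simp only [mul_assoc, h.nf x]; done)
      | (refine Or.inr (Or.inl (h4.trans x (InA.of_eq1 (Or.inl (eq_of_mul_one ?_)))))
         simp only [mul_assoc, h.nf x]; done)
      | (refine Or.inr (Or.inl (h4.trans x (hP.of_eq x (Or.inl (eq_of_mul_one ?_)))))
         simp only [mul_assoc, h.nf x]; done)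
      | (refine Or.inr (Or.inl (h4.trans x (InA.of_eq1 (Or.inr (eq_of_mul_one ?_)))))
         simp only [mul_assoc, h.nf x]; done)
      | (refine Or.inr (Or.inl (h4.trans x (hP.of_eq x (Or.inr (eq_of_mul_one ?_)))))
         simp only [mul_assoc, h.nf x]; done)
      | (refine Or.inr (Or.inr (Or.inl (h4.trans x (InA.of_eq1 (Or.inl (eq_of_mul_one ?_))))))
         simp only [mul_assoc, h.nf x]; done)
      | (refine Or.inr (Or.inr (Or.inl (h4.trans x (hP.of_eq x (Or.inl (eq_of_mul_one ?_))))))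
         simp only [mul_assoc, h.nf x]; done)
      | (refine Or.inr (Or.inr (Or.inl (h4.trans x (InA.of_eq1 (Or.inr (eq_of_mul_one ?_))))))
         simp only [mul_assoc, h.nf x]; done)
      | (refine Or.inr (Or.inr (Or.inl (h4.trans x (hP.of_eq x (Or.inr (eq_of_mul_one ?_))))))
         simp only [mul_assoc, h.nf x]; done)
      | (refine Or.inr (Or.inr (Or.inr (h4.trans x (InA.of_eq1 (Or.inl (eq_of_mul_one ?_))))))
         simp only [mul_assoc, h.nf x]; done)
      | (refine Or.inr (Or.inr (Or.inr (h4.trans x (hP.of_eq x (Or.inl (eq_of_mul_one ?_))))))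
         simp only [mul_assoc, h.nf x]; done)
      | (refine Or.inr (Or.inr (Or.inr (h4.trans x (InA.of_eq1 (Or.inr (eq_of_mul_one ?_))))))
         simp only [mul_assoc, h.nf x]; done)
      | (refine Or.inr (Or.inr (Or.inr (h4.trans x (hP.of_eq x (Or.inr (eq_of_mul_one ?_))))))
         simp only [mul_assoc, h.nf x]; done)

/-- the values of the ten quadratic forms at `u + 2 e₁ u` -/
theorem F5.vals (c : Ctx Γ B) (x : XS W z X) (h : F5 W z X D e) :
    ∃ (w : W) (ω : k), (∀ d ∈ D, d • w = w) ∧ ω ^ 3 = 1 ∧ ω ≠ 1 ∧ B ((e 0 * e 1) • w) w = 0 ∧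
      ∀ s t, s ≠ t → B ((e s * e t) • w) w = 0 → (s = 0 ∧ t = 1) ∨ (s = 1 ∧ t = 0) := by
  obtain ⟨u, ω, hu, h3, h1, qi, qj, qk, -⟩ := (h.qd x).tri c x
  have hu0 : e 0 • u = u := hu _ (mem_sup_right (mem_zpowers _))
  have huD : ∀ d ∈ D, d • u = u := fun d hd => hu d (mem_sup_left hd)
  have a01 := h.anti 0 1 (by decide)
  have hb0 : e 0 • e 1 • u = -(e 1 • u) := by
    rw [← mul_smul, a01, mul_smul, mul_smul, hu0, x.neg]
  have hbb : e 1 • e 1 • u = u := by rw [← mul_smul, h.sq, one_smul]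
  have i1 : (e 1)⁻¹ = e 1 := inv_eq_of_mul_eq_one_right (h.sq 1)
  have h4 : (4 : k) ≠ 0 := by
    rw [show (4 : k) = 2 * 2 by norm_num]; exact mul_ne_zero c.h2 c.h2
  have key : ∀ f : Γ, f * e 0 = e 0 * f → f * e 1 = e 1 * f → B (f • u) u ≠ 0 →
      B (f • (u + (2 : k) • e 1 • u)) (u + (2 : k) • e 1 • u) ≠ 0 ∧
      B ((e 0 * f) • (u + (2 : k) • e 1 • u)) (u + (2 : k) • e 1 • u) ≠ 0 ∧
      B ((e 1 * f) • (u + (2 : k) • e 1 • u)) (u + (2 : k) • e 1 • u) ≠ 0 := by
    intro f f0 f1 hq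
    have z1 : B (f • e 1 • u) u = 0 := by
      rw [← mul_smul]
      refine x.q_anti c hu0 ?_
      rw [mul_assoc, h.anti 1 0 (by decide), x.mz, ← mul_assoc f, f0, mul_assoc]
    have z2 : B (f • u) (e 1 • u) = 0 := by
      rw [← i1, ← c.adj, ← mul_smul, ← f1, mul_smul, z1]
    have z3 : B (f • e 1 • u) (e 1 • u) = B (f • u) u := by
      rw [← mul_smul, f1, mul_smul, c.inv]
    refine ⟨?_, ?_, ?_⟩
    · have : B (f • (u + (2 : k) • e 1 • u)) (u + (2 : k) • e 1 • u) = 5 * B (f • u) u := by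
        simp only [smul_add, smul_comm f (2 : k), map_add, map_smul, LinearMap.add_apply,
          LinearMap.smul_apply, smul_eq_mul, z1, z2, z3]
        ring
      rw [this]; exact mul_ne_zero c.h5 hq
    · have : B ((e 0 * f) • (u + (2 : k) • e 1 • u)) (u + (2 : k) • e 1 • u) =
          -(3 * B (f • u) u) := by
        rw [← f0, mul_smul]
        simp only [smul_add, smul_comm _ (2 : k), hu0, hb0, smul_neg, map_add, map_smul, map_neg,
          LinearMap.add_apply, LinearMap.neg_apply,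
          LinearMap.smul_apply, smul_eq_mul, z1, z2, z3]
        ring
      rw [this]; exact neg_ne_zero.mpr (mul_ne_zero c.h3 hq)
    · have : B ((e 1 * f) • (u + (2 : k) • e 1 • u)) (u + (2 : k) • e 1 • u) =
          4 * B (f • u) u := by
        rw [← f1, mul_smul]
        simp only [smul_add, smul_comm _ (2 : k), hbb, map_add, map_smul,
          LinearMap.add_apply, LinearMap.smul_apply, smul_eq_mul, z1, z2, z3]
        ring
      rw [this]; exact mul_ne_zero h4 hq
  have hw : ∀ d ∈ D, d • (u + (2 : k) • e 1 • u) = u + (2 : k) • e 1 • u := fun d hd => by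
    rw [smul_add, smul_comm d, ← mul_smul, ← h.cent 1 d hd, mul_smul, huD d hd]
  obtain ⟨i1', i2, i3⟩ := key _ (eq_of_mul_one (by simp only [mul_assoc, h.nf x]))
    (eq_of_mul_one (by simp only [mul_assoc, h.nf x])) qi
  obtain ⟨j1, j2, j3⟩ := key _ (eq_of_mul_one (by simp only [mul_assoc, h.nf x]))
    (eq_of_mul_one (by simp only [mul_assoc, h.nf x])) qj
  obtain ⟨k1, k2, k3⟩ := key _ (eq_of_mul_one (by simp only [mul_assoc, h.nf x]))
    (eq_of_mul_one (by simp only [mul_assoc, h.nf x])) qk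
  refine ⟨_, ω, hw, h3, h1, ?_, fun s t hst h0 => ?_⟩
  · have z1 : B (e 1 • u) u = 0 := c.q_invol (h.sq 1) u
    have z2 : B u (e 1 • u) = 0 := by rw [c.skew, z1, neg_zero]
    rw [mul_smul]
    simp only [smul_add, smul_comm _ (2 : k), hbb, hu0, hb0, map_add, map_smul, map_neg,
      LinearMap.add_apply, LinearMap.neg_apply, LinearMap.smul_apply, smul_eq_mul, z1, z2, c.alt]
    ring
  have tr : ∀ g : Γ, B (g • (u + (2 : k) • e 1 • u)) (u + (2 : k) • e 1 • u) ≠ 0 →
      ¬ InA z D (e s * e t) g := by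
    intro g hg hI
    have := x.q_InA (B := B) hw hI
    rw [h0] at this
    exact pow_ne_zero 2 hg (by rw [← this]; simp)
  have hP := h.prod x
  have hs : s = 0 ∨ s = 1 ∨ s = 2 ∨ s = 3 ∨ s = 4 := by clear * -; revert s; decide
  have ht : t = 0 ∨ t = 1 ∨ t = 2 ∨ t = 3 ∨ t = 4 := by clear * -; revert t; decide
  rcases hs with rfl | rfl | rfl | rfl | rfl <;> rcases ht with rfl | rfl | rfl | rfl | rfl <;>
  first
    | exact absurd rfl hst
    | exact Or.inl ⟨rfl, rfl⟩
    | exact Or.inr ⟨rfl, rfl⟩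
    | (refine (tr _ i1' (InA.of_eq1 (Or.inl (eq_of_mul_one ?_)))).elim
       simp only [mul_assoc, h.nf x]; done)
    | (refine (tr _ i1' (InA.of_eq1 (Or.inr (eq_of_mul_one ?_)))).elim
       simp only [mul_assoc, h.nf x]; done)
    | (refine (tr _ j1 (InA.of_eq1 (Or.inl (eq_of_mul_one ?_)))).elim
       simp only [mul_assoc, h.nf x]; done)
    | (refine (tr _ j1 (InA.of_eq1 (Or.inr (eq_of_mul_one ?_)))).elim
       simp only [mul_assoc, h.nf x]; done)
    | (refine (tr _ k1 (InA.of_eq1 (Or.inl (eq_of_mul_one ?_)))).elim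
       simp only [mul_assoc, h.nf x]; done)
    | (refine (tr _ k1 (InA.of_eq1 (Or.inr (eq_of_mul_one ?_)))).elim
       simp only [mul_assoc, h.nf x]; done)
    | (refine (tr _ i2 (hP.of_eq x (Or.inl (eq_of_mul_one ?_)))).elim
       simp only [mul_assoc, h.nf x]; done)
    | (refine (tr _ i2 (hP.of_eq x (Or.inr (eq_of_mul_one ?_)))).elim
       simp only [mul_assoc, h.nf x]; done)
    | (refine (tr _ i3 (hP.of_eq x (Or.inl (eq_of_mul_one ?_)))).elim
       simp only [mul_assoc, h.nf x]; done)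
    | (refine (tr _ i3 (hP.of_eq x (Or.inr (eq_of_mul_one ?_)))).elim
       simp only [mul_assoc, h.nf x]; done)
    | (refine (tr _ j2 (hP.of_eq x (Or.inl (eq_of_mul_one ?_)))).elim
       simp only [mul_assoc, h.nf x]; done)
    | (refine (tr _ j2 (hP.of_eq x (Or.inr (eq_of_mul_one ?_)))).elim
       simp only [mul_assoc, h.nf x]; done)
    | (refine (tr _ j3 (hP.of_eq x (Or.inl (eq_of_mul_one ?_)))).elim
       simp only [mul_assoc, h.nf x]; done)
    | (refine (tr _ j3 (hP.of_eq x (Or.inr (eq_of_mul_one ?_)))).elim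
       simp only [mul_assoc, h.nf x]; done)
    | (refine (tr _ k2 (hP.of_eq x (Or.inl (eq_of_mul_one ?_)))).elim
       simp only [mul_assoc, h.nf x]; done)
    | (refine (tr _ k2 (hP.of_eq x (Or.inr (eq_of_mul_one ?_)))).elim
       simp only [mul_assoc, h.nf x]; done)
    | (refine (tr _ k3 (hP.of_eq x (Or.inl (eq_of_mul_one ?_)))).elim
       simp only [mul_assoc, h.nf x]; done)
    | (refine (tr _ k3 (hP.of_eq x (Or.inr (eq_of_mul_one ?_)))).elim
       simp only [mul_assoc, h.nf x]; done)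

theorem F5.step (c : Ctx Γ B) (x : XS W z X) (h : F5 W z X D e) : ∃ g, Ind z D e g c3 := by
  obtain ⟨w, ω, hw, h3, h1, h01, hnz⟩ := h.vals c x
  have hω : ω ≠ 0 := by rintro rfl; simp at h3
  have hw0 : w ≠ 0 := by
    rintro rfl
    have := hnz 2 3 (by decide) (by simp)
    revert this; decide
  have stab : ∀ d ∈ X, d • w = w → d ∈ D := by
    intro d hd hdw
    have hc : ∀ d' ∈ D, d * d' = d' * d := by
      intro d' hd'
      refine (x.comm d hd d' (h.le hd')).resolve_right fun e => hw0 ?_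
      have h1 : (d * d') • w = w := by rw [mul_smul, hw d' hd', hdw]
      rw [e, mul_smul, mul_smul, hdw, hw d' hd', x.neg] at h1
      have : (2 : k) • w = 0 := by rw [two_smul]; nth_rewrite 1 [← h1]; simp
      exact (smul_eq_zero.mp this).resolve_left c.h2
    rcases h.inv c x hd hc (x.sq_of_fix c hd hw0 hdw) with ⟨d', hd', e1 | e1⟩ | ⟨s, hs⟩
    · rw [e1, one_mul]; exact hd'
    · exfalso
      rw [e1, one_mul, mul_smul, hw d' hd', x.neg] at hdw
      have : (2 : k) • w = 0 := by rw [two_smul]; nth_rewrite 1 [← hdw]; simp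
      exact hw0 ((smul_eq_zero.mp this).resolve_left c.h2)
    · exfalso
      obtain ⟨t, hst, ht⟩ : ∃ t, s ≠ t ∧ ¬ ((s = 0 ∧ t = 1) ∨ (s = 1 ∧ t = 0)) := by
        clear * -; revert s; decide
      refine ht (hnz s t hst (x.q_anti c hdw ?_))
      refine (x.comm _ (X.mul_mem (h.mem s) (h.mem t)) d hd).resolve_left fun e1 => ?_
      exact x.not_both ((hs.symm x).comm x (cent_mul (h.cent s) (h.cent t)) e1.symm).symm
        (h.pair_anti x hst)
  obtain ⟨g, hg⟩ := c.ev w ω hω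
  have hg' : g⁻¹ • w = ω⁻¹ • w := by
    rw [inv_smul_eq_iff, smul_comm, hg, smul_smul, inv_mul_cancel₀ hω, one_smul]
  have hN : g ∈ normalizer (D : Set Γ) := by
    refine mem_normalizer_iff.mpr fun d => ⟨fun hd => stab _ (x.normal.conj_mem _ (h.le hd) g) ?_,
      fun hd => stab _ (by simpa [mul_assoc] using x.normal.conj_mem _ (h.le hd) g⁻¹) ?_⟩
    · rw [mul_smul, mul_smul, hg', smul_comm d, hw d hd, ← hg', smul_inv_smul]
    · have := hw _ hd
      rw [mul_smul, mul_smul, hg', smul_comm d, smul_comm g, inv_smul_eq_iff₀ hω, ← hg] at this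
      exact smul_left_cancel g this
  obtain ⟨π, hπ⟩ := h.exists_ind c x hN
  have F : ∀ s t, ω * B ((e (π s) * e (π t)) • w) w ^ 2 = B ((e s * e t) • w) w ^ 2 := by
    intro s t
    have h1 := x.q_InA (B := B) hw ((hπ.2 s).mul x (hπ.2 t) (h.cent _))
    rw [← h1, ← c.q_eig hg (e s * e t),
      show g * e s * g⁻¹ * (g * e t * g⁻¹) = g * (e s * e t) * g⁻¹ by group]
    linear_combination (-ω * B ((g * (e s * e t) * g⁻¹) • w) w ^ 2) * h3
  have hc := comb π (by
    refine hnz _ _ (π.injective.ne (by decide)) ?_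
    have := F 0 1
    rw [h01] at this
    simpa [hω] using this) (by
    intro s t hst hs ht hh
    have h0 : B ((e s * e t) • w) w ≠ 0 := fun h0 => by
      rcases hnz s t hst h0 with ⟨rfl, -⟩ | ⟨rfl, -⟩ <;> exact absurd hs (by decide)
    have := F s t
    have h2 : B ((e (π s) * e (π t)) • w) w ^ 2 = B ((e s * e t) • w) w ^ 2 := by
      rcases hh with ⟨e1, e2⟩ | ⟨e1, e2⟩ <;> rw [e1, e2]
      rw [h.anti t s hst.symm, x.q_z, neg_sq]
    rw [h2] at this
    exact h1 (mul_right_cancel₀ (pow_ne_zero 2 h0) (by rw [this, one_mul])))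
  rcases hc with hc | hc
  · exact ⟨_, hc ▸ hπ.mul x hπ⟩
  · exact ⟨_, hc ▸ (hπ.mul x hπ).inv x⟩

theorem F5.false (c : Ctx Γ B) (x : XS W z X) (h : F5 W z X D e) : False := by
  obtain ⟨α, β, hc⟩ := comm3
  have key : ∀ n : ℕ, ∀ σ : Perm (Fin 5), ∃ g ∈ derivedSeries Γ n,
      Ind z D e g (σ * c3 * σ⁻¹) := by
    intro n
    induction n with
    | zero =>
      intro σ
      obtain ⟨g, hg, hg'⟩ := (h.perm σ).step c x
      exact ⟨g, mem_top g, hg, fun s => by simpa using hg' (σ⁻¹ s)⟩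
    | succ n ih =>
      intro σ
      obtain ⟨a, ha, ha'⟩ := ih (σ * α)
      obtain ⟨b, hb, hb'⟩ := ih (σ * β)
      refine ⟨⁅a, b⁆, commutator_mem_commutator ha hb, ?_⟩
      have := ((ha'.mul x hb').mul x (ha'.inv x)).mul x (hb'.inv x)
      rw [commutatorElement_def]
      convert this using 1
      conv_lhs => rw [hc]
      rw [commutatorElement_def]; group
  obtain ⟨n, hn⟩ := c.solv.solvable
  obtain ⟨g, hg, -, hg'⟩ := key n 1
  rw [hn, mem_bot] at hg
  have := h.eq_of_inA x (s := 2) (by simpa [hg] using hg' 2)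
  revert this; decide

/-- (plan Five) `X` is a quaternion group, since otherwise `A₅` is involved in `Γ` -/
theorem QD.eq_bot (c : Ctx Γ B) (x : XS W z X) {D : Subgroup Γ} {i j : Γ} (h : QD W z X D i j) :
    D = ⊥ := by
  by_contra hD
  obtain ⟨⟨a, ha⟩, ha1⟩ := ne_bot_iff_exists_ne_one.mp hD
  have ha1 : a ≠ 1 := fun e => ha1 (Subtype.ext e)
  obtain ⟨w, hw0, hw⟩ := h.fix
  have nz : ∀ g : Γ, g • w = w → (z * g) • w ≠ w := by
    intro g hg h1
    rw [mul_smul, hg, x.neg] at h1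
    have : (2 : k) • w = 0 := by rw [two_smul]; nth_rewrite 1 [← h1]; simp
    exact hw0 ((smul_eq_zero.mp this).resolve_left c.h2)
  have haa := x.sq_of_fix c (h.le ha) hw0 (hw a ha)
  have hia := h.ic a ha
  have hja := h.jc a ha
  have hji : j * i = z * (i * j) := by rw [h.ij, x.zmul]
  obtain ⟨y0, m0, p0⟩ : ∃ y ∈ X, y * a = z * (a * y) := by
    by_contra! H
    rcases x.cent a fun y hy => ((x.comm y hy a (h.le ha)).resolve_right (H y hy)).symm with e | e
    · exact ha1 e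
    · exact nz 1 (one_smul _ _) (by rw [mul_one, ← e]; exact hw a ha)
  obtain ⟨y1, m1, p1, q1⟩ : ∃ y ∈ X, y * a = z * (a * y) ∧ y * i = i * y := by
    rcases x.comm y0 m0 i h.imem with e | e
    · exact ⟨y0, m0, p0, e⟩
    · refine ⟨y0 * j, X.mul_mem m0 h.jmem, ?_, ?_⟩
      · rw [mul_assoc, hja, ← mul_assoc, p0]; simp only [mul_assoc]
      · rw [mul_assoc, hji, x.mz, ← mul_assoc y0, e, mul_assoc z, x.zmul, mul_assoc]
  obtain ⟨y2, m2, p2, q2, r2⟩ : ∃ y ∈ X, y * a = z * (a * y) ∧ y * i = i * y ∧ y * j = j * y := by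
    rcases x.comm y1 m1 j h.jmem with e | e
    · exact ⟨y1, m1, p1, q1, e⟩
    · refine ⟨y1 * i, X.mul_mem m1 h.imem, ?_, ?_, ?_⟩
      · rw [mul_assoc, hia, ← mul_assoc, p1]; simp only [mul_assoc]
      · rw [← mul_assoc, ← q1]
      · rw [mul_assoc, h.ij, x.mz, ← mul_assoc y1, e, mul_assoc z, x.zmul, mul_assoc]
  obtain ⟨y, hy, hya, hyi, hyj, hyy⟩ : ∃ y ∈ X, y * a = z * (a * y) ∧ y * i = i * y ∧
      y * j = j * y ∧ y * y = 1 := by
    rcases x.sq y2 m2 with e | e
    · exact ⟨y2, m2, p2, q2, r2, e⟩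
    · refine ⟨y2 * a, X.mul_mem m2 (h.le ha), ?_, ?_, ?_, ?_⟩
      · conv_lhs => rw [p2]
        simp only [mul_assoc]
      · rw [mul_assoc, ← hia, ← mul_assoc, q2, mul_assoc]
      · rw [mul_assoc, ← hja, ← mul_assoc, r2, mul_assoc]
      · rw [x.sq_mul_anti p2, e, haa, mul_one, x.zz]
  have nf : (∀ u, y * (a * u) = z * (a * (y * u))) ∧ (∀ u, i * (a * u) = a * (i * u)) ∧
      (∀ u, j * (a * u) = a * (j * u)) ∧ (∀ u, i * (y * u) = y * (i * u)) ∧
      (∀ u, j * (y * u) = y * (j * u)) ∧ (∀ u, j * (i * u) = z * (i * (j * u))) ∧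
      (∀ u, a * (a * u) = u) ∧ (∀ u, y * (y * u) = u) ∧ (∀ u, i * (i * u) = z * u) ∧
      (∀ u, j * (j * u) = z * u) ∧ (∀ u, a * (z * u) = z * (a * u)) ∧
      (∀ u, y * (z * u) = z * (y * u)) ∧ (∀ u, i * (z * u) = z * (i * u)) ∧
      (∀ u, j * (z * u) = z * (j * u)) ∧ (∀ u, z * (z * u) = u) := by
    refine ⟨fun u => ?_, fun u => ?_, fun u => ?_, fun u => ?_, fun u => ?_, fun u => ?_,
      fun u => ?_, fun u => ?_, fun u => ?_, fun u => ?_, x.mz _, x.mz _, x.mz _, x.mz _, x.zmul⟩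
    · rw [← mul_assoc, hya]; simp only [mul_assoc]
    · rw [← mul_assoc, hia, mul_assoc]
    · rw [← mul_assoc, hja, mul_assoc]
    · rw [← mul_assoc, ← hyi, mul_assoc]
    · rw [← mul_assoc, ← hyj, mul_assoc]
    · rw [← mul_assoc, hji]; simp only [mul_assoc]
    · rw [← mul_assoc, haa, one_mul]
    · rw [← mul_assoc, hyy, one_mul]
    · rw [← mul_assoc, h.ii]
    · rw [← mul_assoc, h.jj]
  let D' := D ⊓ centralizer {y}
  have hD' : ∀ d, d ∈ D' ↔ d ∈ D ∧ y * d = d * y := fun d => by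
    simp [D', mem_centralizer_singleton_iff, eq_comm]
  have hDD : ∀ d ∈ D, ∀ d' ∈ D, d * d' = d' * d := by
    intro d hd d' hd'
    refine (x.comm d (h.le hd) d' (h.le hd')).resolve_right fun e => ?_
    exact nz _ (hw _ (D.mul_mem hd' hd)) (e ▸ hw _ (D.mul_mem hd hd'))
  have split : ∀ d ∈ D, d ∈ D' ∨ a * d ∈ D' := by
    intro d hd
    rcases x.comm y hy d (h.le hd) with e | e
    · exact Or.inl ((hD' d).mpr ⟨hd, e⟩)
    · refine Or.inr ((hD' _).mpr ⟨D.mul_mem ha hd, ?_⟩)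
      rw [← mul_assoc, hya, mul_assoc, mul_assoc, e, x.mz, x.zmul, mul_assoc]
  have centD : ∀ e : Γ, (∀ d ∈ D', e * d = d * e) → e * a = a * e → ∀ d ∈ D, e * d = d * e := by
    intro e h1 h2 d hd
    rcases split d hd with h | h
    · exact h1 d h
    · have := h1 _ h
      rw [← mul_assoc, h2, mul_assoc, mul_assoc] at this
      exact mul_left_cancel this
  have cy : ∀ d ∈ D', y * d = d * y := fun d hd => ((hD' d).mp hd).2
  have ca : ∀ d ∈ D', a * d = d * a := fun d hd => hDD a ha d ((hD' d).mp hd).1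
  have ci : ∀ d ∈ D', i * d = d * i := fun d hd => h.ic d ((hD' d).mp hd).1
  have cj : ∀ d ∈ D', j * d = d * j := fun d hd => h.jc d ((hD' d).mp hd).1
  have sp : ∀ f g : Γ, InA z D f g → InA z D' f g ∨ InA z D' f (g * a) := by
    rintro f g ⟨d, hd, h3⟩
    rcases split d hd with h4 | h4
    · exact Or.inl ⟨d, h4, h3⟩
    · refine Or.inr ⟨a * d, h4, ?_⟩
      rwa [mul_assoc g a, ← mul_assoc a a, haa, one_mul]
  have fin5 : ∀ s : Fin 5, s = 0 ∨ s = 1 ∨ s = 2 ∨ s = 3 ∨ s = 4 := by decide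
  let E : Fin 5 → Γ := ![a, y, y * a * i, y * a * j, y * a * (i * j)]
  have E0 : E 0 = a := rfl
  have E1 : E 1 = y := rfl
  have E2 : E 2 = y * a * i := rfl
  have E3 : E 3 = y * a * j := rfl
  have E4 : E 4 = y * a * (i * j) := rfl
  have hma := h.le ha
  have hmi := h.imem
  have hmj := h.jmem
  refine F5.false c x (D := D') (e := E) ⟨inf_le_left.trans h.le,
    ⟨w, hw0, fun d hd => hw d ((hD' d).mp hd).1⟩, fun s => ?_, fun s => ?_, fun s => ?_,
    fun s t hst => ?_, fun f hf hc => ?_⟩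
  · rcases fin5 s with rfl | rfl | rfl | rfl | rfl <;> simp only [E0, E1, E2, E3, E4] <;>
      apply_rules [X.mul_mem]
  · rcases fin5 s with rfl | rfl | rfl | rfl | rfl
    exacts [ca, cy, cent_mul (cent_mul cy ca) ci, cent_mul (cent_mul cy ca) cj,
      cent_mul (cent_mul cy ca) (cent_mul ci cj)]
  · rcases fin5 s with rfl | rfl | rfl | rfl | rfl <;>
      exact eq_of_mul_one (by simp only [E0, E1, E2, E3, E4, mul_assoc, nf, one_mul])
  · rcases fin5 s with rfl | rfl | rfl | rfl | rfl <;>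
      rcases fin5 t with rfl | rfl | rfl | rfl | rfl <;>
      first
        | exact absurd rfl hst
        | exact eq_of_mul_one (by simp only [E0, E1, E2, E3, E4, mul_assoc, nf])
  have one : ∀ (g : Γ) (s : Fin 5), InA z D' f g → (g * 1 = E s * 1 ∨ g * 1 = z * E s * 1) →
      InA z D' f 1 ∨ (∃ s, InA z D' f (E s)) ∨ ∃ s t, s ≠ t ∧ InA z D' f (E s * E t) :=
    fun g s h1 h2 => Or.inr (Or.inl ⟨s, h1.trans x (InA.of_eq1 (by simpa using h2))⟩)
  have two : ∀ (g : Γ) (s t : Fin 5), s ≠ t → InA z D' f g →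
      (g * 1 = E s * E t * 1 ∨ g * 1 = z * (E s * E t) * 1) →
      InA z D' f 1 ∨ (∃ s, InA z D' f (E s)) ∨ ∃ s t, s ≠ t ∧ InA z D' f (E s * E t) :=
    fun g s t hst h1 h2 =>
      Or.inr (Or.inr ⟨s, t, hst, h1.trans x (InA.of_eq1 (by simpa using h2))⟩)
  rcases x.comm f hf a hma with e | e
  · rcases h.all f hf (centD f hc e) with h1 | h1 | h1 | h1 <;> rcases sp _ _ h1 with h2 | h2
    · exact Or.inl h2
    · exact one _ 0 h2 (by simp only [E0, one_mul, true_or])
    · exact two _ 3 4 (by decide) h2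
        (by simp only [E0, E1, E2, E3, E4, mul_assoc, nf, one_mul, true_or, or_true])
    · exact two _ 1 2 (by decide) h2
        (by simp only [E0, E1, E2, E3, E4, mul_assoc, nf, one_mul, true_or, or_true])
    · exact two _ 2 4 (by decide) h2
        (by simp only [E0, E1, E2, E3, E4, mul_assoc, nf, one_mul, true_or, or_true])
    · exact two _ 1 3 (by decide) h2
        (by simp only [E0, E1, E2, E3, E4, mul_assoc, nf, one_mul, true_or, or_true])
    · exact two _ 2 3 (by decide) h2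
        (by simp only [E0, E1, E2, E3, E4, mul_assoc, nf, one_mul, true_or, or_true])
    · exact two _ 1 4 (by decide) h2
        (by simp only [E0, E1, E2, E3, E4, mul_assoc, nf, one_mul, true_or, or_true])
  · have h0 := h.all (y * f) (X.mul_mem hy hf) (centD _ (cent_mul cy hc) (by
      rw [mul_assoc, e, x.mz, ← mul_assoc y, hya]; simp only [mul_assoc, x.zmul]))
    have tr : ∀ g, InA z D (y * f) g → InA z D f (y * g) := fun g hg => by
      simpa [nf] using hg.mul_left x y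
    rcases h0 with h1 | h1 | h1 | h1 <;> rcases sp _ _ (tr _ h1) with h2 | h2
    · exact one _ 1 h2
        (by simp only [E0, E1, E2, E3, E4, mul_assoc, nf, one_mul, true_or, or_true])
    · exact two _ 0 1 (by decide) h2
        (by simp only [E0, E1, E2, E3, E4, mul_assoc, nf, one_mul, true_or, or_true])
    · exact two _ 0 2 (by decide) h2
        (by simp only [E0, E1, E2, E3, E4, mul_assoc, nf, one_mul, true_or, or_true])
    · exact one _ 2 h2
        (by simp only [E0, E1, E2, E3, E4, mul_assoc, nf, one_mul, true_or, or_true])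
    · exact two _ 0 3 (by decide) h2
        (by simp only [E0, E1, E2, E3, E4, mul_assoc, nf, one_mul, true_or, or_true])
    · exact one _ 3 h2
        (by simp only [E0, E1, E2, E3, E4, mul_assoc, nf, one_mul, true_or, or_true])
    · exact two _ 0 4 (by decide) h2
        (by simp only [E0, E1, E2, E3, E4, mul_assoc, nf, one_mul, true_or, or_true])
    · exact one _ 4 h2
        (by simp only [E0, E1, E2, E3, E4, mul_assoc, nf, one_mul, true_or, or_true])

end CfsgLib.AH
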