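import Cfsg.Agent.Lib.AH.X
import Cfsg.Agent.Lib.AH.Five
import Cfsg.Agent.Lib.AH.Q8

set_option autoImplicit false

namespace CfsgLib.AH

open Subgroup

variable {k Γ W : Type*} [Field k] [Group Γ] [Finite Γ] [AddCommGroup W] [Module k W]
  [DistribMulAction Γ W] [SMulCommClass Γ k W] {B : W →ₗ[k] W →ₗ[k] k}

/-- (plan Core) -/
theorem Ctx.core (c : Ctx Γ B) : ∃ (z ρ e : Γ) (w : W) (ω : k), (∀ v : W, z • v = -v) ∧ w ≠ 0 ∧
    ω ^ 3 = 1 ∧ (∀ g : Γ, g • w = w → g = 1) ∧ ρ • w = ω • w ∧ (ρ⁻¹ * e * ρ * e⁻¹) ^ 2 = z ∧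
    ¬ ∀ x : Γ, ¬ IsConj x (z * x) → ∀ n : ℕ, n.Coprime (orderOf x) → IsConj x (x ^ n) := by
  obtain ⟨z, X, x⟩ := c.exists_XS
  obtain ⟨D, i, j, h⟩ := x.exists_QD c
  obtain rfl := h.eq_bot c x
  obtain ⟨u, ω, -, h3, h1, qi, qj, -, dij, dik, djk⟩ := h.tri c x
  have hu : u ≠ 0 := by
    rintro rfl
    simp at qi
  have hω : ω ≠ 0 := by
    rintro rfl
    simp at h3
  obtain ⟨ρ, hρ⟩ := c.ev u ω hω
  have hall : ∀ e ∈ X, ∃ f, (f = 1 ∨ f = i ∨ f = j ∨ f = i * j) ∧ (e = f ∨ e = z * f) := by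
    intro e he
    have key : ∀ f, InA z ⊥ e f → e = f ∨ e = z * f := by
      rintro f ⟨d, hd, e1⟩
      rwa [mem_bot.1 hd, mul_one] at e1
    rcases h.all e he (fun d hd => by rw [mem_bot.1 hd]; simp) with e1 | e1 | e1 | e1
    · exact ⟨_, by simp, key _ e1⟩
    · exact ⟨_, by simp, key _ e1⟩
    · exact ⟨_, by simp, key _ e1⟩
    · exact ⟨_, by simp, key _ e1⟩
  have hn : ∀ g : Γ, ∀ e : Γ, (e = i ∨ e = j) → ∃ f : Γ, (f = i ∨ f = j ∨ f = i * j) ∧
      (g * e * g⁻¹ = f ∨ g * e * g⁻¹ = z * f) := by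
    intro g e he
    have h4 : e ∈ X ∧ e * e = z := by
      rcases he with rfl | rfl
      exacts [⟨h.imem, h.ii⟩, ⟨h.jmem, h.jj⟩]
    obtain ⟨f, hf, e1⟩ := hall _ (x.normal.conj_mem e h4.1 g)
    refine ⟨f, hf.resolve_left ?_, e1⟩
    rintro rfl
    have h5 : g * e * g⁻¹ * (g * e * g⁻¹) = 1 := by
      rcases e1 with e1 | e1 <;> simp [e1, x.zz]
    rw [conj_mul, h4.2, conj_eq_one_iff] at h5
    exact x.z1 h5
  have hc : ∀ g : Γ, g * i = i * g → g * j = j * g → g = 1 ∨ g = z := by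
    intro g (gi : Commute g i) (gj : Commute g j)
    have gz : Commute g z := (x.zc g).symm
    refine x.cent g fun e he => ?_
    obtain ⟨f, hf, e1⟩ := hall e he
    have : Commute g f := by
      rcases hf with rfl | rfl | rfl | rfl
      exacts [Commute.one_right g, gi, gj, gi.mul_right gj]
    rcases e1 with rfl | rfl
    exacts [this, gz.mul_right this]
  have hst : ∀ g : Γ, g • u = u → g = 1 := by
    intro g hg
    have key : ∀ e, B ((g * e * g⁻¹) • u) u = B (e • u) u := fun e => by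
      simpa using c.q_eig (a := 1) (hg.trans (one_smul k u).symm) e
    have key2 : ∀ e, (e = i ∨ e = j) → g * e = e * g := by
      intro e he
      obtain ⟨f, hf, e1⟩ := hn g e he
      have h4 := key e
      have h5 : B (f • u) u ^ 2 = B (e • u) u ^ 2 := by
        rcases e1 with e1 | e1
        · rw [← h4, e1]
        · rw [← h4, e1, x.q_z, neg_sq]
      have h6 : f = e := by
        rcases he with rfl | rfl <;> rcases hf with rfl | rfl | rfl
        exacts [rfl, absurd h5.symm dij, absurd h5.symm dik, absurd h5 dij, rfl, absurd h5.symm djk]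
      subst h6
      rcases e1 with e1 | e1
      · exact mul_inv_eq_iff_eq_mul.1 e1
      · rw [e1, x.q_z] at h4
        have := c.two_mul_eq h4.symm
        rcases he with rfl | rfl
        exacts [absurd this qi, absurd this qj]
    refine (hc g (key2 i (Or.inl rfl)) (key2 j (Or.inr rfl))).resolve_right ?_
    rintro rfl
    rw [x.neg] at hg
    refine hu ((smul_eq_zero.1 (?_ : (2 : k) • u = 0)).resolve_left c.h2)
    rw [two_smul]
    exact eq_neg_iff_add_eq_zero.1 hg.symm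
  have hρ3 : ρ ^ 3 = 1 := hst _ (by
    simp only [pow_succ, pow_zero, one_mul, mul_smul, hρ, smul_comm ρ ω]
    rw [smul_smul, smul_smul, ← pow_two, ← pow_succ, h3, one_smul])
  have hmove : ρ * i * ρ⁻¹ ≠ i ∧ ρ * i * ρ⁻¹ ≠ z * i := by
    have h4 := c.q_eig hρ i
    have h5 : ¬ B ((ρ * i * ρ⁻¹) • u) u ^ 2 = B (i • u) u ^ 2 := fun e => h1 (by
      refine mul_right_cancel₀ (pow_ne_zero 2 qi) ?_
      have h6 := congrArg (· ^ 2) h4
      simp only [mul_pow] at h6
      rw [e] at h6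
      linear_combination h6 - ω * B (i • u) u ^ 2 * h3)
    exact ⟨fun e => h5 (by rw [e]), fun e => h5 (by rw [e, x.q_z, neg_sq])⟩
  refine ⟨z, ρ, i, u, ω, x.neg, hu, h3, hst, hρ, ?_, fun H => ?_⟩
  · obtain ⟨f, hf, e1⟩ := hn ρ⁻¹ i (Or.inl rfl)
    rw [inv_inv] at e1
    have ji : j * i = z * (i * j) := by rw [h.ij, x.zmul]
    have h4 : (f * i) ^ 2 = z := by
      rcases hf with rfl | rfl | rfl
      · exfalso
        rcases e1 with e1 | e1
        · exact hmove.1 (by nth_rewrite 1 [← e1]; group)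
        · refine hmove.2 ?_
          have : ρ * (ρ⁻¹ * f * ρ) * ρ⁻¹ = f := by group
          rw [e1, x.mz, mul_assoc z] at this
          rw [← x.zmul (ρ * f * ρ⁻¹), this]
      · rw [sq, x.sq_mul_anti ji, h.ii, h.jj, x.zz, mul_one]
      · rw [mul_assoc, ji, x.mz, ← mul_assoc i, h.ii, x.zmul, sq, h.jj]
    have h5 : ∀ a : Γ, (z * a) ^ 2 = a ^ 2 := fun a => by
      rw [(show Commute z a from x.zc a).mul_pow, sq z, x.zz, one_mul]
    rw [x.inv_eq h.ii, x.mz, h5]
    rcases e1 with e1 | e1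
    · rw [e1, h4]
    · rw [e1, mul_assoc, h5, h4]
  · obtain ⟨s, hs⟩ := isConj_iff.1 (H ρ (fun e => by
      obtain ⟨s, hs⟩ := isConj_iff.1 e
      have h4 := congrArg (· ^ 3) hs
      simp only [conj_pow, hρ3, (show Commute z ρ from x.zc ρ).mul_pow, pow_succ z, pow_zero,
        one_mul, x.zz, mul_one, mul_inv_cancel] at h4
      exact x.z1 h4.symm) 2 (Nat.Coprime.coprime_dvd_right (orderOf_dvd_of_pow_eq_one hρ3)
        (by norm_num)))
    obtain ⟨σ, h4, h5⟩ := q8 x.zc x.zz x.z1 h.ii h.jj h.ij hn hc hρ3 hmove (s := s)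
      (hs.trans (eq_inv_of_mul_eq_one_left (by rw [← pow_succ, hρ3])))
    refine h5 ?_
    have := H σ h5 5 (Nat.Coprime.coprime_dvd_right (orderOf_dvd_of_pow_eq_one (n := 8) (by
      rw [show 8 = 4 + 4 from rfl, pow_add, h4, x.zz])) (by norm_num))
    rwa [pow_succ, h4] at this

end CfsgLib.AH
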