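import Cfsg.Agent.Lib.AH.Defs

set_option autoImplicit false

namespace CfsgLib.AH

open Subgroup Finset

theorem exists_smooth (c : ℕ) : c ≠ 0 → (∀ p : ℕ, p.Prime → p ∣ c → p = 2 ∨ p = 3 ∨ p = 5) →
    ∃ i j k, c = 2 ^ i * 3 ^ j * 5 ^ k := by
  induction c using Nat.strong_induction_on with
  | _ c ih =>
  intro h0 h
  by_cases h1 : c = 1
  · exact ⟨0, 0, 0, h1⟩
  obtain ⟨p, hp, d, rfl⟩ := Nat.exists_prime_and_dvd h1
  have hd : d ≠ 0 := right_ne_zero_of_mul h0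
  obtain ⟨i, j, k, e⟩ := ih d (lt_mul_of_one_lt_left (Nat.pos_of_ne_zero hd) hp.one_lt) hd
    fun q hq e => h q hq (e.mul_left p)
  rcases h p hp (dvd_mul_right p d) with rfl | rfl | rfl
  · exact ⟨i + 1, j, k, by rw [e]; ring⟩
  · exact ⟨i, j + 1, k, by rw [e]; ring⟩
  · exact ⟨i, j, k + 1, by rw [e]; ring⟩

/-- partial geometric sums -/
def geo (p n : ℕ) : ℚ := ∑ i ∈ range n, 1 / (p : ℚ) ^ i

theorem geo_nonneg (p n : ℕ) : 0 ≤ geo p n := sum_nonneg fun _ _ => by positivity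

theorem geo_lt {p : ℕ} (hp : 2 ≤ p) (n : ℕ) : geo p n < p / (p - 1) := by
  have h1 : (2 : ℚ) ≤ p := by exact_mod_cast hp
  have h2 : geo p n = p / (p - 1) * (1 - 1 / (p : ℚ) ^ n) := by
    induction n with
    | zero => simp [geo]
    | succ n ih =>
      rw [geo, sum_range_succ, ← geo, ih]
      have : (p : ℚ) - 1 ≠ 0 := by linarith
      have : (p : ℚ) ≠ 0 := by linarith
      field_simp
      ring
  rw [h2]
  refine mul_lt_of_lt_one_right (div_pos (by linarith) (by linarith)) ?_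
  have : 0 < 1 / (p : ℚ) ^ n := by positivity
  linarith

theorem sum_le_geo (T : Finset ℕ) (m A B C : ℕ)
    (h : ∀ c ∈ T, ∃ i < A, ∃ j < B, ∃ k < C, c = m * (2 ^ i * 3 ^ j * 5 ^ k)) :
    ∑ c ∈ T, (1 / c : ℚ) ≤ 1 / m * (geo 2 A * geo 3 B * geo 5 C) := by
  have h1 : T ⊆ ((range A ×ˢ range B) ×ˢ range C).image
      fun x => m * (2 ^ x.1.1 * 3 ^ x.1.2 * 5 ^ x.2) := fun c hc => by
    obtain ⟨i, hi, j, hj, k, hk, rfl⟩ := h c hc
    exact mem_image.2 ⟨((i, j), k), by simp [hi, hj, hk], rfl⟩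
  refine (sum_le_sum_of_subset_of_nonneg h1 fun _ _ _ => by positivity).trans
    ((sum_image_le_of_nonneg fun _ _ => by positivity).trans (le_of_eq ?_))
  rw [geo, geo, geo, sum_mul_sum, ← sum_product', sum_mul_sum, ← sum_product', mul_sum]
  refine sum_congr rfl fun x _ => ?_
  push_cast
  ring

/-- (plan Count) -/
theorem count (S : Finset ℕ) (N : ℕ) (hN0 : N ≠ 0) (hN : ∀ c ∈ S, c ∣ N) (hNS : N ∈ S)
    (hπ : ∀ p : ℕ, p.Prime → p ∣ N → p = 2 ∨ p = 3 ∨ p = 5) (h1 : 1 ∉ S) (h2 : 2 ∉ S)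
    (h3 : 3 ∈ S → N ≠ 3 ∧ ∀ c ∈ S, 3 ∣ c → c = 3 ∨ c = N) (h4 : 4 ∈ S → ¬ 16 ∣ N)
    (h6 : 5 ∣ N → 6 ∉ S) (h25 : ∀ c ∈ S, 5 ∣ c → 25 ∣ c) :
    ∑ c ∈ S, (1 / c : ℚ) < 1 := by
  have g2 : ∀ n, geo 2 n < 2 := fun n => (geo_lt le_rfl n).trans_eq (by norm_num)
  have g3 : ∀ n, geo 3 n < 3 / 2 := fun n => (geo_lt (by norm_num) n).trans_eq (by norm_num)
  have g5 : ∀ n, geo 5 n < 5 / 4 := fun n => (geo_lt (by norm_num) n).trans_eq (by norm_num)
  have g1 : ∀ p, geo p 1 = 1 := fun p => by simp [geo]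
  have g4 : geo 2 4 = 15 / 8 := by simp [geo, sum_range_succ]; norm_num
  have n2 := geo_nonneg 2
  have n3 := geo_nonneg 3
  have n5 := geo_nonneg 5
  have hs : ∀ c, c ∣ N → ∃ i < N, ∃ j < N, ∃ k < N, c = 2 ^ i * 3 ^ j * 5 ^ k := fun c hc => by
    obtain ⟨i, j, k, e⟩ := exists_smooth c (ne_zero_of_dvd_ne_zero hN0 hc)
      fun p hp hd => hπ p hp (hd.trans hc)
    have key : ∀ p l, 1 < p → p ^ l ∣ c → l < N := fun p l hp hd =>
      (Nat.lt_pow_self hp).trans_le (Nat.le_of_dvd (Nat.pos_of_ne_zero hN0) (hd.trans hc))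
    exact ⟨i, key 2 i (by norm_num) ⟨3 ^ j * 5 ^ k, by rw [e]; ring⟩, j,
      key 3 j (by norm_num) ⟨2 ^ i * 5 ^ k, by rw [e]; ring⟩, k,
      key 5 k (by norm_num) ⟨2 ^ i * 3 ^ j, by rw [e]; ring⟩, e⟩
  have z3 : ∀ {i j k}, ¬ 3 ∣ 2 ^ i * 3 ^ j * 5 ^ k → j < 1 := fun {i j k} h => by
    by_contra e
    exact h (((dvd_pow_self 3 (by omega)).mul_left _).mul_right _)
  have z5 : ∀ {i j k}, ¬ 5 ∣ 2 ^ i * 3 ^ j * 5 ^ k → k < 1 := fun {i j k} h => by
    by_contra e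
    exact h ((dvd_pow_self 5 (by omega)).mul_left _)
  have b5 : ∀ (T : Finset ℕ) (B : ℕ), (∀ c ∈ T, c ∈ S ∧ 5 ∣ c ∧ (B = N ∨ B = 1 ∧ ¬ 3 ∣ c)) →
      ∑ c ∈ T, (1 / c : ℚ) ≤ 1 / 25 * (geo 2 N * geo 3 B * geo 5 N) := fun T B h => by
    refine (sum_le_geo T 25 N B N fun c hc => ?_).trans_eq (by norm_num)
    obtain ⟨a, b, d⟩ := h c hc
    obtain ⟨m, rfl⟩ := h25 c a b
    obtain ⟨i, hi, j, hj, k, hk, e⟩ := hs m ((dvd_mul_left m 25).trans (hN _ a))
    refine ⟨i, hi, j, ?_, k, hk, by rw [e]⟩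
    rcases d with rfl | ⟨rfl, d⟩
    · exact hj
    · exact z3 fun e1 => d ((e ▸ e1 : 3 ∣ m).mul_left _)
  have e5 : ¬ 5 ∣ N → ∀ P : ℕ → Prop, ∀ [DecidablePred P], (∀ c, P c → 5 ∣ c) →
      ∑ c ∈ S.filter P, (1 / c : ℚ) = 0 := fun h P _ hP => by
    rw [filter_false_of_mem fun c hc e => h ((hP c e).trans (hN c hc)), sum_empty]
  by_cases s3 : 3 ∈ S
  · obtain ⟨n3', h3⟩ := h3 s3
    have d3 := hN 3 s3
    rw [← sum_filter_add_sum_filter_not S (3 ∣ ·), ← sum_filter_add_sum_filter_not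
      (S.filter fun c => ¬ 3 ∣ c) (5 ∣ ·), filter_filter, filter_filter]
    have a1 : ∑ c ∈ S.filter (3 ∣ ·), (1 / c : ℚ) ≤ 1 / 3 + 1 / N := by
      refine (sum_le_sum_of_subset_of_nonneg (t := {3, N}) (fun c hc => ?_)
        fun _ _ _ => by positivity).trans_eq (by rw [sum_pair n3'.symm]; norm_num)
      simpa using h3 c (mem_filter.1 hc).1 (mem_filter.1 hc).2
    have a2 := b5 (S.filter fun c => ¬ 3 ∣ c ∧ 5 ∣ c) 1 fun c hc =>
      ⟨(mem_filter.1 hc).1, (mem_filter.1 hc).2.2, Or.inr ⟨rfl, (mem_filter.1 hc).2.1⟩⟩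
    have a3 := sum_le_geo (insert 1 (insert 2 (S.filter fun c => ¬ 3 ∣ c ∧ ¬ 5 ∣ c))) 1 (N + 2) 1 1
      fun c hc => by
        simp only [mem_insert, mem_filter] at hc
        rcases hc with rfl | rfl | ⟨a, b, d⟩
        · exact ⟨0, by omega, 0, by omega, 0, by omega, rfl⟩
        · exact ⟨1, by omega, 0, by omega, 0, by omega, rfl⟩
        · obtain ⟨i, hi, j, hj, k, hk, rfl⟩ := hs c (hN c a)
          exact ⟨i, by omega, j, z3 b, k, z5 d, (one_mul _).symm⟩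
    rw [sum_insert (by simp [h1]), sum_insert (by simp [h2]), g1, g1] at a3
    rw [g1] at a2
    have := g2 (N + 2)
    push_cast at a3
    by_cases d5 : 5 ∣ N
    · have : (75 : ℚ) ≤ N := by
        exact_mod_cast Nat.le_of_dvd (Nat.pos_of_ne_zero hN0)
          (Nat.Coprime.mul_dvd_of_dvd_of_dvd (by norm_num : Nat.Coprime 3 25) d3 (h25 N hNS d5))
      have a4 : (1 / N : ℚ) ≤ 1 / 75 := one_div_le_one_div_of_le (by norm_num) this
      have := mul_le_mul (g2 N).le (g5 N).le (n5 N) (by norm_num)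
      linarith
    · have : (6 : ℚ) ≤ N := by
        have : 6 ≤ N := by omega
        exact_mod_cast this
      have a4 : (1 / N : ℚ) ≤ 1 / 6 := one_div_le_one_div_of_le (by norm_num) this
      rw [e5 d5 (fun c => ¬ 3 ∣ c ∧ 5 ∣ c) fun c hc => hc.2]
      linarith
  rw [← sum_filter_add_sum_filter_not S (5 ∣ ·)]
  have a2 := b5 (S.filter (5 ∣ ·)) N fun c hc =>
    ⟨(mem_filter.1 hc).1, (mem_filter.1 hc).2, Or.inl rfl⟩
  have a2' : ∑ c ∈ S.filter (5 ∣ ·), (1 / c : ℚ) ≤ 3 / 20 := by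
    have := mul_le_mul (mul_le_mul (g2 N).le (g3 N).le (n3 N) (by norm_num)) (g5 N).le (n5 N)
      (by norm_num)
    linarith
  have a3 : ∀ (U : Finset ℕ) (A : ℕ), (∀ c ∈ U, c ∉ S ∧ ∃ i < A, ∃ j < 2, c = 2 ^ i * 3 ^ j) →
      (A = N + 3 ∨ A = 4 ∧ ¬ 16 ∣ N) →
      ∑ c ∈ U, (1 / c : ℚ) + ∑ c ∈ S.filter (¬ 5 ∣ ·), (1 / c : ℚ) ≤ geo 2 A * (3 / 2) :=
    fun U A hU hA => by
      rw [← sum_union (disjoint_left.2 fun c hc e => (hU c hc).1 (mem_filter.1 e).1)]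
      refine (sum_le_geo _ 1 A (N + 2) 1 fun c hc => ?_).trans ?_
      · rcases mem_union.1 hc with e | e
        · obtain ⟨-, i, hi, j, hj, rfl⟩ := hU c e
          exact ⟨i, hi, j, by omega, 0, by omega, by ring⟩
        · obtain ⟨i, hi, j, hj, k, hk, rfl⟩ := hs c (hN c (mem_filter.1 e).1)
          refine ⟨i, ?_, j, by omega, k, z5 (mem_filter.1 e).2, (one_mul _).symm⟩
          rcases hA with rfl | ⟨rfl, d⟩
          · omega
          · by_contra e1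
            exact d (((Nat.pow_dvd_pow 2 (by omega : 4 ≤ i)).mul_right _ |>.mul_right _).trans
              (hN _ (mem_filter.1 e).1))
      · rw [g1]
        have := mul_le_mul_of_nonneg_left (g3 (N + 2)).le (n2 A)
        push_cast
        linarith
  have u : ∀ {A c : ℕ}, 3 ≤ A → c = 1 ∨ c = 2 ∨ c = 3 ∨ c = 4 ∨ c = 6 →
      ∃ i < A, ∃ j < 2, c = 2 ^ i * 3 ^ j := fun {A c} hA hc => by
    rcases hc with rfl | rfl | rfl | rfl | rfl
    exacts [⟨0, by omega, 0, by omega, rfl⟩, ⟨1, by omega, 0, by omega, rfl⟩,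
      ⟨0, by omega, 1, by omega, rfl⟩, ⟨2, by omega, 0, by omega, rfl⟩,
      ⟨1, by omega, 1, by omega, rfl⟩]
  have := g2 (N + 3)
  by_cases d5 : 5 ∣ N
  · have s6 := h6 d5
    by_cases s4 : 4 ∈ S
    · have := a3 {1, 2, 3, 6} 4 (fun c hc => by
        simp only [mem_insert, mem_singleton] at hc
        exact ⟨by rcases hc with rfl | rfl | rfl | rfl <;> assumption, u (by omega) (by omega)⟩)
        (Or.inr ⟨rfl, h4 s4⟩)
      rw [g4] at this
      norm_num at this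
      norm_num at a2' ⊢
      linarith
    · have := a3 {1, 2, 3, 4, 6} (N + 3) (fun c hc => by
        simp only [mem_insert, mem_singleton] at hc
        exact ⟨by rcases hc with rfl | rfl | rfl | rfl | rfl <;> assumption,
          u (by omega) (by omega)⟩) (Or.inl rfl)
      norm_num at this
      norm_num at a2' ⊢
      linarith
  · rw [e5 d5 _ fun c hc => hc]
    by_cases s4 : 4 ∈ S
    · have := a3 {1, 2, 3} 4 (fun c hc => by
        simp only [mem_insert, mem_singleton] at hc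
        exact ⟨by rcases hc with rfl | rfl | rfl <;> assumption, u (by omega) (by omega)⟩)
        (Or.inr ⟨rfl, h4 s4⟩)
      rw [g4] at this
      norm_num at this ⊢
      linarith
    · have := a3 {1, 2, 3, 4} (N + 3) (fun c hc => by
        simp only [mem_insert, mem_singleton] at hc
        exact ⟨by rcases hc with rfl | rfl | rfl | rfl <;> assumption,
          u (by omega) (by omega)⟩) (Or.inl rfl)
      norm_num at this ⊢
      linarith

end CfsgLib.AH
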