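import Mathlib
import Cfsg.Agent.Lib.CoreSolvable

/-! Definitions for the solvable `S₃`-conjecture (see `notes/ah_plan.md`). -/

set_option autoImplicit false

namespace CfsgLib.AH

open Subgroup

universe u

/-- every element is conjugate to all generators of the cyclic group it generates -/
def RatG (G : Type*) [Group G] : Prop :=
  ∀ (x : G) (n : ℕ), n.Coprime (orderOf x) → IsConj x (x ^ n)

/-- `ι` identifies the `G`-module `W` with the normal abelian subgroup `M` under conjugation -/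
structure Emb {G W : Type*} [Group G] [AddCommGroup W] [DistribMulAction G W] (M : Subgroup G)
    (ι : W → G) : Prop where
  inj : Function.Injective ι
  add : ∀ a b, ι (a + b) = ι a * ι b
  smul : ∀ (g : G) (a : W), ι (g • a) = g * ι a * g⁻¹
  mem : ∀ x : G, x ∈ M ↔ ∃ a, ι a = x

/-- A primitive symplectic solvable linear group in which every vector is an eigenvector for
every non-zero eigenvalue. -/
structure Ctx {k W : Type*} (Γ : Type*) [Field k] [Group Γ] [AddCommGroup W] [Module k W]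
    [DistribMulAction Γ W] (B : W →ₗ[k] W →ₗ[k] k) : Prop where
  alt : ∀ a, B a a = 0
  nd : ∀ a, (∀ b, B a b = 0) → a = 0
  inv : ∀ (g : Γ) (a b : W), B (g • a) (g • b) = B a b
  ev : ∀ (w : W) (c : k), c ≠ 0 → ∃ g : Γ, g • w = c • w
  faith : ∀ g : Γ, (∀ w : W, g • w = w) → g = 1
  nt : ∃ w : W, w ≠ 0
  card : (Nat.card Γ : k) ≠ 0
  h2 : (2 : k) ≠ 0
  h3 : (3 : k) ≠ 0
  h5 : (5 : k) ≠ 0
  big : ∃ c : k, c ≠ 0 ∧ c ^ 8 ≠ 1
  solv : Group.IsSolvable Γ
  prim : ∀ U : Submodule k W, U ≠ ⊥ → (∀ u ∈ U, (∀ v ∈ U, B u v = 0) → u = 0) →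
    (∀ g : Γ, (∀ u ∈ U, g • u ∈ U) ∨ ∀ u ∈ U, ∀ v ∈ U, B (g • u) v = 0) → U = ⊤

/-- `X` is a normal extraspecial `2`-subgroup with centre `{1, z}`, `z = -1`, `C(X) = {1, z}` -/
structure XS (W : Type*) {Γ : Type*} [Group Γ] [AddCommGroup W] [DistribMulAction Γ W] (z : Γ)
    (X : Subgroup Γ) : Prop where
  neg : ∀ w : W, z • w = -w
  zc : ∀ g : Γ, z * g = g * z
  zz : z * z = 1
  z1 : z ≠ 1
  zmem : z ∈ X
  normal : X.Normal
  sq : ∀ e ∈ X, e * e = 1 ∨ e * e = z
  comm : ∀ e ∈ X, ∀ f ∈ X, e * f = f * e ∨ e * f = z * (f * e)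
  cent : ∀ g : Γ, (∀ e ∈ X, g * e = e * g) → g = 1 ∨ g = z
  nab : ∃ e ∈ X, ∃ f ∈ X, e * f = z * (f * e)

/-- `e ∈ f ⟨D, z⟩` -/
def InA {Γ : Type*} [Group Γ] (z : Γ) (D : Subgroup Γ) (e f : Γ) : Prop :=
  ∃ d ∈ D, e = f * d ∨ e = z * (f * d)

/-- `D ≤ X` has a non-zero fixed vector and `C_X(D) = ⟨D, z⟩ ∘ Q₈` -/
structure QD (W : Type*) {Γ : Type*} [Group Γ] [AddCommGroup W] [DistribMulAction Γ W] (z : Γ)
    (X D : Subgroup Γ) (i j : Γ) : Prop where
  le : D ≤ X
  fix : ∃ w : W, w ≠ 0 ∧ ∀ d ∈ D, d • w = w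
  imem : i ∈ X
  jmem : j ∈ X
  ic : ∀ d ∈ D, i * d = d * i
  jc : ∀ d ∈ D, j * d = d * j
  ii : i * i = z
  jj : j * j = z
  ij : i * j = z * (j * i)
  all : ∀ e ∈ X, (∀ d ∈ D, e * d = d * e) →
    InA z D e 1 ∨ InA z D e i ∨ InA z D e j ∨ InA z D e (i * j)

theorem exists_coprime_lift {d N n : ℕ} (hd : d ∣ N) (hN : N ≠ 0) (h : n.Coprime d) :
    ∃ m : ℕ, m ≡ n [MOD d] ∧ m.Coprime N := by
  haveI : NeZero N := ⟨hN⟩
  obtain ⟨u, hu⟩ := ZMod.unitsMap_surjective hd (ZMod.unitOfCoprime n h)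
  refine ⟨(u : ZMod N).val, ?_, ZMod.val_coe_unit_coprime u⟩
  have h1 := congrArg (fun x : (ZMod d)ˣ => (x : ZMod d)) hu
  simp only [ZMod.unitsMap_val, ZMod.coe_unitOfCoprime] at h1
  rw [← ZMod.natCast_eq_natCast_iff, ← h1, ZMod.natCast_val]

variable {G : Type*} [Group G]

theorem RatG.quot [Finite G] (h : RatG G) {H : Type*} [Group H] (f : G →* H)
    (hf : Function.Surjective f) : RatG H := by
  intro y n hn
  obtain ⟨x, rfl⟩ := hf y
  obtain ⟨m, hm, hm'⟩ := exists_coprime_lift (orderOf_map_dvd f x) (orderOf_pos x).ne' hn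
  have := f.map_isConj (h x m hm')
  rwa [map_pow, pow_eq_pow_iff_modEq.mpr hm] at this

theorem RatG.real [Finite G] (h : RatG G) (x : G) : IsConj x x⁻¹ := by
  have h0 := orderOf_pos x
  have := h x (orderOf x - 1) (by
    have : orderOf x = orderOf x - 1 + 1 := by omega
    conv_rhs => rw [this]
    simp)
  rwa [show x ^ (orderOf x - 1) = x⁻¹ from by
    rw [eq_inv_iff_mul_eq_one, ← pow_succ, Nat.sub_add_cancel h0, pow_orderOf_eq_one]] at this

theorem RatG.pair [Finite G] (h : RatG G) {x y : G} (hc : Commute x y)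
    (hco : (orderOf x).Coprime (orderOf y)) {m n : ℕ} (hm : m.Coprime (orderOf x))
    (hn : n.Coprime (orderOf y)) : ∃ g : G, g * x * g⁻¹ = x ^ m ∧ g * y * g⁻¹ = y ^ n := by
  obtain ⟨l, hl1, hl2⟩ := Nat.chineseRemainder hco m n
  obtain ⟨a, ha1, ha2⟩ := Nat.chineseRemainder hco 1 0
  obtain ⟨b, hb1, hb2⟩ := Nat.chineseRemainder hco 0 1
  have hl : l.Coprime (orderOf (x * y)) := by
    rw [hc.orderOf_mul_eq_mul_orderOf_of_coprime hco]
    exact Nat.Coprime.mul_right (by rw [Nat.Coprime, hl1.gcd_eq]; exact hm)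
      (by rw [Nat.Coprime, hl2.gcd_eq]; exact hn)
  obtain ⟨g, hg⟩ := isConj_iff.mp (h _ l hl)
  have hx : (x * y) ^ a = x := by
    rw [hc.mul_pow, pow_eq_pow_iff_modEq.mpr ha1, pow_eq_pow_iff_modEq.mpr ha2]; simp
  have hy : (x * y) ^ b = y := by
    rw [hc.mul_pow, pow_eq_pow_iff_modEq.mpr hb1, pow_eq_pow_iff_modEq.mpr hb2]; simp
  refine ⟨g, ?_, ?_⟩
  · rw [← pow_eq_pow_iff_modEq.mpr hl1]
    conv_lhs => rw [← hx]
    rw [← conj_pow, hg, ← pow_mul, mul_comm l a, pow_mul, hx]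
  · rw [← pow_eq_pow_iff_modEq.mpr hl2]
    conv_lhs => rw [← hy]
    rw [← conj_pow, hg, ← pow_mul, mul_comm l b, pow_mul, hy]

section Emb
variable {W : Type*} [AddCommGroup W] [DistribMulAction G W] {M : Subgroup G} {ι : W → G}

theorem Emb.zero (h : Emb M ι) : ι 0 = 1 := by
  have := h.add 0 0
  rw [add_zero] at this
  exact left_eq_mul.mp this

theorem Emb.nsmul (h : Emb M ι) (n : ℕ) (a : W) : ι (n • a) = ι a ^ n := by
  induction n with
  | zero => simp [h.zero]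
  | succ n ih => rw [succ_nsmul, h.add, ih, pow_succ]

theorem Emb.neg (h : Emb M ι) (a : W) : ι (-a) = (ι a)⁻¹ := by
  rw [eq_inv_iff_mul_eq_one, ← h.add, neg_add_cancel, h.zero]

theorem Emb.eq_one (h : Emb M ι) {a : W} : ι a = 1 ↔ a = 0 := by
  rw [← h.zero, h.inj.eq_iff]

theorem Emb.mem' (h : Emb M ι) (a : W) : ι a ∈ M := (h.mem _).mpr ⟨a, rfl⟩

theorem Emb.finite [Finite G] (h : Emb M ι) : Finite W := Finite.of_injective ι h.inj

theorem Emb.smul_eq (h : Emb M ι) {g : G} {a : W} : g • a = a ↔ g * ι a = ι a * g := by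
  rw [← h.inj.eq_iff, h.smul, mul_inv_eq_iff_eq_mul]

/-- invariant additive subgroups of the module of a minimal normal subgroup -/
theorem Emb.irr (h : Emb M ι) (hM : IsMinNormal M) (U : AddSubgroup W)
    (hU : ∀ (g : G), ∀ u ∈ U, g • u ∈ U) : U = ⊥ ∨ U = ⊤ := by
  let K : Subgroup G :=
    { carrier := {x | ∃ u ∈ U, ι u = x}
      one_mem' := ⟨0, U.zero_mem, h.zero⟩
      mul_mem' := by
        rintro _ _ ⟨a, ha, rfl⟩ ⟨b, hb, rfl⟩
        exact ⟨a + b, U.add_mem ha hb, h.add a b⟩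
      inv_mem' := by
        rintro _ ⟨a, ha, rfl⟩
        exact ⟨-a, U.neg_mem ha, h.neg a⟩ }
  have hK : K.Normal := ⟨by
    rintro _ ⟨a, ha, rfl⟩ g
    exact ⟨g • a, hU g a ha, h.smul g a⟩⟩
  rcases hM.2.2 K hK (by rintro _ ⟨a, -, rfl⟩; exact h.mem' a) with e | e
  · left
    rw [eq_bot_iff]
    intro a ha
    have : ι a ∈ K := ⟨a, ha, rfl⟩
    rw [e, mem_bot, h.eq_one] at this
    exact this
  · right
    rw [eq_top_iff]
    intro a _
    have : ι a ∈ K := e ▸ h.mem' a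
    obtain ⟨b, hb, e'⟩ := this
    exact h.inj e' ▸ hb

end Emb

theorem exists_mod {G : Type u} [Group G] {r : ℕ} [Fact r.Prime] (M : Subgroup G) [hM : M.Normal]
    (h : Cfsg.IsElementaryAbelian r M) :
    ∃ (W : Type u) (_ : AddCommGroup W) (_ : Module (ZMod r) W) (_ : DistribMulAction G W)
      (_ : SMulCommClass G (ZMod r) W) (ι : W → G), Emb M ι := by
  haveI := h.1
  letI : CommGroup M := { (inferInstance : Group M) with mul_comm := fun a b => h.1.is_comm.comm a b }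
  letI : Module (ZMod r) (Additive M) := AddCommGroup.zmodModule (fun x => by
    apply Additive.toMul.injective
    exact Subtype.ext (by simpa using h.2 _ (Additive.toMul x).2))
  letI : DistribMulAction G (Additive M) :=
    { smul := fun g a => Additive.ofMul ⟨g * (Additive.toMul a : M) * g⁻¹,
        hM.conj_mem _ (Additive.toMul a).2 g⟩
      one_smul := fun a => by
        apply Additive.toMul.injective; apply Subtype.ext
        change (1 : G) * _ * 1⁻¹ = _; simp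
      mul_smul := fun g g' a => by
        apply Additive.toMul.injective; apply Subtype.ext
        change (g * g') * _ * (g * g')⁻¹ = g * (g' * _ * g'⁻¹) * g⁻¹; group
      smul_zero := fun g => by
        apply Additive.toMul.injective; apply Subtype.ext
        change g * 1 * g⁻¹ = 1; simp
      smul_add := fun g a b => by
        apply Additive.toMul.injective; apply Subtype.ext
        change g * (_ * _) * g⁻¹ = (g * _ * g⁻¹) * (g * _ * g⁻¹); group }
  refine ⟨Additive M, inferInstance, inferInstance, inferInstance, ⟨fun g c a => ?_⟩,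
    fun a => (Additive.toMul a : M), ⟨fun a b e => Additive.toMul.injective (Subtype.ext e),
      fun a b => rfl, fun g a => rfl, fun x => ⟨fun hx => ⟨Additive.ofMul ⟨x, hx⟩, rfl⟩, ?_⟩⟩⟩
  · exact ZMod.map_smul (DistribSMul.toAddMonoidHom (Additive M) g) c a
  · rintro ⟨a, rfl⟩
    exact (Additive.toMul a).2

end CfsgLib.AH
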