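import Cfsg.Agent.Lib.AH.Q

set_option autoImplicit false
set_option linter.unusedSectionVars false

namespace CfsgLib.AH

open Subgroup

variable {k Γ W : Type*} [Field k] [Group Γ] [Finite Γ] [AddCommGroup W] [Module k W]
  [DistribMulAction Γ W] [SMulCommClass Γ k W] {B : W →ₗ[k] W →ₗ[k] k}

variable {z : Γ} {X : Subgroup Γ}

theorem Ctx.q_conj (c : Ctx Γ B) (g e : Γ) (w : W) :
    B ((g * e * g⁻¹) • (g • w)) (g • w) = B (e • w) w := by
  rw [mul_smul, inv_smul_smul, mul_smul, c.inv]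

theorem Ctx.q_eig (c : Ctx Γ B) {g : Γ} {w : W} {a : k} (h : g • w = a • w) (e : Γ) :
    a ^ 2 * B ((g * e * g⁻¹) • w) w = B (e • w) w := by
  rw [← c.q_conj g e w, h, smul_comm _ a w]
  simp only [map_smul, LinearMap.smul_apply, smul_eq_mul]
  ring

theorem Ctx.two_mul_eq (c : Ctx Γ B) {a : k} (h : a = -a) : a = 0 := by
  have : 2 * a = 0 := by linear_combination h
  exact (mul_eq_zero.mp this).resolve_left c.h2

theorem Ctx.q_invol (c : Ctx Γ B) {e : Γ} (he : e * e = 1) (w : W) : B (e • w) w = 0 := by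
  apply c.two_mul_eq
  conv_lhs => rw [c.adj, inv_eq_of_mul_eq_one_right he, c.skew]

theorem XS.q_z (x : XS W z X) (e : Γ) (w : W) : B ((z * e) • w) w = -B (e • w) w := by
  rw [mul_smul, x.neg]; simp

theorem XS.q_anti (c : Ctx Γ B) (x : XS W z X) {d e : Γ} {w : W} (hd : d • w = w)
    (h : e * d = z * (d * e)) : B (e • w) w = 0 := by
  apply c.two_mul_eq
  have h1 : e • w = -(d • e • w) := by
    conv_lhs => rw [← hd, ← mul_smul, h, mul_smul, x.neg, mul_smul]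
  conv_rhs => rw [← c.inv d, hd]
  conv_lhs => rw [h1]
  simp

theorem XS.q_InA (x : XS W z X) {D : Subgroup Γ} {w : W} (hw : ∀ d ∈ D, d • w = w) {e f : Γ}
    (h : InA z D e f) : B (e • w) w ^ 2 = B (f • w) w ^ 2 := by
  obtain ⟨d, hd, rfl | rfl⟩ := h
  · rw [mul_smul, hw d hd]
  · rw [x.q_z, mul_smul, hw d hd, neg_sq]

theorem XS.val (c : Ctx Γ B) (x : XS W z X) {e : Γ} (he : e ∈ X) (w : W) {a : k} (ha : a ≠ 0) :
    ∃ f ∈ X, B (f • w) w ^ 2 = a ^ 4 * B (e • w) w ^ 2 := by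
  obtain ⟨g, hg⟩ := c.ev w a ha
  refine ⟨g⁻¹ * e * g, by simpa using x.normal.conj_mem e he g⁻¹, ?_⟩
  have := c.q_eig hg (g⁻¹ * e * g)
  rw [show g * (g⁻¹ * e * g) * g⁻¹ = e by group] at this
  rw [← this]; ring

theorem XS.nz (c : Ctx Γ B) (x : XS W z X) {D : Subgroup Γ} (hD : D ≤ X) {w : W}
    (hw : ∀ d ∈ D, d • w = w) {f : Γ} (hf : f ∈ X) (h : B (f • w) w ≠ 0) :
    (∀ d ∈ D, f * d = d * f) ∧ f * f = z :=
  ⟨fun d hd => (x.comm f hf d (hD hd)).resolve_right fun e => h (x.q_anti c (hw d hd) e),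
    (x.sq f hf).resolve_left fun e => h (c.q_invol e w)⟩

theorem XS.inv_eq (x : XS W z X) {e : Γ} (he : e * e = z) : e⁻¹ = z * e := by
  rw [inv_eq_iff_mul_eq_one, ← mul_assoc, ← x.zc, mul_assoc, he, x.zz]

theorem XS.exists_q_ne (c : Ctx Γ B) (x : XS W z X) {D : Subgroup Γ}
    (hD : ∃ w : W, w ≠ 0 ∧ ∀ d ∈ D, d • w = w) {e : Γ} (hc : ∀ d ∈ D, e * d = d * e)
    (he : e * e = z) : ∃ w : W, (∀ d ∈ D, d • w = w) ∧ B (e • w) w ≠ 0 := by
  by_contra! H
  obtain ⟨w, hw0, hw⟩ := hD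
  have h0 : e • w = 0 := by
    refine c.fix_nd D (fun d hd => by rw [← mul_smul, ← hc d hd, mul_smul, hw d hd]) fun v hv => ?_
    have h1 := H (w + v) fun d hd => by rw [smul_add, hw d hd, hv d hd]
    have h2 : B (e • v) w = B (e • w) v := by
      rw [c.adj, x.inv_eq he, mul_smul, x.neg, map_neg, ← c.skew]
    simp only [smul_add, map_add, LinearMap.add_apply, H w hw, H v hv, h2] at h1
    apply c.two_mul_eq
    linear_combination h1
  exact hw0 ((smul_eq_zero_iff_eq e).mp h0)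

theorem Ctx.exists_mu (c : Ctx Γ B) :
    ∃ a : k, a ≠ 0 ∧ a ^ 4 ≠ 1 ∧ (a ^ 4) ^ 2 ≠ 1 := by
  obtain ⟨a, h0, h8⟩ := c.big
  refine ⟨a, h0, fun h => h8 ?_, fun h => h8 ?_⟩
  · rw [show a ^ 8 = (a ^ 4) ^ 2 by ring, h, one_pow]
  · rw [← h]; ring

/-- the elements of order four of `C_X(D)` do not lie in two cosets -/
theorem XS.two (c : Ctx Γ B) (x : XS W z X) {D : Subgroup Γ} (hD : D ≤ X)
    (hfix : ∃ w : W, w ≠ 0 ∧ ∀ d ∈ D, d • w = w) {e f g : Γ} (he : e ∈ X)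
    (hc : ∀ d ∈ D, e * d = d * e) (hee : e * e = z)
    (hall : ∀ y ∈ X, (∀ d ∈ D, y * d = d * y) → y * y = z → InA z D y f ∨ InA z D y g) :
    False := by
  obtain ⟨w, hw, hq⟩ := x.exists_q_ne c hfix hc hee
  obtain ⟨a, ha, h1, h2⟩ := c.exists_mu
  have key : ∀ n : ℕ, (a ^ 4) ^ n * B (e • w) w ^ 2 = B (f • w) w ^ 2 ∨
      (a ^ 4) ^ n * B (e • w) w ^ 2 = B (g • w) w ^ 2 := by
    intro n
    obtain ⟨y, hy, hv⟩ := x.val c he w (pow_ne_zero n ha)
    have hy0 : B (y • w) w ≠ 0 := by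
      intro h0
      rw [h0] at hv
      exact mul_ne_zero (pow_ne_zero 4 (pow_ne_zero n ha)) (pow_ne_zero 2 hq) (by rw [← hv]; simp)
    obtain ⟨n1, n2⟩ := x.nz c hD hw hy hy0
    rw [show (a ^ 4) ^ n = (a ^ n) ^ 4 by ring, ← hv]
    exact (hall y hy n1 n2).imp (x.q_InA hw) (x.q_InA hw)
  have hv := pow_ne_zero 2 hq
  have hμ := pow_ne_zero 4 ha
  set μ := a ^ 4
  set v := B (e • w) w ^ 2
  have d01 : μ ^ 0 * v ≠ μ ^ 1 * v := fun h => h1 (by
    have := mul_right_cancel₀ hv h; simpa using this.symm)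
  have d02 : μ ^ 0 * v ≠ μ ^ 2 * v := fun h => h2 (by
    have := mul_right_cancel₀ hv h; simpa using this.symm)
  have d12 : μ ^ 1 * v ≠ μ ^ 2 * v := fun h => h1 (by
    have := mul_right_cancel₀ hv h
    exact mul_left_cancel₀ hμ (by linear_combination -this))
  rcases key 0 with k0 | k0 <;> rcases key 1 with k1 | k1 <;> rcases key 2 with k2 | k2 <;>
    first
      | exact d01 (k0.trans k1.symm)
      | exact d02 (k0.trans k2.symm)
      | exact d12 (k1.trans k2.symm)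

/-- (plan E: tri) generic vectors -/
theorem QD.tri (c : Ctx Γ B) (x : XS W z X) {D : Subgroup Γ} {i j : Γ} (h : QD W z X D i j) :
    ∃ (u : W) (ω : k), (∀ d ∈ D, d • u = u) ∧ ω ^ 3 = 1 ∧ ω ≠ 1 ∧
      B (i • u) u ≠ 0 ∧ B (j • u) u ≠ 0 ∧ B ((i * j) • u) u ≠ 0 ∧
      B (i • u) u ^ 2 ≠ B (j • u) u ^ 2 ∧ B (i • u) u ^ 2 ≠ B ((i * j) • u) u ^ 2 ∧
      B (j • u) u ^ 2 ≠ B ((i * j) • u) u ^ 2 := by
  obtain ⟨w, hw, hq⟩ := x.exists_q_ne c h.fix h.ic h.ii
  obtain ⟨a, ha, h1, h2⟩ := c.exists_mu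
  have key : ∀ n : ℕ, (a ^ 4) ^ n * B (i • w) w ^ 2 = B (i • w) w ^ 2 ∨
      (a ^ 4) ^ n * B (i • w) w ^ 2 = B (j • w) w ^ 2 ∨
      (a ^ 4) ^ n * B (i • w) w ^ 2 = B ((i * j) • w) w ^ 2 := by
    intro n
    obtain ⟨y, hy, hv⟩ := x.val c h.imem w (pow_ne_zero n ha)
    have hy0 : B (y • w) w ≠ 0 := by
      intro h0
      rw [h0] at hv
      exact mul_ne_zero (pow_ne_zero 4 (pow_ne_zero n ha)) (pow_ne_zero 2 hq) (by rw [← hv]; simp)
    obtain ⟨n1, -⟩ := x.nz c h.le hw hy hy0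
    rw [show (a ^ 4) ^ n = (a ^ n) ^ 4 by ring, ← hv]
    rcases h.all y hy n1 with e | e
    · have := x.q_InA (B := B) hw e
      rw [one_smul, c.alt] at this
      exact absurd (pow_eq_zero_iff two_ne_zero |>.mp (by simpa using this)) hy0
    · exact e.imp (x.q_InA hw) (Or.imp (x.q_InA hw) (x.q_InA hw))
  have hv := pow_ne_zero 2 hq
  have hμ := pow_ne_zero 4 ha
  set μ := a ^ 4
  set v := B (i • w) w ^ 2 with hvd
  have d01 : μ ^ 1 * v ≠ v := fun h => h1 (by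
    exact mul_right_cancel₀ hv (by linear_combination h))
  have d02 : μ ^ 2 * v ≠ v := fun h => h2 (by
    exact mul_right_cancel₀ hv (by linear_combination h))
  have d12 : μ ^ 1 * v ≠ μ ^ 2 * v := fun h => h1 (by
    have := mul_right_cancel₀ hv h
    exact mul_left_cancel₀ hμ (by linear_combination -this))
  have d13 : μ ^ 3 * v ≠ μ ^ 1 * v := fun h => h2 (by
    have := mul_right_cancel₀ hv h
    exact mul_left_cancel₀ hμ (by linear_combination this))
  have d23 : μ ^ 3 * v ≠ μ ^ 2 * v := fun h => h1 (by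
    have := mul_right_cancel₀ hv h
    exact mul_left_cancel₀ (pow_ne_zero 2 hμ) (by linear_combination this))
  have n1 : μ ^ 1 * v ≠ 0 := mul_ne_zero (pow_ne_zero _ hμ) hv
  have n2 : μ ^ 2 * v ≠ 0 := mul_ne_zero (pow_ne_zero _ hμ) hv
  have fin : ∀ J K : k, μ ^ 1 * v = J ^ 2 → μ ^ 2 * v = K ^ 2 →
      (μ ^ 3 * v = v ∨ μ ^ 3 * v = J ^ 2 ∨ μ ^ 3 * v = K ^ 2) →
      μ ^ 3 = 1 ∧ J ≠ 0 ∧ K ≠ 0 ∧ v ≠ J ^ 2 ∧ v ≠ K ^ 2 ∧ J ^ 2 ≠ K ^ 2 := by
    intro J K e1 e2 e3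
    refine ⟨?_, fun h => n1 (by rw [e1, h]; simp), fun h => n2 (by rw [e2, h]; simp),
      fun h => d01 (e1.trans h.symm), fun h => d02 (e2.trans h.symm),
      fun h => d12 (e1.trans (h.trans e2.symm))⟩
    rcases e3 with e3 | e3 | e3
    · exact mul_right_cancel₀ hv (by linear_combination e3)
    · exact absurd (e3.trans e1.symm) d13
    · exact absurd (e3.trans e2.symm) d23
  rcases key 1 with k1 | k1 | k1
  · exact absurd k1 d01
  · rcases key 2 with k2 | k2 | k2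
    · exact absurd k2 d02
    · exact absurd (k1.trans k2.symm) d12
    · obtain ⟨r1, r2, r3, r4, r5, r6⟩ := fin _ _ k1 k2 (key 3)
      exact ⟨w, μ, hw, r1, h1, hq, r2, r3, r4, r5, r6⟩
  · rcases key 2 with k2 | k2 | k2
    · exact absurd k2 d02
    · obtain ⟨r1, r2, r3, r4, r5, r6⟩ := fin _ _ k1 k2 ((key 3).imp_right Or.symm)
      exact ⟨w, μ, hw, r1, h1, hq, r3, r2, r5, r4, r6.symm⟩
    · exact absurd (k1.trans k2.symm) d12

theorem XS.zmul (x : XS W z X) (a : Γ) : z * (z * a) = a := by rw [← mul_assoc, x.zz, one_mul]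

theorem XS.mz (x : XS W z X) (a b : Γ) : a * (z * b) = z * (a * b) := by
  rw [← mul_assoc, ← x.zc, mul_assoc]

theorem XS.mz' (x : XS W z X) (a : Γ) : a * z = z * a := (x.zc a).symm

theorem InA.zl (x : XS W z X) {D : Subgroup Γ} {e f : Γ} (h : InA z D e f) : InA z D (z * e) f := by
  obtain ⟨d, hd, rfl | rfl⟩ := h
  · exact ⟨d, hd, Or.inr rfl⟩
  · exact ⟨d, hd, Or.inl (x.zmul _)⟩

theorem InA.zl' (x : XS W z X) {D : Subgroup Γ} {e f : Γ} (h : InA z D (z * e) f) :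
    InA z D e f := by
  simpa [x.zmul] using h.zl x

theorem InA.mul_left (x : XS W z X) {D : Subgroup Γ} {e f : Γ} (h : InA z D e f) (g : Γ) :
    InA z D (g * e) (g * f) := by
  obtain ⟨d, hd, rfl | rfl⟩ := h
  · exact ⟨d, hd, Or.inl (by rw [mul_assoc])⟩
  · exact ⟨d, hd, Or.inr (by rw [x.mz, mul_assoc])⟩

theorem InA.refl {D : Subgroup Γ} (e : Γ) : InA z D e e := ⟨1, D.one_mem, Or.inl (by simp)⟩

theorem InA.trans (x : XS W z X) {D : Subgroup Γ} {e f g : Γ} (h : InA z D e f)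
    (h' : InA z D f g) : InA z D e g := by
  obtain ⟨d, hd, h⟩ := h
  obtain ⟨d', hd', h'⟩ := h'
  refine ⟨d' * d, D.mul_mem hd' hd, ?_⟩
  rcases h with rfl | rfl <;> rcases h' with rfl | rfl <;> simp [mul_assoc, x.zmul]

theorem InA.symm (x : XS W z X) {D : Subgroup Γ} {e f : Γ} (h : InA z D e f) : InA z D f e := by
  obtain ⟨d, hd, h⟩ := h
  refine ⟨d⁻¹, D.inv_mem hd, ?_⟩
  rcases h with rfl | rfl <;> simp [mul_assoc, x.zmul]

theorem XS.sq_of_fix (c : Ctx Γ B) (x : XS W z X) {d : Γ} (hd : d ∈ X) {w : W} (hw : w ≠ 0)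
    (h : d • w = w) : d * d = 1 := by
  refine (x.sq d hd).resolve_right fun e => hw ?_
  have h1 : z • w = w := by rw [← e, mul_smul, h, h]
  rw [x.neg] at h1
  have : (2 : k) • w = 0 := by rw [two_smul]; nth_rewrite 1 [← h1]; simp
  exact (smul_eq_zero.mp this).resolve_left c.h2

/-- squares are constant on cosets -/
theorem InA.sq (c : Ctx Γ B) (x : XS W z X) {D : Subgroup Γ} (hD : D ≤ X)
    (hfix : ∃ w : W, w ≠ 0 ∧ ∀ d ∈ D, d • w = w) {e f : Γ} (hf : ∀ d ∈ D, f * d = d * f)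
    (h : InA z D e f) : e * e = f * f := by
  obtain ⟨w, hw0, hw⟩ := hfix
  obtain ⟨d, hd, h⟩ := h
  have h1 := x.sq_of_fix c (hD hd) hw0 (hw d hd)
  have h2 : f * d * (f * d) = f * f := by
    rw [mul_assoc, ← mul_assoc d, ← hf d hd, mul_assoc, h1, mul_one]
  rcases h with rfl | rfl
  · exact h2
  · rw [x.mz, mul_assoc, x.zmul, h2]

/-- commutation is constant on cosets -/
theorem InA.comm (x : XS W z X) {D : Subgroup Γ} {e f g : Γ} (hg : ∀ d ∈ D, g * d = d * g)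
    (h : InA z D e f) (hc : f * g = g * f) : e * g = g * e := by
  obtain ⟨d, hd, h⟩ := h
  have h2 : f * d * g = g * (f * d) := by
    rw [mul_assoc, ← hg d hd, ← mul_assoc, hc, mul_assoc]
  rcases h with rfl | rfl
  · exact h2
  · rw [mul_assoc, h2, x.mz]

theorem XS.sq_mul_anti (x : XS W z X) {a b : Γ} (h : a * b = z * (b * a)) :
    a * b * (a * b) = z * (a * a * (b * b)) := by
  have h' : b * a = z * (a * b) := by rw [h, x.zmul]
  rw [mul_assoc, ← mul_assoc b, h', mul_assoc z, x.mz]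
  simp [mul_assoc]

theorem sq_mul_comm' {a b : Γ} (h : a * b = b * a) : a * b * (a * b) = a * a * (b * b) := by
  rw [mul_assoc, ← mul_assoc b, ← h]; simp [mul_assoc]

/-- (plan E: maxD) -/
theorem XS.exists_QD (c : Ctx Γ B) (x : XS W z X) :
    ∃ (D : Subgroup Γ) (i j : Γ), QD W z X D i j := by
  obtain ⟨w1, hw1⟩ := c.nt
  obtain ⟨D, -, ⟨hD, hfix⟩, hmax⟩ := exists_maximal_ge_of_wellFoundedGT
    (fun D : Subgroup Γ => D ≤ X ∧ ∃ w : W, w ≠ 0 ∧ ∀ d ∈ D, d • w = w) ⊥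
    ⟨bot_le, w1, hw1, fun d hd => by rw [mem_bot.mp hd, one_smul]⟩
  have M0 : ∀ e ∈ X, ∀ w : W, w ≠ 0 → (∀ d ∈ D, d • w = w) → e • w = w → e ∈ D := by
    intro e he w hw0 hw hew
    have : D ⊔ zpowers e ≤ MulAction.stabilizer Γ w :=
      sup_le (fun d hd => hw d hd) (zpowers_le.mpr hew)
    exact hmax ⟨sup_le hD (zpowers_le.mpr he), w, hw0, fun d hd => this hd⟩ le_sup_left
      (mem_sup_right (mem_zpowers e))
  have M : ∀ e ∈ X, (∀ d ∈ D, e * d = d * e) → e * e = 1 → InA z D e 1 := by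
    intro e he hc hee
    obtain ⟨w, hw0, hw⟩ := hfix
    by_cases h0 : w + e • w = 0
    · refine ⟨z * e, M0 _ (X.mul_mem x.zmem he) w hw0 hw ?_, Or.inr (by simp [x.zmul])⟩
      rw [mul_smul, x.neg]
      exact (eq_neg_of_add_eq_zero_left h0).symm
    · refine ⟨e, M0 e he _ h0 (fun d hd => ?_) ?_, Or.inl (by simp)⟩
      · rw [smul_add, ← mul_smul, ← hc d hd, mul_smul, hw d hd]
      · rw [smul_add, ← mul_smul, hee, one_smul, add_comm]
  have L : ∀ f ∈ X, ∀ e ∈ X, (∀ d ∈ D, f * d = d * f) → (∀ d ∈ D, e * d = d * e) → f * f = z →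
      e * e = z → f * e = e * f → InA z D e f := by
    intro f hf e he hfc hec hff hee hfe
    have h1 := M (f * e) (X.mul_mem hf he) (fun d hd => by
      rw [mul_assoc, hec d hd, ← mul_assoc, hfc d hd, mul_assoc])
      (by rw [sq_mul_comm' hfe, hff, hee, x.zz])
    have h2 := h1.mul_left x f
    rw [← mul_assoc, hff, mul_one] at h2
    exact h2.zl' x
  by_cases H1 : ∀ e ∈ X, (∀ d ∈ D, e * d = d * e) → InA z D e 1
  · exfalso
    obtain ⟨y, hy, a, ha, hya⟩ : ∃ y ∈ X, ∃ a ∈ D, y * a = z * (a * y) := by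
      by_contra! H
      have hc : ∀ y ∈ X, ∀ d ∈ D, y * d = d * y := fun y hy d hd =>
        (x.comm y hy d (hD hd)).resolve_right (H y hy d hd)
      obtain ⟨e, he, f, hf, hef⟩ := x.nab
      have := (H1 e he (hc e he)).comm x (hc f hf) (by simp)
      rw [this] at hef
      exact x.z1 (by simpa using hef.symm)
    obtain ⟨w, hw0, hw⟩ := hfix
    have haa := x.sq_of_fix c (hD ha) hw0 (hw a ha)
    let D' := D ⊓ centralizer {y}
    have hD' : ∀ d, d ∈ D' ↔ d ∈ D ∧ y * d = d * y := fun d => by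
      simp [D', mem_centralizer_singleton_iff, eq_comm]
    have hDD : ∀ d ∈ D, ∀ d' ∈ D, d * d' = d' * d := by
      intro d hd d' hd'
      refine (x.comm d (hD hd) d' (hD hd')).resolve_right fun e => hw0 ?_
      have h1 : (d * d') • w = w := hw _ (D.mul_mem hd hd')
      rw [e, mul_smul, hw _ (D.mul_mem hd' hd), x.neg] at h1
      have : (2 : k) • w = 0 := by rw [two_smul]; nth_rewrite 1 [← h1]; simp
      exact (smul_eq_zero.mp this).resolve_left c.h2
    have split : ∀ d ∈ D, d ∈ D' ∨ a * d ∈ D' := by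
      intro d hd
      rcases x.comm y hy d (hD hd) with e | e
      · exact Or.inl ((hD' d).mpr ⟨hd, e⟩)
      · refine Or.inr ((hD' _).mpr ⟨D.mul_mem ha hd, ?_⟩)
        rw [← mul_assoc, hya, mul_assoc, mul_assoc, e, x.mz, x.zmul, mul_assoc]
    have centD : ∀ e : Γ, (∀ d ∈ D', e * d = d * e) → e * a = a * e → ∀ d ∈ D, e * d = d * e := by
      intro e h1 h2 d hd
      rcases split d hd with h | h
      · exact h1 d h
      · have := h1 _ h
        rw [← mul_assoc, h2, mul_assoc, mul_assoc] at this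
        exact mul_left_cancel this
    have hyc : ∀ d ∈ D', y * d = d * y := fun d hd => ((hD' d).mp hd).2
    have hyac : ∀ d ∈ D', y * a * d = d * (y * a) := fun d hd => by
      rw [mul_assoc, hDD a ha d ((hD' d).mp hd).1, ← mul_assoc, hyc d hd, mul_assoc]
    have hall : ∀ e ∈ X, (∀ d ∈ D', e * d = d * e) → e * e = z →
        InA z D' e y ∨ InA z D' e (y * a) := by
      intro e he hec hee
      rcases x.comm e he a (hD ha) with h | h
      · have := (H1 e he (centD e hec h)).sq c x hD ⟨w, hw0, hw⟩ (by simp)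
        exact absurd (hee.symm.trans (by simpa using this)) x.z1
      · have h2 := H1 (y⁻¹ * e) (X.mul_mem (X.inv_mem hy) he) (centD _ (fun d hd => by
          rw [mul_assoc, hec d hd, ← mul_assoc, ← mul_assoc]
          congr 1
          rw [inv_mul_eq_iff_eq_mul, ← mul_assoc, hyc d hd]; simp) (by
          rw [mul_assoc, h, inv_mul_eq_iff_eq_mul, ← mul_assoc y, hya]
          simp [mul_assoc]))
        obtain ⟨d, hd, h3⟩ := h2.mul_left x y
        simp only [mul_inv_cancel_left, mul_one] at h3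
        rcases split d hd with h4 | h4
        · exact Or.inl ⟨d, h4, h3⟩
        · refine Or.inr ⟨a * d, h4, ?_⟩
          rwa [mul_assoc y a, ← mul_assoc a a, haa, one_mul]
    have hfix' : ∃ w : W, w ≠ 0 ∧ ∀ d ∈ D', d • w = w :=
      ⟨w, hw0, fun d hd => hw d ((hD' d).mp hd).1⟩
    rcases x.sq y hy with hyy | hyy
    · exact x.two c (inf_le_left.trans hD) hfix' (X.mul_mem hy (hD ha)) hyac
        (by rw [x.sq_mul_anti hya, hyy, haa]; simp) hall
    · exact x.two c (inf_le_left.trans hD) hfix' hy hyc hyy hall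
  push Not at H1
  obtain ⟨i, hi, hic, hi1⟩ := H1
  have hii : i * i = z := (x.sq i hi).resolve_left fun e => hi1 (M i hi hic e)
  obtain ⟨j, hj, hjc, hjj, hji⟩ : ∃ j ∈ X, (∀ d ∈ D, j * d = d * j) ∧ j * j = z ∧
      ¬ InA z D j i := by
    by_contra! H
    exact x.two c hD hfix hi hic hii (f := i) (g := i) fun y hy h1 h2 => Or.inl (H y hy h1 h2)
  have hij : i * j = z * (j * i) :=
    (x.comm i hi j hj).resolve_left fun e => hji (L i hi j hj hic hjc hii hjj e)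
  refine ⟨D, i, j, hD, hfix, hi, hj, hic, hjc, hii, hjj, hij, fun e he hec => ?_⟩
  by_cases e1 : InA z D e 1
  · exact Or.inl e1
  by_cases e2 : InA z D e i
  · exact Or.inr (Or.inl e2)
  by_cases e3 : InA z D e j
  · exact Or.inr (Or.inr (Or.inl e3))
  have hee : e * e = z := (x.sq e he).resolve_left fun h => e1 (M e he hec h)
  have a1 : i * e = z * (e * i) :=
    (x.comm i hi e he).resolve_left fun h => e2 (L i hi e he hic hec hii hee h)
  have a2 : j * e = z * (e * j) :=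
    (x.comm j hj e he).resolve_left fun h => e3 (L j hj e he hjc hec hjj hee h)
  refine Or.inr (Or.inr (Or.inr (L _ (X.mul_mem hi hj) e he (fun d hd => ?_) hec ?_ hee ?_)))
  · rw [mul_assoc, hjc d hd, ← mul_assoc, hic d hd, mul_assoc]
  · rw [x.sq_mul_anti hij, hii, hjj, x.zz, mul_one]
  · rw [mul_assoc, a2, x.mz, ← mul_assoc i, a1, mul_assoc z, x.zmul, mul_assoc]

end CfsgLib.AH
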