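import Cfsg.Agent.Lib.AH.SR

/-! Orthogonal blocks and the reduction to the primitive case. -/

set_option autoImplicit false
set_option linter.unusedSectionVars false

namespace CfsgLib.AH

open Subgroup

variable {k G V : Type*} [Field k] [Group G] [AddCommGroup V] [Module k V] [DistribMulAction G V]
  [SMulCommClass G k V] {B : V →ₗ[k] V →ₗ[k] k}

/-- `W` is a nondegenerate block. -/
structure Good (G : Type*) [Group G] [DistribMulAction G V] (B : V →ₗ[k] V →ₗ[k] k)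
    (W : Submodule k V) : Prop where
  ne : W ≠ ⊥
  nd : ∀ u ∈ W, (∀ v ∈ W, B u v = 0) → u = 0
  blk : ∀ g : G, (∀ u ∈ W, g • u ∈ W) ∨ ∀ u ∈ W, ∀ v ∈ W, B (g • u) v = 0
  inv : ∀ (y : G) (a b : V), B (y • a) (y • b) = B a b

namespace Good

variable {W : Submodule k V} (h : Good G B W)

/-- The stabilizer of the block. -/
def stab : Subgroup G where
  carrier := {g | ∀ u ∈ W, g • u ∈ W}
  one_mem' := fun u hu => by rwa [one_smul]
  mul_mem' := fun ha hb u hu => by rw [mul_smul]; exact ha _ (hb u hu)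
  inv_mem' := fun {g} hg => (h.blk g⁻¹).resolve_right fun e => h.ne (eq_bot_iff.2 fun u hu =>
    h.nd u hu fun v hv => by simpa using e _ (hg u hu) v hv)

theorem orth {g : G} (hg : g ∉ h.stab) {u v : V} (hu : u ∈ W) (hv : v ∈ W) : B (g • u) v = 0 :=
  (h.blk g).resolve_left hg u hu v hv

theorem orth' {g : G} (hg : g ∉ h.stab) {u v : V} (hu : u ∈ W) (hv : v ∈ W) : B u (g • v) = 0 := by
  rw [← smul_inv_smul g u, h.inv]
  exact h.orth (by rwa [inv_mem_iff]) hu hv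

theorem orth2 {a b : G} (hg : b⁻¹ * a ∉ h.stab) {u v : V} (hu : u ∈ W) (hv : v ∈ W) :
    B (b • u) (a • v) = 0 := by
  rw [← smul_inv_smul b (a • v), h.inv, ← mul_smul]
  exact h.orth' hg hu hv

theorem uniq {g : G} (hg : g ∉ h.stab) {a a' b b' : V} (ha : a ∈ W) (ha' : a' ∈ W) (hb : b ∈ W)
    (hb' : b' ∈ W) (e : a + g • b = a' + g • b') : a = a' ∧ b = b' := by
  have h1 : a = a' := sub_eq_zero.1 (h.nd _ (W.sub_mem ha ha') fun v hv => by
    have := congrArg (fun x => B x v) e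
    simp only [map_add, LinearMap.add_apply, h.orth hg hb hv, h.orth hg hb' hv, add_zero] at this
    simp [this])
  rw [h1, add_right_inj] at e
  exact ⟨h1, MulAction.injective g e⟩

theorem pair (ev : ∀ (w : V) (c : k), c ≠ 0 → ∃ g : G, g • w = c • w) {g : G} (hg : g ∉ h.stab)
    {ω : k} (hω : ω ^ 3 = 1) {a b : V} (ha : a ∈ W) (hb : b ∈ W) (a0 : a ≠ 0) (b0 : b ≠ 0) :
    ∃ y ∈ h.stab, g⁻¹ * y * g ∈ h.stab ∧ y • a = ω • a ∧ (g⁻¹ * y * g) • b = ω • b := by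
  obtain ⟨x, hx⟩ := ev (a + g • b) ω (by rintro rfl; simp at hω)
  have h1 : x ∈ h.stab ∨ g⁻¹ * x ∈ h.stab := by
    by_contra! e
    refine a0 (h.nd a ha fun v hv => ?_)
    have := congrArg (fun y => B y (x • v)) hx
    simpa [h.inv, h.orth hg hb hv, h.orth' e.1 ha hv, h.orth2 e.2 hb hv] using this
  have h2 : x * g ∈ h.stab ∨ g⁻¹ * (x * g) ∈ h.stab := by
    by_contra! e
    refine b0 (h.nd b hb fun v hv => ?_)
    have := congrArg (fun y => B y ((x * g) • v)) hx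
    simp only [map_smul, map_add, LinearMap.smul_apply, LinearMap.add_apply, h.orth' e.1 ha hv,
      h.orth2 e.2 hb hv] at this
    simpa [mul_smul, h.inv, h.orth' hg ha hv] using this
  rcases h1 with h1 | h1
  · have h3 := h2.resolve_left fun e => hg ((h.stab.mul_mem_cancel_left h1).1 e)
    obtain ⟨e1, e2⟩ := h.uniq hg (h1 a ha) (W.smul_mem ω ha) (h3 b hb) (W.smul_mem ω hb) (by
      rw [← mul_smul, mul_inv_cancel_left, mul_smul, ← smul_add, hx, smul_add, smul_comm g ω])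
    exact ⟨x, h1, mul_assoc g⁻¹ x g ▸ h3, e1, mul_assoc g⁻¹ x g ▸ e2⟩
  · have h3 := h2.resolve_right fun e => hg ((h.stab.mul_mem_cancel_left h1).1 (mul_assoc g⁻¹ x g ▸ e))
    obtain ⟨e1, e2⟩ := h.uniq hg (h3 b hb) (W.smul_mem ω ha) (h1 a ha) (W.smul_mem ω hb) (by
      rw [← mul_smul, mul_inv_cancel_left, mul_smul, ← smul_add, add_comm, hx, smul_add, smul_comm g ω])
    have h4 : ω * ω * (ω * ω) = ω := by linear_combination ω * hω
    have e : g⁻¹ * (x * g * (g⁻¹ * x) * (x * g * (g⁻¹ * x))) * g =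
      g⁻¹ * x * (x * g) * (g⁻¹ * x * (x * g)) := by group
    refine ⟨x * g * (g⁻¹ * x) * (x * g * (g⁻¹ * x)), mul_mem (mul_mem h3 h1) (mul_mem h3 h1),
      e ▸ mul_mem (mul_mem h1 h3) (mul_mem h1 h3), ?_, e ▸ ?_⟩
    all_goals
      generalize x * g = α at e1 e2
      generalize g⁻¹ * x = β at e1 e2
      simp only [mul_smul, e1, e2, smul_comm α ω, smul_comm β ω]
      rw [smul_smul, smul_smul, smul_smul, mul_assoc (ω * ω), h4]

instance : DistribMulAction h.stab W where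
  smul g u := ⟨(g : G) • (u : V), g.2 u u.2⟩
  one_smul u := Subtype.ext (one_smul G (u : V))
  mul_smul a b u := Subtype.ext (mul_smul (a : G) (b : G) (u : V))
  smul_zero g := Subtype.ext (smul_zero (g : G))
  smul_add g a b := Subtype.ext (smul_add (g : G) (a : V) (b : V))

instance : SMulCommClass h.stab k W := ⟨fun g c u => Subtype.ext (smul_comm (g : G) c (u : V))⟩

/-- The group induced on the block. -/
def ind : h.stab →* W ≃ₗ[k] W := DistribMulAction.toModuleAut k W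

theorem coe_smul (g : h.stab) (u : W) :
    ((h.ind.rangeRestrict g • u : W) : V) = (g : G) • (u : V) := rfl

theorem faith (x : h.ind.range) (e : ∀ w : W, x • w = w) : x = 1 :=
  Subtype.ext (LinearEquiv.ext e)

theorem not_core [Finite G] (hr : RatG G) (ev : ∀ (w : V) (c : k), c ≠ 0 → ∃ g : G, g • w = c • w)
    {z ρ e : h.ind.range} {w : W} {ω : k} (h1 : ∀ v : W, z • v = -v) (h2 : w ≠ 0) (h3 : ω ^ 3 = 1)
    (h4 : ∀ g : h.ind.range, g • w = w → g = 1) (h5 : ρ • w = ω • w)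
    (h6 : (ρ⁻¹ * e * ρ * e⁻¹) ^ 2 = z) (x : h.ind.range) (hx : ¬ IsConj x (z * x)) (n : ℕ)
    (hn : n.Coprime (orderOf x)) : IsConj x (x ^ n) := by
  refine semiRat hr h.stab h.ind.rangeRestrict h.ind.rangeRestrict_surjective z
    (fun y => Subtype.ext (LinearEquiv.ext fun v => ?_)) (h.faith _ fun v => by
      rw [mul_smul, h1, h1, neg_neg]) (fun g hg => ?_) x hx n hn
  · change (z * y) • v = (y * z) • v
    rw [mul_smul, mul_smul, h1, h1, smul_neg]
  have k1 : ∀ y : h.ind.range, y • w = ω • w → y = ρ := fun y hy =>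
    (inv_mul_eq_one.1 (h4 _ (by rw [mul_smul, hy, ← h5, inv_smul_smul]))).symm
  have w0 : (w : V) ≠ 0 := fun e => h2 (Subtype.ext e)
  obtain ⟨a, a1, a2, a3, a4⟩ := h.pair ev hg h3 w.2 w.2 w0 w0
  obtain ⟨b, b1, b2, b3, b4⟩ := h.pair ev hg h3 (e • w).2 w.2
    (fun e' => h2 ((smul_eq_zero_iff_eq e).1 (Subtype.ext e'))) w0
  have e1 := k1 (h.ind.rangeRestrict ⟨a, a1⟩) (Subtype.ext a3)
  have e2 := k1 (h.ind.rangeRestrict ⟨_, a2⟩) (Subtype.ext a4)
  have e3 := k1 (e⁻¹ * h.ind.rangeRestrict ⟨b, b1⟩ * e) (by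
    rw [mul_smul, mul_smul, show h.ind.rangeRestrict ⟨b, b1⟩ • e • w = ω • e • w from
      Subtype.ext b3, smul_comm, inv_smul_smul])
  have e4 := k1 (h.ind.rangeRestrict ⟨_, b2⟩) (Subtype.ext b4)
  have e5 : g⁻¹ * (a⁻¹ * b) ^ 2 * g = ((g⁻¹ * a * g)⁻¹ * (g⁻¹ * b * g)) ^ 2 := by
    simp only [pow_two]; group
  refine ⟨(⟨a, a1⟩⁻¹ * ⟨b, b1⟩) ^ 2, e5 ▸ pow_mem (mul_mem (inv_mem a2) b2) 2, ?_, ?_⟩
  · rw [map_pow, map_mul, map_inv, e1, ← h6, ← e3]
    congr 1
    rw [e3]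
    rw [← e3]
    group
  · rw [show (⟨g⁻¹ * (((⟨a, a1⟩⁻¹ * ⟨b, b1⟩) ^ 2 : h.stab) : G) * g, _⟩ : h.stab) =
      ((⟨_, a2⟩ : h.stab)⁻¹ * ⟨_, b2⟩) ^ 2 from Subtype.ext e5, map_pow, map_mul, map_inv, e2, e4,
      inv_mul_cancel, one_pow]

theorem ctx [Finite G] (hs : Group.IsSolvable G) (hm : ∀ U, Good G B U → U ≤ W → W ≤ U)
    (alt : ∀ a, B a a = 0) (ev : ∀ (w : V) (c : k), c ≠ 0 → ∃ g : G, g • w = c • w)
    (N : Subgroup G) (hN : ∀ n ∈ N, ∀ v : V, n • v = v) (hp : (N.index : k) ≠ 0)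
    (h2 : (2 : k) ≠ 0) (h3 : (3 : k) ≠ 0) (h5 : (5 : k) ≠ 0) (big : ∃ c : k, c ≠ 0 ∧ c ^ 8 ≠ 1) :
    Ctx h.ind.range (B.domRestrict₁₂ W W) where
  alt a := alt a
  nd a ha := Subtype.ext (h.nd a a.2 fun v hv => ha ⟨v, hv⟩)
  inv g a b := by
    obtain ⟨g, rfl⟩ := h.ind.rangeRestrict_surjective g
    exact h.inv g a b
  ev w c hc := by
    by_cases e : w = 0
    · exact ⟨1, by simp [e]⟩
    obtain ⟨g, hg⟩ := ev w c hc
    have : g ∈ h.stab := by_contra fun e' => e (Subtype.ext (h.nd w w.2 fun v hv => by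
      simpa [hg, hc] using h.orth e' w.2 hv))
    exact ⟨h.ind.rangeRestrict ⟨g, this⟩, Subtype.ext hg⟩
  faith := h.faith
  nt := let ⟨w, hw, e⟩ := (Submodule.ne_bot_iff W).1 h.ne; ⟨⟨w, hw⟩, fun e' => e (congrArg Subtype.val e')⟩
  card := fun e => hp (by
    have h6 : N ≤ h.stab := fun n hn u hu => by rwa [hN n hn]
    have h7 : N.subgroupOf h.stab ≤ h.ind.ker := fun n hn =>
      LinearEquiv.ext fun u => Subtype.ext (hN n hn u)
    obtain ⟨m, hm⟩ := (index_dvd_of_le h7).trans (relIndex_dvd_index_of_le h6)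
    rw [hm, index_ker, Nat.cast_mul, e, zero_mul])
  h2 := h2
  h3 := h3
  h5 := h5
  big := big
  solv := Group.isSolvable_of_surjective h.ind.rangeRestrict_surjective
  prim U h6 h7 h8 := by
    have := hm (U.map W.subtype) ⟨fun e => h6 (eq_bot_iff.2 fun u hu =>
      Subtype.ext (e.le (Submodule.mem_map_of_mem hu))), ?_, fun g => ?_, h.inv⟩
      (Submodule.map_subtype_le W U)
    · refine eq_top_iff.2 fun w _ => ?_
      obtain ⟨u, hu, e⟩ := this w.2
      exact (Subtype.ext e : u = w) ▸ hu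
    · rintro _ ⟨u, hu, rfl⟩ e
      exact congrArg Subtype.val (h7 u hu fun v hv => e _ ⟨v, hv, rfl⟩)
    · by_cases e : g ∈ h.stab
      · refine (h8 (h.ind.rangeRestrict ⟨g, e⟩)).imp (fun e' => ?_) fun e' => ?_
        · rintro _ ⟨u, hu, rfl⟩
          exact ⟨_, e' u hu, rfl⟩
        · rintro _ ⟨u, hu, rfl⟩ _ ⟨v, hv, rfl⟩
          exact e' u hu v hv
      · right
        rintro _ ⟨u, -, rfl⟩ _ ⟨v, -, rfl⟩
        exact h.orth e u.2 v.2

end Good

end CfsgLib.AH
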