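import Cfsg.Agent.Lib.AH.Defs

set_option autoImplicit false

namespace CfsgLib.AH

open Subgroup

section
variable {G Γ : Type*} [Group G] [Group Γ] {K : Subgroup G} (π : K →* Γ)

open Classical in
/-- extension by zero of `f ∘ π` -/
noncomputable def extZ (f : Γ → ℤ) (h : G) : ℤ := if hk : h ∈ K then f (π ⟨h, hk⟩) else 0

theorem extZ_mem (f : Γ → ℤ) (h : K) : extZ π f h = f (π h) := dif_pos h.2

theorem extZ_not (f : Γ → ℤ) {h : G} (hk : h ∉ K) : extZ π f h = 0 := dif_neg hk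

theorem extZ_mul (f : Γ → ℤ) (y : K) (c : ℤ) (hf : ∀ u, f (π y * u) = c * f u) (h : G) :
    extZ π f (y * h) = c * extZ π f h := by
  by_cases hk : h ∈ K
  · rw [show (y : G) * h = (y * ⟨h, hk⟩ : K) from rfl, extZ_mem, map_mul, hf,
      ← extZ_mem π f ⟨h, hk⟩]
  · rw [extZ_not π f hk, extZ_not π f fun e => hk ((K.mul_mem_cancel_left y.2).1 e), mul_zero]

theorem extZ_conj (f : Γ → ℤ) (hf : ∀ u v, f (v⁻¹ * u * v) = f u) {g : G} (hg : g ∈ K) (h : G) :
    extZ π f (g⁻¹ * h * g) = extZ π f h := by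
  by_cases hk : h ∈ K
  · rw [show g⁻¹ * h * g = ((⟨g, hg⟩ : K)⁻¹ * ⟨h, hk⟩ * ⟨g, hg⟩ : K) from rfl, extZ_mem, map_mul,
      map_mul, map_inv, hf, ← extZ_mem π f ⟨h, hk⟩]
  · rw [extZ_not π f hk, extZ_not π f fun e => hk
      ((K.mul_mem_cancel_left (inv_mem hg)).1 ((K.mul_mem_cancel_right hg).1 e))]

end

/-- (plan SR) semi-rationality of the group induced on a block -/
theorem semiRat {G Γ : Type*} [Group G] [Finite G] [Group Γ] (h : RatG G) (K : Subgroup G)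
    (π : K →* Γ) (hπ : Function.Surjective π) (z : Γ) (zc : ∀ x : Γ, z * x = x * z)
    (zz : z * z = 1)
    (hy : ∀ g : G, g ∉ K → ∃ (y : K) (hy : g⁻¹ * y * g ∈ K), π y = z ∧ π ⟨g⁻¹ * y * g, hy⟩ = 1)
    (x : Γ) (hx : ¬ IsConj x (z * x)) (n : ℕ) (hn : n.Coprime (orderOf x)) :
    IsConj x (x ^ n) := by
  classical
  have := Fintype.ofFinite G
  have hd : ∀ u : Γ, orderOf u ∣ Nat.card G := fun u => by
    obtain ⟨k, rfl⟩ := hπ u
    exact (orderOf_map_dvd π k).trans (Subgroup.orderOf_coe k ▸ orderOf_dvd_natCard (k : G))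
  obtain ⟨m, hm, hm'⟩ := exists_coprime_lift (hd x) Nat.card_pos.ne' hn
  have hz : orderOf z = 2 := haveI := Fact.mk Nat.prime_two
    orderOf_eq_prime (by rw [pow_two, zz]) fun e => hx (by rw [e, one_mul])
  have hzm : z ^ m = z := by
    obtain ⟨j, rfl⟩ := Nat.coprime_two_right.1 (hm'.coprime_dvd_right (hz ▸ hd z))
    rw [pow_succ, pow_mul, pow_two, zz, one_pow, one_mul]
  have hzz : ∀ u, z * (z * u) = u := fun u => by rw [← mul_assoc, zz, one_mul]
  have hzc : ∀ u v : Γ, IsConj u v → IsConj (z * u) (z * v) := fun u v e => by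
    obtain ⟨c, rfl⟩ := isConj_iff.1 e
    exact isConj_iff.2 ⟨c, by rw [← mul_assoc, ← zc c]; group⟩
  set θ : Γ → ℤ := fun u => (if IsConj x u then 1 else 0) - if IsConj (z * x) u then 1 else 0
    with hθ
  have θz : ∀ u, θ (z * u) = -θ u := fun u => by
    have e1 : IsConj x (z * u) ↔ IsConj (z * x) u :=
      ⟨fun e => hzz u ▸ hzc _ _ e, fun e => hzz x ▸ hzc _ _ e⟩
    have e2 : IsConj (z * x) (z * u) ↔ IsConj x u :=
      ⟨fun e => hzz x ▸ hzz u ▸ hzc _ _ e, hzc _ _⟩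
    simp only [hθ, e1, e2, neg_sub]
  have θc : ∀ u v, θ (v⁻¹ * u * v) = θ u := fun u v => by
    have e : ∀ w, IsConj w (v⁻¹ * u * v) ↔ IsConj w u := fun w =>
      have e : IsConj u (v⁻¹ * u * v) := isConj_iff.2 ⟨v⁻¹, by rw [inv_inv]⟩
      ⟨fun a => a.trans e.symm, fun a => a.trans e⟩
    simp only [hθ, e]
  set ψ : Γ → ℤ := fun u => θ u - θ (u ^ m) with hψ
  have ψz : ∀ u, ψ (z * u) = -1 * ψ u := fun u => by
    simp only [hψ]
    rw [Commute.mul_pow (zc u), hzm, θz, θz]; ring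
  have ψc : ∀ u v, ψ (v⁻¹ * u * v) = ψ u := fun u v => by
    have := conj_pow (i := m) (a := v⁻¹) (b := u)
    rw [inv_inv] at this
    simp only [hψ, this, θc]
  have e1 : ∀ a : G, extZ π ψ a = extZ π θ a - extZ π θ (a ^ m) := fun a => by
    by_cases ha : a ∈ K
    · lift a to K using ha
      rw [← Subgroup.coe_pow, extZ_mem, extZ_mem, extZ_mem, map_pow]
    · rw [extZ_not π _ ha, extZ_not π _ ha, extZ_not π _ fun e => ha (zpowers_le.2 e
        (mem_zpowers_pow_iff.2 (hm'.coprime_dvd_right (orderOf_dvd_natCard a)))), sub_zero]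
  have e2 : ∀ a : G, ∑ g : G, extZ π ψ (g⁻¹ * a * g) = 0 := fun a => by
    obtain ⟨c, hc⟩ := isConj_iff.1 (h a m (hm'.coprime_dvd_right (orderOf_dvd_natCard a)))
    simp only [e1, Finset.sum_sub_distrib]
    rw [sub_eq_zero]
    refine Fintype.sum_equiv (Equiv.mulLeft c) _ _ fun g => congrArg _ ?_
    have := conj_pow (i := m) (a := (c * g)⁻¹) (b := a)
    rw [inv_inv] at this
    rw [Equiv.coe_mulLeft, this, ← hc]; group
  have e3 : ∀ g : G, 0 ≤ ∑ a : G, extZ π ψ a * extZ π ψ (g⁻¹ * a * g) := fun g => by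
    by_cases hg : g ∈ K
    · exact Finset.sum_nonneg fun a _ => by rw [extZ_conj π ψ ψc hg]; exact mul_self_nonneg _
    obtain ⟨y, y1, y2, y3⟩ := hy g hg
    have := Fintype.sum_equiv (Equiv.mulLeft (y : G))
      (fun a => -(extZ π ψ a * extZ π ψ (g⁻¹ * a * g)))
      (fun a => extZ π ψ a * extZ π ψ (g⁻¹ * a * g)) fun a => by
        rw [Equiv.coe_mulLeft, extZ_mul π ψ y (-1) (y2 ▸ ψz),
          show g⁻¹ * (y * a) * g = (⟨_, y1⟩ : K) * (g⁻¹ * a * g) by simp only []; group,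
          extZ_mul π ψ _ 1 (fun u => by rw [y3, one_mul, one_mul])]
        ring
    rw [Finset.sum_neg_distrib] at this
    omega
  have e4 : ∑ g : G, ∑ a : G, extZ π ψ a * extZ π ψ (g⁻¹ * a * g) = 0 := by
    rw [Finset.sum_comm]
    exact Finset.sum_eq_zero fun a _ => by rw [← Finset.mul_sum, e2, mul_zero]
  have e5 := (Finset.sum_eq_zero_iff_of_nonneg fun g _ => e3 g).1 e4 1 (Finset.mem_univ _)
  simp only [inv_one, one_mul, mul_one] at e5
  obtain ⟨k, rfl⟩ := hπ x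
  have e6 := (Finset.sum_eq_zero_iff_of_nonneg fun a _ => mul_self_nonneg _).1 e5 k
    (Finset.mem_univ _)
  rw [extZ_mem, mul_self_eq_zero] at e6
  rw [← pow_eq_pow_iff_modEq.2 hm]
  by_contra e7
  simp only [hψ, hθ, if_pos (IsConj.refl _), if_neg e7, if_neg fun e => hx (IsConj.symm e)] at e6
  split_ifs at e6 <;> omega

end CfsgLib.AH
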