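import Cfsg.Agent.Lib.AH.SD
import Cfsg.Agent.Lib.AH.Core
import Cfsg.Agent.Lib.AH.SR
import Cfsg.Agent.Lib.AH.GowA

set_option autoImplicit false

namespace CfsgLib.AH

open Subgroup

/-- (plan Gow1) the module statement -/
theorem gow_mod {p : ℕ} [Fact p.Prime] (h7 : 7 ≤ p) {G V : Type*} [Group G] [Finite G]
    (hs : Group.IsSolvable G) (h : RatG G) [AddCommGroup V] [Module (ZMod p) V] [Finite V]
    [DistribMulAction G V] [SMulCommClass G (ZMod p) V] (hV : ∃ v : V, v ≠ 0)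
    (N : Subgroup G) (hN : ∀ n ∈ N, ∀ v : V, n • v = v) (hp : ¬ p ∣ N.index)
    (ev : ∀ (w : V) (c : ZMod p), c ≠ 0 → ∃ g : G, g • w = c • w)
    (B : V →ₗ[ZMod p] V →ₗ[ZMod p] ZMod p) (inv : ∀ (y : G) (a b : V), B (y • a) (y • b) = B a b)
    (nd : ∀ a, (∀ b, B a b = 0) → a = 0) (alt : ∀ a, B a a = 0) : False := by
  have hn : ∀ n : ℕ, 0 < n → n < 7 → (n : ZMod p) ≠ 0 := fun n h0 hn h' =>
    absurd (Nat.le_of_dvd h0 ((ZMod.natCast_eq_zero_iff n p).1 h')) (by omega)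
  have h2 : (2 : ZMod p) ≠ 0 := by simpa using hn 2 (by norm_num) (by norm_num)
  have h3 : (3 : ZMod p) ≠ 0 := by simpa using hn 3 (by norm_num) (by norm_num)
  have h5 : (5 : ZMod p) ≠ 0 := by simpa using hn 5 (by norm_num) (by norm_num)
  have big : ∃ c : ZMod p, c ≠ 0 ∧ c ^ 8 ≠ 1 := by
    by_contra! e
    exact h5 (by linear_combination 283 * e 2 h2 - 11 * e 3 h3)
  have : Finite (Submodule (ZMod p) V) := Finite.of_injective _ SetLike.coe_injective
  obtain ⟨W, hW, hm⟩ := exists_minimal_of_wellFoundedLT (Good G B) ⟨⊤, fun e => by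
    obtain ⟨v, hv⟩ := hV
    exact hv (e.le Submodule.mem_top), fun u _ e => nd u fun v => e v trivial,
    fun _ => Or.inl fun _ _ => trivial, inv⟩
  have := Finite.of_surjective _ hW.ind.rangeRestrict_surjective
  obtain ⟨z, ρ, e, w, ω, h1, h4, h6, h8, h9, h10, h11⟩ := (hW.ctx hs (fun U a b => hm a b) alt ev N hN
    (fun e => hp ((ZMod.natCast_eq_zero_iff _ p).1 e)) h2 h3 h5 big).core
  exact h11 (hW.not_core h ev h1 h4 h6 h8 h9 h10)

/-- (plan Gow2) Gow's theorem: a solvable rational group is a `{2, 3, 5}`-group -/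
theorem gow {G : Type*} [Group G] [Finite G] (hs : Group.IsSolvable G) (h : RatG G) {p : ℕ}
    (hp : p.Prime) (hd : p ∣ Nat.card G) : p = 2 ∨ p = 3 ∨ p = 5 := by
  by_contra e
  have h7 : 7 ≤ p := by
    by_contra e'
    have := hp.two_le
    have : p < 7 := by omega
    interval_cases p <;> first | exact absurd hp (by decide) | simp at e
  have := Fact.mk hp
  refine card_induction (P := fun X _ _ => Group.IsSolvable X → RatG X → ¬ p ∣ Nat.card X) ?_ G
    hs h hd
  intro X _ _ ih hs h hd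
  rcases subsingleton_or_nontrivial X with h0 | h0
  · rw [Nat.card_of_subsingleton (1 : X), Nat.dvd_one] at hd
    omega
  obtain ⟨M, hM⟩ := exists_isMinNormal (G := X)
  have := hM.1
  have h1 : ¬ p ∣ M.index := ih (X ⧸ M) (card_quotient_lt hM.2.1) inferInstance
    (h.quot _ (QuotientGroup.mk'_surjective M))
  obtain ⟨r, hr, h2⟩ := hM.exists_isElementaryAbelian inferInstance
  have := Fact.mk hr
  obtain ⟨n, hn⟩ := IsPGroup.iff_card.1 (isPGroup_of_isElementaryAbelian h2)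
  rw [← M.card_mul_index, hp.dvd_mul, hn] at hd
  obtain rfl := (Nat.prime_dvd_prime_iff_eq hp hr).1 (hp.dvd_of_dvd_pow (hd.resolve_right h1))
  obtain ⟨W, _, _, _, _, ι, f⟩ := exists_mod M h2
  have := f.finite
  obtain ⟨ev, B, h3, h4, h5⟩ := alt (r := p) (by omega) h hM f
  refine gow_mod h7 hs h ?_ M (fun m hm v => f.smul_eq.2 ?_) h1 ev B h3 h4 h5
  · by_contra! h'
    refine hM.2.1 (eq_bot_iff.2 fun x hx => ?_)
    obtain ⟨a, rfl⟩ := (f.mem x).1 hx
    rw [h' a, f.zero]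
    exact one_mem _
  · exact congrArg Subtype.val (h2.1.is_comm.comm ⟨m, hm⟩ ⟨_, f.mem' v⟩)

end CfsgLib.AH
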