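import Cfsg.Agent.Lib.AH.Gow
import Cfsg.Agent.Lib.AH.C25
import Cfsg.Agent.Lib.AH.C6
import Cfsg.Agent.Lib.AH.C4
import Cfsg.Agent.Lib.AH.Count

set_option autoImplicit false

namespace CfsgLib.AH

open Subgroup

/-- (plan Main) -/
theorem main {G : Type*} [Group G] [Finite G] [Nontrivial G] (hG : Group.IsSolvable G)
    (h : Function.Injective fun C : ConjClasses G => Nat.card C.carrier) :
    Nonempty (G ≃* Equiv.Perm (Fin 3)) := by
  classical
  have := Fintype.ofFinite G
  have := Fintype.ofFinite (ConjClasses G)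
  by_contra hne
  have hN : Nat.card G ≠ 0 := Nat.card_pos.ne'
  let c : G → ℕ := fun x => Nat.card (centralizer ({x} : Set G))
  have hc : ∀ x, c x * (centralizer ({x} : Set G)).index = Nat.card G := fun x => card_mul_index _
  have h1 : ∀ x y, c x = c y → IsConj x y := fun x y e => isConj_of_index h
    (Nat.eq_of_mul_eq_mul_left (Nat.card_pos : 0 < c y) ((e ▸ hc x).trans (hc y).symm))
  have hR : RatG G := fun x n hn => h1 _ _ (congrArg (fun H : Subgroup G => Nat.card H)
    (le_antisymm (Frob.centralizer_le_centralizer_pow x n)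
      (Frob.centralizer_le_centralizer_of_mem_zpowers (mem_zpowers_pow_iff.2 hn))))
  have c1 : c 1 = Nat.card G := by
    simp only [c]
    rw [Frob.centralizer_singleton_eq_top_iff.2 (one_mem _), card_top]
  have h2 : ∀ x, c x ≠ 1 := fun x e => by
    have e1 : x = 1 := mem_bot.1 (card_eq_one.1 e ▸ mem_centralizer_singleton_iff.2 rfl)
    rw [e1, c1] at e
    exact (Finite.one_lt_card (α := G)).ne' e
  have hπ := fun p => gow hG hR (p := p)
  have hm : ∀ {P : ℕ → Prop}, (∀ x, P (c x)) → ∀ d ∈ Finset.univ.image c, P d := fun h d hd => by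
    obtain ⟨x, -, rfl⟩ := Finset.mem_image.1 hd
    exact h x
  have h3 := count (Finset.univ.image c) (Nat.card G) hN
    (hm fun x => card_subgroup_dvd_card (centralizer ({x} : Set G)))
    (Finset.mem_image.2 ⟨1, Finset.mem_univ _, c1⟩) hπ (by simpa using h2)
    (fun e => hm (P := (· ≠ 2)) (fun x e => hne (cent_two h e)) 2 e rfl)
    (fun e => by
      obtain ⟨g, -, hg⟩ := Finset.mem_image.1 e
      refine ⟨fun e3 => ?_, fun d hd e3 => ?_⟩
      · obtain ⟨x, hx⟩ := exists_ne (1 : G)
        refine hx (isConj_one_left.1 (h1 x 1 ?_))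
        have : Fact (Nat.Prime 3) := ⟨Nat.prime_three⟩
        have := isCyclic_of_prime_card e3
        simp only [c]
        rw [Frob.centralizer_singleton_eq_top_iff.2 (one_mem _),
          Frob.centralizer_singleton_eq_top_iff.2 (mem_center_iff.2 fun y => mul_comm' y x)]
      · obtain ⟨x, -, rfl⟩ := Finset.mem_image.1 hd
        by_cases e4 : x = 1
        · exact Or.inr (e4 ▸ c1)
        · exact Or.inl (cent_three hg e4 e3))
    (fun e => by
      obtain ⟨g, -, hg⟩ := Finset.mem_image.1 e
      exact cent_four hR hg)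
    (fun e e1 => hm (P := (· ≠ 6)) (ne6 hG hR hπ e) 6 e1 rfl)
    (hm (P := fun d => 5 ∣ d → 25 ∣ d) (dvd25 hG hR))
  choose o ho using (ConjClasses.mk_surjective (α := G))
  have h4 : Finset.univ.image c = Finset.univ.image fun C : ConjClasses G => c (o C) := by
    ext d
    simp only [Finset.mem_image, Finset.mem_univ, true_and]
    refine ⟨?_, fun ⟨C, e⟩ => ⟨_, e⟩⟩
    rintro ⟨x, rfl⟩
    obtain ⟨g, hg⟩ := isConj_iff.1 (ConjClasses.mk_eq_mk_iff_isConj.1 (ho (ConjClasses.mk x)))
    exact ⟨ConjClasses.mk x, (Frob.card_centralizer_conj g _).symm.trans (by rw [hg])⟩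
  rw [h4, Finset.sum_image (g := fun C : ConjClasses G => c (o C)) fun C _ D _ e => (ho C).symm.trans
    ((ConjClasses.mk_eq_mk_iff_isConj.2 (h1 _ _ e)).trans (ho D))] at h3
  refine h3.ne ?_
  have h5 : ∀ C : ConjClasses G, (1 / c (o C) : ℚ) = Nat.card C.carrier / Nat.card G :=
    fun C => by
      have e := hc (o C)
      rw [Frob.index_centralizer_eq_card_carrier, ho] at e
      have e1 : (c (o C) : ℚ) ≠ 0 := by exact_mod_cast (Nat.card_pos).ne'
      rw [div_eq_div_iff e1 (by exact_mod_cast hN), ← e]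
      push_cast
      ring
  rw [Finset.sum_congr rfl fun C _ => h5 C, ← Finset.sum_div, div_eq_one_iff_eq (by exact_mod_cast hN)]
  have h6 := Group.sum_card_conj_classes_eq_card G
  rw [finsum_eq_sum_of_fintype] at h6
  rw [← h6]
  push_cast
  rfl

end CfsgLib.AH
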