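import Cfsg.Agent.Lib.AH.SD

set_option autoImplicit false

namespace CfsgLib.AH

open Subgroup

universe u

section

variable {k Y W : Type*} [Field k] [Group Y] [AddCommGroup W] [Module k W] [DistribMulAction Y W]

theorem n5_norm {D : Subgroup Y} {x : Y} (hx : x ^ 5 = 1) (hc : ∀ d ∈ D, d * x = x * d)
    (hfp : ∀ w : W, (∀ d ∈ D, d • w = w) → x • w = w → w = 0) {w : W} (hw : ∀ d ∈ D, d • w = w) :
    ∑ j ∈ Finset.range 5, x ^ j • w = 0 := by
  refine hfp _ (fun d hd => ?_) ?_
  · rw [Finset.smul_sum]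
    refine Finset.sum_congr rfl fun j _ => ?_
    rw [← mul_smul, (Commute.pow_right (hc d hd) j).eq, mul_smul, hw d hd]
  · rw [Finset.smul_sum, Finset.sum_range_succ, Finset.sum_range_succ' _ 4, ← mul_smul, ← pow_succ',
      hx, pow_zero]
    simp only [← mul_smul, ← pow_succ']

theorem n5_hyp {A D : Subgroup Y} (hA : Cfsg.IsElementaryAbelian 5 A) (hD : D ≤ A)
    (h5 : (5 : k) ≠ 0) {w : W} (hw0 : w ≠ 0) (hw : ∀ d ∈ D, d • w = w)
    (hfp : ∀ x ∈ A, x ∉ D → ∀ w : W, (∀ d ∈ D, d • w = w) → x • w = w → w = 0)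
    {a b : Y} (ha : a ∈ A) (haD : a ∉ D) (hb : b ∈ A) : ∃ i : ℕ, a ^ i * b ∈ D := by
  by_contra h
  push Not at h
  have := hA.1
  have hN : ∀ x ∈ A, x ∉ D → ∑ j ∈ Finset.range 5, x ^ j • w = 0 := fun x hx hxD =>
    n5_norm (hA.2 x hx) (fun d hd => mul_comm_of_mem_isMulCommutative A (hD hd) hx) (hfp x hx hxD) hw
  have h1 : ∑ i ∈ Finset.range 5, ∑ j ∈ Finset.range 5, (a ^ i * b) ^ j • w = 0 :=
    Finset.sum_eq_zero fun i _ => hN _ (mul_mem (pow_mem ha i) hb) (h i)
  have hc : Commute a b := mul_comm_of_mem_isMulCommutative A ha hb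
  rw [Finset.sum_comm, Finset.sum_range_succ', Finset.sum_eq_zero, zero_add] at h1
  · simp only [pow_zero, one_smul, Finset.sum_const, Finset.card_range] at h1
    rw [← Nat.cast_smul_eq_nsmul k] at h1
    exact hw0 ((smul_eq_zero.1 h1).resolve_left (by exact_mod_cast h5))
  · intro j hj
    have h2 := hN (a ^ (j + 1)) (pow_mem ha _) fun e => haD (by
      obtain ⟨m, hm⟩ := exists_pow_eq_self_of_coprime (x := a) (n := j + 1)
        (Nat.Coprime.coprime_dvd_right (orderOf_dvd_of_pow_eq_one (hA.2 a ha)) (by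
          have := Finset.mem_range.1 hj
          interval_cases j <;> norm_num))
      exact hm ▸ pow_mem e m)
    rw [← smul_zero (b ^ (j + 1)), ← h2, Finset.smul_sum]
    refine Finset.sum_congr rfl fun i _ => ?_
    rw [(hc.pow_left i).mul_pow, ((hc.pow_left i).pow_pow _ _).eq, mul_smul, ← pow_mul, ← pow_mul,
      mul_comm i]

variable [Finite Y]

theorem n5_core (B : W →ₗ[k] W →ₗ[k] k) (inv : ∀ (y : Y) (a b : W), B (y • a) (y • b) = B a b)
    (nd : ∀ a, (∀ b, B a b = 0) → a = 0) (sy : (∀ a b, B a b = B b a) ∨ ∀ a b, B a b = -B b a)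
    {D : Subgroup Y} (hD : (Nat.card D : k) ≠ 0) (h5 : (5 : k) ≠ 0) {α : Y} (hα : α ^ 5 = 1)
    (hc : ∀ d ∈ D, d * α = α * d) (hfp : ∀ w : W, (∀ d ∈ D, d • w = w) → α • w = w → w = 0)
    (hf : ∀ w : W, (∀ d ∈ D, d • w = w) → B (α • w) w = B (α • α • w) w) {w : W}
    (hw : ∀ d ∈ D, d • w = w) : w = 0 := by
  have := Fintype.ofFinite D
  let F : AddSubgroup W :=
    { carrier := {w | ∀ d ∈ D, d • w = w}
      zero_mem' := fun d _ => smul_zero d
      add_mem' := fun ha hb d hd => by rw [smul_add, ha d hd, hb d hd]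
      neg_mem' := fun ha d hd => by rw [smul_neg, ha d hd] }
  have hF : ∀ w ∈ F, α • w ∈ F := fun w hw d hd => by
    rw [← mul_smul, hc d hd, mul_smul, hw d hd]
  have nd0 : ∀ w ∈ F, (∀ w' ∈ F, B w w' = 0) → w = 0 := fun w hw h => nd w fun v => by
    have h1 := h (∑ d : D, (d : Y) • v) fun d hd => by
      rw [Finset.smul_sum]
      exact Fintype.sum_equiv (Equiv.mulLeft ⟨d, hd⟩) _ _ fun x => (mul_smul _ _ _).symm
    rw [map_sum, Finset.sum_congr rfl (g := fun _ => B w v) fun d _ => by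
      rw [← inv (d : Y) w v, hw d d.2], Finset.sum_const, Finset.card_univ,
      ← Nat.card_eq_fintype_card, nsmul_eq_mul] at h1
    exact (mul_eq_zero.1 h1).resolve_left hD
  have h5' : ∀ w : W, α • α • α • α • α • w = w := fun w => by
    rw [← one_smul Y w, ← hα]
    simp only [← mul_smul, pow_succ, pow_zero, one_mul, mul_assoc]
    rw [show α * (α * (α * (α * (α * (α * (α * (α * (α * α)))))))) = α ^ 5 * α ^ 5 by
      simp only [pow_succ, pow_zero, one_mul, mul_assoc], hα,
      show α * (α * (α * (α * α))) = α ^ 5 by simp only [pow_succ, pow_zero, one_mul, mul_assoc],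
      hα, one_mul]
  have pol : ∀ w ∈ F, ∀ w' ∈ F, B (α • w) w' + B w' (α • α • α • α • w) =
      B (α • α • w) w' + B w' (α • α • α • w) := fun w hw w' hw' => by
    have h1 := hf _ (F.add_mem hw hw')
    have h2 := inv α w' (α • α • α • α • w)
    have h3 := (inv α (α • w') (α • α • α • α • w)).trans (inv α w' (α • α • α • w))
    rw [h5'] at h2 h3
    simp only [smul_add, map_add, LinearMap.add_apply] at h1
    linear_combination h1 - hf w hw - hf w' hw' - h2 + h3
  rcases sy with sy | sy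
  · have hT : ∀ w ∈ F, α • w + α • α • α • α • w - α • α • w - α • α • α • w = 0 := fun w hw =>
      nd0 _ (F.sub_mem (F.sub_mem (F.add_mem (hF _ hw) (hF _ (hF _ (hF _ (hF _ hw)))))
        (hF _ (hF _ hw))) (hF _ (hF _ (hF _ hw)))) fun w' hw' => by
        simp only [map_add, map_sub, LinearMap.add_apply, LinearMap.sub_apply]
        linear_combination pol w hw w' hw' + sy (α • α • α • α • w) w' - sy (α • α • α • w) w'
    have e1 := hT _ (hF _ hw)
    have e2 := hT _ (hF _ (hF _ hw))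
    have e3 := hT _ (hF _ (hF _ (hF _ hw)))
    have e4 := hT _ (hF _ (hF _ (hF _ (hF _ hw))))
    have e5 := n5_norm hα hc hfp hw
    simp only [h5'] at e1 e2 e3 e4
    simp only [Finset.sum_range_succ, pow_succ, pow_zero, one_mul, mul_smul, one_smul,
      Finset.sum_range_zero, zero_add] at e5
    refine (smul_eq_zero.1 (?_ : (5 : k) • w = 0)).resolve_left h5
    generalize α • α • α • α • w = x4 at e1 e2 e3 e4 e5
    generalize α • α • α • w = x3 at e1 e2 e3 e4 e5
    generalize α • α • w = x2 at e1 e2 e3 e4 e5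
    generalize α • w = x1 at e1 e2 e3 e4 e5
    linear_combination (norm := module) e1 + e4 - e2 - e3 + e5
  · have hT : ∀ w ∈ F, α • w + α • α • α • w = 0 := fun w hw => by
      refine hfp _ (F.add_mem (hF _ hw) (hF _ (hF _ (hF _ hw)))) (sub_eq_zero.1 ?_).symm
      rw [smul_add]
      refine nd0 _ (F.sub_mem (F.add_mem (hF _ hw) (hF _ (hF _ (hF _ hw))))
        (F.add_mem (hF _ (hF _ hw)) (hF _ (hF _ (hF _ (hF _ hw)))))) fun w' hw' => ?_
      simp only [map_add, map_sub, LinearMap.add_apply, LinearMap.sub_apply]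
      linear_combination pol w hw w' hw' - sy (α • α • α • α • w) w' + sy (α • α • α • w) w'
    have e1 := hT _ hw
    have e2 := hT _ (hF _ (hF _ hw))
    rw [h5'] at e2
    refine hfp w hw ?_
    exact add_right_cancel (e1.trans (e2.symm.trans (add_comm _ _)))

end

theorem n5_lem {G Y W : Type*} [Group G] [Finite G] (h : RatG G) [Group Y] [Finite Y] (π : G →* Y)
    (hπ : Function.Surjective π) {r : ℕ} [Fact r.Prime] (hr : r ≠ 5) [AddCommGroup W]
    [Module (ZMod r) W] [DistribMulAction G W] [SMulCommClass G (ZMod r) W] [DistribMulAction Y W]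
    (hs : ∀ (g : G) (w : W), π g • w = g • w) (faith : ∀ y : Y, (∀ w : W, y • w = w) → y = 1)
    {M : Subgroup G} (hM : IsMinNormal M) {ι : W → G} (e : Emb M ι) {A : Subgroup Y}
    (hA : IsMinNormal A) (hA5 : Cfsg.IsElementaryAbelian 5 A) : False := by
  have : Fact (Nat.Prime 5) := ⟨by norm_num⟩
  have hn := hA.1
  have := hA5.1
  have := e.finite
  have hp : r.Prime := Fact.out
  have h5 : (5 : ZMod r) ≠ 0 := fun e => hr ((Nat.prime_dvd_prime_iff_eq hp (by norm_num)).1
    ((ZMod.natCast_eq_zero_iff 5 r).1 (by exact_mod_cast e)))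
  obtain ⟨V, _, _, _, _, κ, e'⟩ := exists_mod A hA5
  have := e'.finite
  obtain ⟨-, C, Cinv, Cnd, Calt⟩ := alt (r := 5) le_rfl (h.quot π hπ) hA e'
  have hW : ∃ w : W, w ≠ 0 := by
    by_contra h'
    push Not at h'
    refine hM.2.1 (eq_bot_iff.2 fun x hx => ?_)
    obtain ⟨a, rfl⟩ := (e.mem x).1 hx
    rw [h' a, e.zero]
    exact one_mem _
  obtain ⟨B, Binv, Bnd, Bsy⟩ := sd (r := r) (Y := G) (W := W) hW (e.irr hM) h.real
  replace Binv : ∀ (y : Y) (a b : W), B (y • a) (y • b) = B a b := fun y a b => by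
    obtain ⟨g, rfl⟩ := hπ y
    rw [hs, hs, Binv]
  obtain ⟨D, ⟨hD, w, hw0, hw⟩, hmax⟩ := Set.Finite.exists_maximal
    (s := {D : Subgroup Y | D ≤ A ∧ ∃ w : W, w ≠ 0 ∧ ∀ d ∈ D, d • w = w}) (Set.toFinite _)
    ⟨⊥, bot_le, hW.imp fun w hw => ⟨hw, fun d hd => by rw [mem_bot.1 hd, one_smul]⟩⟩
  have hfp : ∀ x ∈ A, x ∉ D → ∀ w : W, (∀ d ∈ D, d • w = w) → x • w = w → w = 0 := by
    intro x hx hxD w hw hxw
    by_contra h0
    exact hxD (hmax (y := A ⊓ MulAction.stabilizer Y w) ⟨inf_le_left, w, h0, fun d hd => hd.2⟩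
      (le_inf hD hw) ⟨hx, hxw⟩)
  obtain ⟨a, ha, haD⟩ : ∃ a ∈ A, a ∉ D := by
    by_contra h'
    push Not at h'
    rcases e.irr hM
      { carrier := {w | ∀ d ∈ A, d • w = w}
        zero_mem' := fun d _ => smul_zero d
        add_mem' := fun ha hb d hd => by rw [smul_add, ha d hd, hb d hd]
        neg_mem' := fun ha d hd => by rw [smul_neg, ha d hd] } (fun g u hu d hd => by
      have := hu _ (hn.conj_mem d hd (π g)⁻¹)
      rw [inv_inv, mul_smul, mul_smul, inv_smul_eq_iff] at this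
      rwa [← hs]) with e1 | e1
    · exact hw0 (e1.le fun d hd => hw d (h' d hd))
    · exact hA.2.1 (eq_bot_iff.2 fun d hd => faith d fun w => e1.ge (AddSubgroup.mem_top w) d hd)
  obtain ⟨a, rfl⟩ := (e'.mem a).1 ha
  let D' : Submodule (ZMod 5) V := AddSubgroup.toZModSubmodule 5
    { carrier := {v | κ v ∈ D}
      zero_mem' := show κ 0 ∈ D from e'.zero ▸ D.one_mem
      add_mem' := fun {a b} ha hb => show κ (a + b) ∈ D from e'.add a b ▸ D.mul_mem ha hb
      neg_mem' := fun {a} ha => show κ (-a) ∈ D from e'.neg a ▸ D.inv_mem ha }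
  obtain ⟨φ, hφ, hφD⟩ := D'.exists_le_ker_of_lt_top (lt_top_iff_ne_top.2 fun e1 =>
    haD (e1.ge (Submodule.mem_top (x := a))))
  obtain ⟨u, rfl⟩ : ∃ u, C u = φ := (LinearMap.injective_iff_surjective_of_finrank_eq_finrank
    Subspace.dual_finrank_eq.symm).1 ((injective_iff_map_eq_zero C).2 fun a ha =>
      Cnd a (LinearMap.congr_fun ha)) φ
  have hyp : ∀ b : V, ∃ i : ℕ, C u b = -i * C u a ∧ i • a + b ∈ D' := fun b => by
    obtain ⟨i, hi⟩ := n5_hyp hA5 hD h5 hw0 hw hfp ha haD (e'.mem' b)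
    rw [← e'.nsmul, ← e'.add] at hi
    refine ⟨i, ?_, hi⟩
    have : C u (i • a + b) = 0 := hφD hi
    rw [map_add, map_nsmul, nsmul_eq_mul] at this
    linear_combination this
  have hua : C u a ≠ 0 := fun e1 => hφ (LinearMap.ext fun b => by
    obtain ⟨i, hi, -⟩ := hyp b
    rw [hi, e1, mul_zero]; rfl)
  have hker : ∀ b, C u b = 0 → κ b ∈ D := fun b hb => by
    obtain ⟨i, hi, h1⟩ := hyp b
    rw [hb, eq_comm, mul_eq_zero, neg_eq_zero] at hi
    rwa [← Nat.cast_smul_eq_nsmul (ZMod 5), hi.resolve_right hua, zero_smul, zero_add] at h1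
  have key : ∀ w : W, (∀ d ∈ D, d • w = w) → ∀ v : V, B (κ v • w) w = B (κ (3 • v) • w) w := by
    intro w hw v
    obtain ⟨g, hg⟩ := hπ (κ u)
    obtain ⟨s, t, ht, eg⟩ := Nat.exists_eq_pow_mul_and_not_dvd (orderOf_pos g).ne' 5 (by norm_num)
    have h1 : orderOf (g ^ t) ∣ 5 ^ s := orderOf_dvd_of_pow_eq_one (by
      rw [← pow_mul, mul_comm, ← eg, pow_orderOf_eq_one])
    have h2 : orderOf (ι w) ∣ r := orderOf_dvd_of_pow_eq_one (by
      rw [← e.nsmul, ← Nat.cast_smul_eq_nsmul (ZMod r), ZMod.natCast_self, zero_smul, e.zero])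
    have h3 : Commute g (ι w) := e.smul_eq.1 (by rw [← hs, hg, hw _ (hker u (Calt u))])
    obtain ⟨y, h4, h6⟩ := h.pair (h3.pow_left t) (m := 2) (n := 1)
      ((((Nat.coprime_primes (by norm_num) hp).2 hr.symm).pow_left s).coprime_dvd_left h1
        |>.coprime_dvd_right h2)
      ((Nat.Coprime.pow_right s (by norm_num)).coprime_dvd_right h1) (Nat.coprime_one_left _)
    have h7 : π y • w = w := by
      rw [hs]; exact e.inj (by rw [e.smul, h6, pow_one])
    have h8 : π y • u = (2 : ZMod 5) • u := by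
      have h9 := congrArg π h4
      rw [map_mul, map_mul, map_inv, map_pow, map_pow, map_pow, hg, ← e'.nsmul, ← e'.nsmul,
        ← e'.smul] at h9
      have h10 := e'.inj h9
      have ht' : (t : ZMod 5) ≠ 0 := fun e1 => ht ((ZMod.natCast_eq_zero_iff t 5).1 e1)
      rw [← Nat.cast_smul_eq_nsmul (ZMod 5) t, smul_comm, smul_comm 2] at h10
      rw [smul_right_injective V ht' h10, ← Nat.cast_smul_eq_nsmul (ZMod 5)]
      rfl
    have h9 : κ (-(3 • v) + π y • v) ∈ D := hker _ (by
      have h10 := Cinv (π y) u v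
      have h11 : (5 : ZMod 5) = 0 := rfl
      rw [h8] at h10
      simp only [map_add, map_neg, map_nsmul, map_smul, LinearMap.smul_apply, smul_eq_mul,
        nsmul_eq_mul, Nat.cast_ofNat] at h10 ⊢
      linear_combination 3 * h10 - C u (π y • v) * h11)
    have h10 := hw _ h9
    rw [e'.add, e'.neg, mul_smul, inv_smul_eq_iff, e'.smul, mul_smul, mul_smul] at h10
    rw [← h10, ← Binv (π y) (κ v • w), inv_smul_eq_iff.2 h7.symm, h7]
  obtain ⟨j, hj⟩ := IsPGroup.iff_card.1 ((isPGroup_of_isElementaryAbelian hA5).to_le hD)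
  refine hw0 (n5_core B Binv Bnd Bsy (D := D) (by rw [hj]; exact_mod_cast pow_ne_zero j h5) h5
    (hA5.2 _ ha) (fun d hd => mul_comm_of_mem_isMulCommutative A (hD hd) ha) (hfp _ ha haD)
    (fun w hw => ?_) hw)
  rw [← mul_smul, ← e'.add, key w hw (a + a)]
  congr 4
  have : (5 : ℕ) • a = 0 := by
    rw [← Nat.cast_smul_eq_nsmul (ZMod 5), ZMod.natCast_self, zero_smul]
  linear_combination (norm := module) -this

theorem sylow5_aux [Fact (Nat.Prime 5)] (G : Type u) [Group G] [Finite G] :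
    Group.IsSolvable G → RatG G → ∀ P : Sylow 5 G, (P : Subgroup G).Normal := by
  refine card_induction (P := fun G _ _ => Group.IsSolvable G → RatG G →
    ∀ P : Sylow 5 G, (P : Subgroup G).Normal) (fun G _ _ ih hs h P => ?_) G
  rcases subsingleton_or_nontrivial G with h0 | h0
  · exact ⟨fun x hx g => by rwa [Subsingleton.elim (g * x * g⁻¹) x]⟩
  obtain ⟨M, hM⟩ := exists_isMinNormal (G := G)
  have := hM.1
  have hq := QuotientGroup.mk'_surjective M
  have h1 : ((P : Subgroup G).map (QuotientGroup.mk' M)).Normal :=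
    ih _ (card_quotient_lt hM.2.1) inferInstance (h.quot _ hq) (P.mapSurjective hq)
  have h2 : ((P : Subgroup G) ⊔ M).Normal := by
    have := h1.comap (QuotientGroup.mk' M)
    rwa [comap_map_eq, QuotientGroup.ker_mk'] at this
  obtain ⟨r, hr, hE⟩ := hM.exists_isElementaryAbelian inferInstance
  have := Fact.mk hr
  have h3 : M ≤ normalizer (P : Set G) := by
    by_cases h5 : r = 5
    · subst h5
      exact ((isPGroup_of_isElementaryAbelian hE).le_sylow_of_normal P).trans le_normalizer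
    obtain ⟨W, _, _, _, _, ι, e⟩ := exists_mod M hE
    let π := (DistribMulAction.toModuleAut (ZMod r) W : G →* W ≃ₗ[ZMod r] W).rangeRestrict
    have hπ : Function.Surjective π := MonoidHom.rangeRestrict_surjective _
    have := Finite.of_surjective π hπ
    have hs' : ∀ (g : G) (w : W), π g • w = g • w := fun _ _ => rfl
    have faith : ∀ y, (∀ w : W, y • w = w) → y = π 1 := fun y hy =>
      Subtype.ext (LinearEquiv.ext fun w => (hy w).trans (one_smul G w).symm)
    have h4 : M.map π = ⊥ := by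
      rw [eq_bot_iff]
      rintro _ ⟨m, hm, rfl⟩
      rw [faith (π m) fun w => e.smul_eq.2
        (have := hE.1; mul_comm_of_mem_isMulCommutative M hm (e.mem' w)), map_one]
      exact one_mem _
    have h6 := h2.map π hπ
    rw [Subgroup.map_sup, h4, sup_bot_eq] at h6
    have h7 : (P : Subgroup G).map π = ⊥ := by
      by_contra h7
      obtain ⟨A, hA, hAP⟩ := exists_isMinNormal_le _ h7
      exact n5_lem h π hπ h5 hs' (fun y hy => (faith y hy).trans (map_one π)) hM e hA
        (hA.isElementaryAbelian_of_isPGroup ((P.2.map π).to_le hAP))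
    intro m hm
    obtain ⟨w, rfl⟩ := (e.mem m).1 hm
    refine mem_normalizer_of_conj_mem fun x hx => ?_
    have : x * ι w = ι w * x := e.smul_eq.1 (by
      rw [← hs', mem_bot.1 (h7.le (mem_map_of_mem π hx)), one_smul])
    rwa [← this, mul_inv_cancel_right]
  refine ⟨fun x hx g => ?_⟩
  have h4 : ((g • P : Sylow 5 G) : Subgroup G) ≤ normalizer (P : Set G) := by
    rintro _ ⟨y, hy, rfl⟩
    exact sup_le le_normalizer h3 (h2.conj_mem y (mem_sup_left hy) g)
  exact (P.3 (IsPGroup.to_sup_of_normal_left' P.2 (g • P).2 h4) le_sup_left).le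
    (mem_sup_right ⟨x, hx, rfl⟩)

/-- (plan N5) Sylow `5`-subgroups of solvable rational groups are normal -/
theorem sylow5_normal {G : Type*} [Group G] [Finite G] [Fact (Nat.Prime 5)]
    (hs : Group.IsSolvable G) (h : RatG G) (P : Sylow 5 G) : (P : Subgroup G).Normal :=
  sylow5_aux G hs h P

end CfsgLib.AH
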