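import Cfsg.Agent.Lib.AH.Defs

set_option autoImplicit false

namespace CfsgLib.AH

open Subgroup

/-- the group algebra of a finite abelian group of invertible order is reduced -/
theorem conv_eq_zero {k A : Type*} [Field k] [CommGroup A] [Fintype A]
    (hA : (Nat.card A : k) ≠ 0) (φ : A → k) (h : ∀ m, ∑ a, φ a * φ (a⁻¹ * m) = 0) : φ = 0 := by
  haveI : NeZero (Nat.card A : k) := ⟨hA⟩
  let x : MonoidAlgebra k A := .ofCoeff (Finsupp.equivFunOnFinite.symm φ)
  have hx : x * x = 0 := by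
    ext m
    rw [MonoidAlgebra.coeff_mul_apply_left, Finsupp.sum_fintype _ _ (by simp)]
    simpa [x] using h m
  obtain ⟨e, he, hI⟩ := IsSemisimpleRing.ideal_eq_span_idempotent (Ideal.span {x})
  have h1 : e ∈ Ideal.span {x} := hI ▸ Ideal.mem_span_singleton_self e
  obtain ⟨r, hr⟩ := Ideal.mem_span_singleton'.mp h1
  have he0 : e = 0 := by
    rw [← he.eq, ← hr]
    calc r * x * (r * x) = r * r * (x * x) := by ring
      _ = 0 := by rw [hx, mul_zero]
  have h2 : x ∈ Ideal.span {e} := hI ▸ Ideal.mem_span_singleton_self x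
  rw [he0, Ideal.span_singleton_zero, Ideal.mem_bot] at h2
  funext a
  have := congrArg (fun y : MonoidAlgebra k A => y.coeff a) h2
  simpa [x] using this

variable {k Γ W : Type*} [Field k] [Group Γ] [Finite Γ] [AddCommGroup W] [Module k W]
  [DistribMulAction Γ W] [SMulCommClass Γ k W] {B : W →ₗ[k] W →ₗ[k] k}

theorem Ctx.card_sub (c : Ctx Γ B) (D : Subgroup Γ) : (Nat.card D : k) ≠ 0 := by
  intro h
  obtain ⟨m, hm⟩ := D.card_subgroup_dvd_card
  exact c.card (by rw [hm, Nat.cast_mul, h, zero_mul])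

theorem Ctx.skew (c : Ctx Γ B) (a b : W) : B a b = -B b a := by
  have h := c.alt (a + b)
  simp only [map_add, LinearMap.add_apply, c.alt] at h
  linear_combination h

theorem Ctx.adj (c : Ctx Γ B) (g : Γ) (a b : W) : B (g • a) b = B a (g⁻¹ • b) := by
  rw [← c.inv g a (g⁻¹ • b), smul_inv_smul]

theorem Ctx.q_inv (c : Ctx Γ B) (g : Γ) (w : W) : B (g⁻¹ • w) w = -B (g • w) w := by
  rw [c.adj, inv_inv, c.skew]

/-- (plan Q0) the form is non-degenerate on the fixed space of a subgroup -/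
theorem Ctx.fix_nd (c : Ctx Γ B) (D : Subgroup Γ) {u : W} (hu : ∀ d ∈ D, d • u = u)
    (h : ∀ v : W, (∀ d ∈ D, d • v = v) → B u v = 0) : u = 0 := by
  classical
  haveI := Fintype.ofFinite D
  refine c.nd u fun v => ?_
  have h1 := h (∑ d : D, (d : Γ) • v) (fun e he => by
    rw [Finset.smul_sum]
    refine Fintype.sum_equiv (Equiv.mulLeft (⟨e, he⟩ : D)) _ _ fun d => ?_
    simp [mul_smul])
  rw [map_sum] at h1
  have h2 : ∀ d : D, B u ((d : Γ) • v) = B u v := fun d => by
    conv_lhs => rw [← hu d d.2]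
    exact c.inv _ _ _
  simp only [h2, Finset.sum_const, Finset.card_univ, nsmul_eq_mul] at h1
  rw [← Nat.card_eq_fintype_card] at h1
  exact (mul_eq_zero.mp h1).resolve_left (c.card_sub D)

theorem Ctx.sum_sq (c : Ctx Γ B) (A : Subgroup Γ) [hA : A.Normal] [Fintype A] (w : W) :
    ∑ a : A, B ((a : Γ) • w) w ^ 2 = 0 := by
  obtain ⟨t, t0, t8⟩ := c.big
  obtain ⟨g, hg⟩ := c.ev w t t0
  have h1 : ∑ a : A, B ((a : Γ) • w) w ^ 2 = ∑ a : A, B ((a : Γ) • g • w) (g • w) ^ 2 := by
    refine Fintype.sum_equiv (MulAut.conjNormal g : A ≃* A).toEquiv _ _ fun a => ?_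
    have : ((MulAut.conjNormal g : A ≃* A).toEquiv a : Γ) = g * a * g⁻¹ := rfl
    rw [this, mul_smul, mul_smul, inv_smul_smul, c.inv]
  have h2 : ∑ a : A, B ((a : Γ) • g • w) (g • w) ^ 2 = t ^ 4 * ∑ a : A, B ((a : Γ) • w) w ^ 2 := by
    rw [Finset.mul_sum]
    refine Finset.sum_congr rfl fun a _ => ?_
    rw [hg, smul_comm (a : Γ) t w]
    simp only [map_smul, LinearMap.smul_apply, smul_eq_mul]
    ring
  have h4 : t ^ 4 - 1 ≠ 0 := fun e => t8 (by
    have : t ^ 4 = 1 := sub_eq_zero.mp e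
    rw [show t ^ 8 = (t ^ 4) ^ 2 by ring, this, one_pow])
  refine (mul_eq_zero.mp ?_).resolve_left h4
  linear_combination -h1 - h2

/-- (plan Q1) abelian normal subgroups have exponent two -/
theorem Ctx.sq_eq_one (c : Ctx Γ B) (A : Subgroup Γ) [A.Normal]
    (hA : ∀ a ∈ A, ∀ b ∈ A, a * b = b * a) : ∀ a ∈ A, a * a = 1 := by
  classical
  haveI := Fintype.ofFinite A
  have key : ∀ (w : W) (a : A), B ((a : Γ) • w) w = 0 := by
    intro w
    letI : CommGroup A := { (inferInstance : Group A) with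
      mul_comm := fun a b => Subtype.ext (hA _ a.2 _ b.2) }
    let φ : A → k := fun a => B ((a : Γ) • w) w
    have hinv : ∀ a : A, φ a⁻¹ = -φ a := fun a => c.q_inv a w
    have hT : ∀ m : A, ∑ a : A, φ a * φ (a * m) = 0 := by
      intro m
      have e1 : ∀ (t : k) (a : A), B ((a : Γ) • (w + t • (m : Γ) • w)) (w + t • (m : Γ) • w) =
          (1 + t ^ 2) * φ a + t * (φ (a * m) + φ (a * m⁻¹)) := by
        intro t a
        have f1 : B ((a : Γ) • (m : Γ) • w) ((m : Γ) • w) = φ a := by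
          rw [← mul_smul, hA _ a.2 _ m.2, mul_smul, c.inv]
        have f2 : B ((a : Γ) • (m : Γ) • w) w = φ (a * m) := by
          rw [← mul_smul]; rfl
        have f3 : B ((a : Γ) • w) ((m : Γ) • w) = φ (a * m⁻¹) := by
          rw [← c.inv (m : Γ)⁻¹, inv_smul_smul, ← mul_smul, hA _ (A.inv_mem m.2) _ a.2]; rfl
        rw [smul_add, smul_comm (a : Γ) t]
        simp only [map_add, map_smul, LinearMap.add_apply, LinearMap.smul_apply, smul_eq_mul,
          f1, f2, f3]
        simp only [φ]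
        ring
      have s1 := c.sum_sq A (w + (1 : k) • (m : Γ) • w)
      have s2 := c.sum_sq A (w + (-1 : k) • (m : Γ) • w)
      simp only [e1] at s1 s2
      have s3 : ∑ a : A, φ a * φ (a * m⁻¹) = ∑ a : A, φ a * φ (a * m) := by
        refine Fintype.sum_equiv (Equiv.mulRight m⁻¹) _ _ fun a => ?_
        simp [mul_comm]
      have s4 : ∑ a : A, (((1 + 1 ^ 2) * φ a + 1 * (φ (a * m) + φ (a * m⁻¹))) ^ 2 -
          ((1 + (-1) ^ 2) * φ a + (-1) * (φ (a * m) + φ (a * m⁻¹))) ^ 2) =
          8 * (∑ a : A, φ a * φ (a * m) + ∑ a : A, φ a * φ (a * m⁻¹)) := by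
        rw [← Finset.sum_add_distrib, Finset.mul_sum]
        refine Finset.sum_congr rfl fun a _ => by ring
      rw [Finset.sum_sub_distrib, s1, s2, s3] at s4
      have h16 : (2 : k) ^ 4 ≠ 0 := pow_ne_zero _ c.h2
      refine (mul_eq_zero.mp ?_).resolve_left h16
      linear_combination -s4
    have := conv_eq_zero (c.card_sub A) φ (fun m => by
      have e : ∑ a : A, φ a * φ (a⁻¹ * m) = ∑ a : A, -(φ a * φ (a * m)) := by
        refine Fintype.sum_equiv (Equiv.inv A) _ _ fun a => ?_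
        simp [hinv]
      rw [e, Finset.sum_neg_distrib, hT, neg_zero])
    exact fun a => congrFun this a
  intro a ha
  refine c.faith _ fun w => ?_
  have h1 : a • w - a⁻¹ • w = 0 := by
    refine c.nd _ fun v => ?_
    have e1 := key (w + v) ⟨a, ha⟩
    have e2 := key w ⟨a, ha⟩
    have e3 := key v ⟨a, ha⟩
    simp only [smul_add, map_add, LinearMap.add_apply] at e1 e2 e3
    have e4 : B (a • v) w = -B (a⁻¹ • w) v := by rw [c.adj, c.skew]
    rw [map_sub, LinearMap.sub_apply]
    linear_combination e1 - e2 - e3 - e4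
  rw [mul_smul, sub_eq_zero.mp h1, smul_inv_smul]

/-- (plan Q2) abelian normal subgroups consist of `± 1` -/
theorem Ctx.ab (c : Ctx Γ B) (A : Subgroup Γ) [hN : A.Normal]
    (hA : ∀ a ∈ A, ∀ b ∈ A, a * b = b * a) : ∀ a ∈ A, a = 1 ∨ ∀ w : W, a • w = -w := by
  have hsq := c.sq_eq_one A hA
  obtain ⟨D, ⟨w0, hw0, hD⟩, hmax⟩ := Set.Finite.exists_maximal
    (Set.toFinite {D : Subgroup Γ | ∃ w : W, w ≠ 0 ∧ D = A ⊓ MulAction.stabilizer Γ w})
    (by obtain ⟨w, hw⟩ := c.nt; exact ⟨_, w, hw, rfl⟩)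
  have hDA : D ≤ A := hD ▸ inf_le_left
  have neg : ∀ a ∈ A, a ∉ D → ∀ u : W, (∀ d ∈ D, d • u = u) → a • u = -u := by
    intro a ha haD u hu
    by_contra hne
    have h0 : u + a • u ≠ 0 := fun e => hne (eq_neg_of_add_eq_zero_right e)
    have hle : D ≤ A ⊓ MulAction.stabilizer Γ (u + a • u) := fun d hd => mem_inf.mpr ⟨hDA hd, by
      rw [MulAction.mem_stabilizer_iff, smul_add, ← mul_smul, hA _ (hDA hd) _ ha, mul_smul,
        hu d hd]⟩
    refine haD (hmax ⟨_, h0, rfl⟩ hle (mem_inf.mpr ⟨ha, ?_⟩))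
    rw [MulAction.mem_stabilizer_iff, smul_add, ← mul_smul, hsq a ha, one_smul, add_comm]
  let U : Submodule k W :=
    { carrier := {u | ∀ d ∈ D, d • u = u}
      zero_mem' := fun d _ => smul_zero d
      add_mem' := fun {a b} ha hb d hd => by rw [smul_add, ha d hd, hb d hd]
      smul_mem' := fun t a ha d hd => by rw [smul_comm, ha d hd] }
  have hU : U = ⊤ := by
    refine c.prim U ?_ (fun u hu h => c.fix_nd D hu h) fun g => ?_
    · intro e
      have : w0 ∈ U := fun d hd => (hD ▸ hd : d ∈ A ⊓ MulAction.stabilizer Γ w0).2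
      rw [e] at this
      exact hw0 this
    · by_cases hg : ∀ d ∈ D, g⁻¹ * d * g ∈ D
      · left
        intro u hu d hd
        have := hu _ (hg d hd)
        rw [mul_smul, mul_smul, inv_smul_eq_iff] at this
        exact this
      · right
        push Not at hg
        obtain ⟨d, hd, hd'⟩ := hg
        intro u hu v hv
        have h1 : (g⁻¹ * d * g) • u = -u :=
          neg _ (by simpa using hN.conj_mem _ (hDA hd) g⁻¹) hd' u hu
        rw [mul_smul, mul_smul, inv_smul_eq_iff, smul_neg] at h1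
        have h2 := c.inv d (g • u) v
        rw [h1, hv d hd, map_neg, LinearMap.neg_apply] at h2
        refine (mul_eq_zero.mp ?_).resolve_left c.h2
        linear_combination -h2
  intro a ha
  by_cases haD : a ∈ D
  · left
    exact c.faith a fun w => (hU ▸ Submodule.mem_top : w ∈ U) a haD
  · right
    exact fun w => neg a ha haD w (hU ▸ Submodule.mem_top : w ∈ U)

end CfsgLib.AH
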