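import Cfsg.Agent.Lib.AH.Defs

set_option autoImplicit false

namespace CfsgLib.AH

open Subgroup

theorem sd_density {R W W' : Type*} [Ring R] [AddCommGroup W] [Module R W] [AddCommGroup W']
    [Module R W'] [IsSimpleModule R W] [IsSimpleModule R W'] [Finite W] [Finite W']
    (h : ∀ f : W →ₗ[R] W', f = 0) (a : W →ₗ[Module.End R W] W) :
    ∃ x : R, (∀ w : W, x • w = a w) ∧ ∀ w : W', x • w = 0 := by
  have h' : ∀ f : W' →ₗ[R] W, f = 0 := fun f => by
    by_contra hf
    let e := LinearEquiv.ofBijective f (LinearMap.bijective_of_ne_zero hf)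
    refine hf (LinearMap.ext fun w => ?_)
    have : w = 0 := (e.symm_apply_apply w).symm.trans (LinearMap.congr_fun (h e.symm) _)
    simp [this]
  have : IsSemisimpleModule R (W × W') := by
    refine isSemisimpleModule_of_isSemisimpleModule_submodule'
      (p := fun b : Bool => cond b (LinearMap.range (LinearMap.inl R W W'))
        (LinearMap.range (LinearMap.inr R W W'))) (fun b => ?_) ?_
    · cases b
      · exact IsSemisimpleModule.range _
      · exact IsSemisimpleModule.range _
    · rw [iSup_bool_eq]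
      exact LinearMap.sup_range_inl_inr
  let f : Module.End (Module.End R (W × W')) (W × W') :=
    { toFun := fun m => (a m.1, 0)
      map_add' := fun m n => by simp
      map_smul' := fun e m => by
        have h1 : (e (0, m.2)).1 = 0 :=
          LinearMap.congr_fun (h' (LinearMap.fst R W W' ∘ₗ e ∘ₗ LinearMap.inr R W W')) m.2
        have h2 : (e (a m.1, 0)).2 = 0 :=
          LinearMap.congr_fun (h (LinearMap.snd R W W' ∘ₗ e ∘ₗ LinearMap.inl R W W')) (a m.1)
        have h3 : a (e (m.1, 0)).1 = (e (a m.1, 0)).1 :=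
          a.map_smul (LinearMap.fst R W W' ∘ₗ e ∘ₗ LinearMap.inl R W W') m.1
        have h4 : (e m).1 = (e (m.1, 0)).1 := by
          rw [show e m = e (m.1, 0) + e (0, m.2) by rw [← map_add]; simp, Prod.fst_add, h1, add_zero]
        show (a (e m).1, (0 : W')) = e (a m.1, 0)
        exact Prod.ext (h4 ▸ h3) h2.symm }
  have := Fintype.ofFinite (W × W')
  obtain ⟨x, hx⟩ := jacobson_density f Finset.univ
  refine ⟨x, fun w => (congrArg Prod.fst (hx (w, 0) (Finset.mem_univ _))).symm,
    fun w => (congrArg Prod.snd (hx (0, w) (Finset.mem_univ _))).symm⟩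

theorem sd_trace {k D W : Type*} [Field k] [Finite k] [DivisionRing D] [Finite D] [Algebra k D]
    [AddCommGroup W] [Module k W] [Module D W] [IsScalarTower k D W] [Finite W] [Nontrivial W] :
    ∃ a : W →ₗ[D] W, LinearMap.trace k W (a.restrictScalars k) ≠ 0 := by
  letI := littleWedderburn D
  obtain ⟨d, hd⟩ : ∃ d, Algebra.trace k D d ≠ 0 := by
    by_contra h
    push Not at h
    exact Algebra.trace_ne_zero k D (LinearMap.ext h)
  obtain ⟨w, hw⟩ := exists_ne (0 : W)
  obtain ⟨l, hl⟩ := Module.Projective.exists_dual_eq_one D hw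
  refine ⟨LinearMap.toSpanSingleton D W w ∘ₗ (d • l), ?_⟩
  rw [show (LinearMap.toSpanSingleton D W w ∘ₗ (d • l)).restrictScalars k =
    (LinearMap.toSpanSingleton D W w).restrictScalars k ∘ₗ (d • l).restrictScalars k from rfl,
    LinearMap.trace_comp_comm']
  convert hd using 1
  rw [Algebra.trace_apply]
  congr 1
  ext x
  simp [hl]

theorem isSimple_asModule {k Y V : Type*} [Field k] [Group Y] [AddCommGroup V] [Module k V]
    [Nontrivial V] (ρ : Representation k Y V)
    (h : ∀ U : Submodule k V, (∀ (y : Y), ∀ u ∈ U, ρ y u ∈ U) → U = ⊥ ∨ U = ⊤) :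
    IsSimpleModule (MonoidAlgebra k Y) ρ.asModule := by
  have : Nontrivial ρ.asModule := ‹Nontrivial V›
  rw [isSimpleModule_iff]
  refine ⟨fun N => ?_⟩
  rcases h (N.restrictScalars k) (fun y u hu => by
    have := N.smul_mem (MonoidAlgebra.of k Y y) hu
    rwa [show u = ρ.asModuleEquiv.symm u from rfl, ← ρ.asModuleEquiv_symm_map_rho] at this) with e | e
  · exact Or.inl (eq_bot_iff.2 fun x hx => e.le hx)
  · exact Or.inr (eq_top_iff.2 fun x _ => e.ge trivial)

theorem sd_form {k Y V : Type*} [Field k] [Finite k] [Group Y] [AddCommGroup V] [Module k V]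
    [Finite V] [Nontrivial V] (ρ : Representation k Y V)
    (h : ∀ U : Submodule k V, (∀ (y : Y), ∀ u ∈ U, ρ y u ∈ U) → U = ⊥ ∨ U = ⊤)
    (hreal : ∀ y : Y, IsConj y y⁻¹) :
    ∃ B : V →ₗ[k] V →ₗ[k] k, B ≠ 0 ∧ ∀ (y : Y) (a b : V), B (ρ y a) (ρ y b) = B a b := by
  classical
  by_contra hB
  push Not at hB
  have h1 := isSimple_asModule ρ h
  have h2 := isSimple_asModule ρ.dual fun U hU => by
    rcases h U.dualCoannihilator (fun y u hu => (Submodule.mem_dualCoannihilator _).2 fun φ hφ => by
      have := (Submodule.mem_dualCoannihilator _).1 hu _ (hU y⁻¹ φ hφ)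
      rwa [Representation.dual_apply, inv_inv] at this) with e | e
    · right
      rw [← Subspace.dualCoannihilator_dualAnnihilator_eq (W := U), e, Submodule.dualAnnihilator_bot]
    · left
      rw [← Subspace.dualCoannihilator_dualAnnihilator_eq (W := U), e, Submodule.dualAnnihilator_top]
  have : Finite ρ.asModule := ‹Finite V›
  have : Nontrivial ρ.asModule := ‹Nontrivial V›
  have : Finite (Module.Dual k V) := Finite.of_injective _ DFunLike.coe_injective
  have : Finite ρ.dual.asModule := ‹Finite (Module.Dual k V)›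
  have : Finite (Module.End (MonoidAlgebra k Y) ρ.asModule) :=
    Finite.of_injective _ DFunLike.coe_injective
  obtain ⟨a, ha⟩ := sd_trace (k := k) (D := Module.End (MonoidAlgebra k Y) ρ.asModule)
    (W := ρ.asModule)
  obtain ⟨x, h3, h4⟩ := sd_density (W' := ρ.dual.asModule) (fun f => by
    by_contra hf
    obtain ⟨y, u, v, e⟩ := hB (f.restrictScalars k) fun e => hf (LinearMap.ext fun w =>
      LinearMap.congr_fun e w)
    have h5 := f.map_smul (MonoidAlgebra.of k Y y) (ρ.asModuleEquiv.symm u)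
    rw [← ρ.asModuleEquiv_symm_map_rho] at h5
    have h6 := congrArg ρ.dual.asModuleEquiv h5
    rw [Representation.asModuleEquiv_map_smul, Representation.asAlgebraHom_of] at h6
    have h7 := LinearMap.congr_fun h6 (ρ y v)
    refine e (h7.trans ?_)
    show ρ.dual.asModuleEquiv (f u) (ρ y⁻¹ (ρ y v)) = _
    rw [Representation.inv_self_apply]
    rfl) a
  have h5 : ∀ x : MonoidAlgebra k Y, LinearMap.trace k _ (ρ.asAlgebraHom x) =
      LinearMap.trace k _ (ρ.dual.asAlgebraHom x) := fun x => by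
    induction x using MonoidAlgebra.induction_on with
    | of y =>
      rw [Representation.asAlgebraHom_of, Representation.asAlgebraHom_of, Representation.dual_apply,
        LinearMap.trace_transpose']
      obtain ⟨c, hc⟩ := isConj_iff.1 (hreal y)
      rw [← hc, map_mul, LinearMap.trace_mul_comm, ← map_mul, ← mul_assoc, inv_mul_cancel, one_mul]
    | add f g hf hg => simp only [map_add, hf, hg]
    | smul r f hf => simp only [map_smul, hf]
  refine ha ?_
  have h6 := h5 x
  rw [show ρ.dual.asAlgebraHom x = 0 from LinearMap.ext h4, map_zero] at h6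
  rw [← h6]
  exact congrArg _ (LinearMap.ext h3).symm

/-- (plan SD) a simple module of a group all of whose elements are real is self-dual -/
theorem sd {r : ℕ} [Fact r.Prime] {Y W : Type*} [Group Y] [Finite Y] [AddCommGroup W]
    [Module (ZMod r) W] [Finite W] [DistribMulAction Y W] [SMulCommClass Y (ZMod r) W]
    (hW : ∃ w : W, w ≠ 0)
    (hirr : ∀ U : AddSubgroup W, (∀ (y : Y), ∀ u ∈ U, y • u ∈ U) → U = ⊥ ∨ U = ⊤)
    (hreal : ∀ y : Y, IsConj y y⁻¹) :
    ∃ B : W →ₗ[ZMod r] W →ₗ[ZMod r] ZMod r, (∀ (y : Y) (a b : W), B (y • a) (y • b) = B a b) ∧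
      (∀ a, (∀ b, B a b = 0) → a = 0) ∧ ((∀ a b, B a b = B b a) ∨ ∀ a b, B a b = -B b a) := by
  have : Nontrivial W := let ⟨w, hw⟩ := hW; ⟨w, 0, hw⟩
  obtain ⟨B, h0, hB⟩ := sd_form (Representation.ofDistribMulAction (ZMod r) Y W)
    (fun U hU => (hirr U.toAddSubgroup hU).imp (fun e => eq_bot_iff.2 e.le)
      fun e => eq_top_iff.2 e.ge) hreal
  replace hB : ∀ (y : Y) (a b : W), B (y • a) (y • b) = B a b := hB
  have nd : ∀ B : W →ₗ[ZMod r] W →ₗ[ZMod r] ZMod r, B ≠ 0 →
      (∀ (y : Y) (a b : W), B (y • a) (y • b) = B a b) → ∀ a, (∀ b, B a b = 0) → a = 0 := by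
    intro B h0 hB a ha
    rcases hirr (LinearMap.ker B).toAddSubgroup (fun y u hu => LinearMap.ext fun b => by
      rw [← smul_inv_smul y b, hB]
      exact LinearMap.congr_fun hu _) with e | e
    · exact e.le (LinearMap.ext ha : B a = 0)
    · exact absurd (LinearMap.ext fun a => show B a = 0 from e.ge (AddSubgroup.mem_top a)) h0
  by_cases h1 : B + B.flip = 0
  · refine ⟨B, hB, nd B h0 hB, Or.inr fun a b => eq_neg_of_add_eq_zero_left ?_⟩
    exact LinearMap.congr_fun₂ h1 a b
  · have h2 : ∀ (y : Y) (a b : W), (B + B.flip) (y • a) (y • b) = (B + B.flip) a b :=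
      fun y a b => by simp [hB]
    exact ⟨_, h2, nd _ h1 h2, Or.inl fun a b => by simp [add_comm]⟩

theorem Emb.ev {r : ℕ} [Fact r.Prime] {G W : Type*} [Group G] [Finite G] (h : RatG G)
    [AddCommGroup W] [Module (ZMod r) W] [DistribMulAction G W]
    {M : Subgroup G} {ι : W → G} (e : Emb M ι) (w : W) (c : ZMod r) (hc : c ≠ 0) :
    ∃ g : G, g • w = c • w := by
  have h1 : orderOf (ι w) ∣ r := orderOf_dvd_of_pow_eq_one (by
    rw [← e.nsmul, ← Nat.cast_smul_eq_nsmul (ZMod r), ZMod.natCast_self, zero_smul, e.zero])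
  have h2 : c.val.Coprime r := by
    simpa using ZMod.val_coe_unit_coprime (Units.mk0 c hc)
  obtain ⟨g, hg⟩ := isConj_iff.1 (h (ι w) c.val (h2.coprime_dvd_right h1))
  refine ⟨g, e.inj ?_⟩
  rw [e.smul, hg, ← e.nsmul, ← Nat.cast_smul_eq_nsmul (ZMod r), ZMod.natCast_zmod_val]

/-- (plan ALT) for `r ≥ 5` the form on a minimal normal `r`-subgroup of a rational group is
alternating, and every vector is an eigenvector for every eigenvalue -/
theorem alt {r : ℕ} [Fact r.Prime] (h5 : 5 ≤ r) {G W : Type*} [Group G] [Finite G] (h : RatG G)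
    [AddCommGroup W] [Module (ZMod r) W] [DistribMulAction G W] [SMulCommClass G (ZMod r) W]
    {M : Subgroup G} (hM : IsMinNormal M) {ι : W → G} (e : Emb M ι) :
    (∀ (w : W) (c : ZMod r), c ≠ 0 → ∃ g : G, g • w = c • w) ∧
    ∃ B : W →ₗ[ZMod r] W →ₗ[ZMod r] ZMod r, (∀ (y : G) (a b : W), B (y • a) (y • b) = B a b) ∧
      (∀ a, (∀ b, B a b = 0) → a = 0) ∧ ∀ a, B a a = 0 := by
  have := e.finite
  have hn : ∀ n : ℕ, 0 < n → n < 5 → (n : ZMod r) ≠ 0 := fun n h0 hn h' =>
    absurd (Nat.le_of_dvd h0 ((ZMod.natCast_eq_zero_iff n r).1 h')) (by omega)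
  have h2 : (2 : ZMod r) ≠ 0 := by simpa using hn 2 (by norm_num) (by norm_num)
  have h3 : (3 : ZMod r) ≠ 0 := by simpa using hn 3 (by norm_num) (by norm_num)
  obtain ⟨B, hB, nd, hs⟩ := sd (r := r) (Y := G) (W := W) (by
    by_contra h'
    push Not at h'
    refine hM.2.1 (eq_bot_iff.2 fun x hx => ?_)
    obtain ⟨a, rfl⟩ := (e.mem x).1 hx
    rw [h' a, e.zero]
    exact one_mem _) (e.irr hM) h.real
  refine ⟨e.ev h, B, hB, nd, fun a => ?_⟩
  rcases hs with hs | hs
  · obtain ⟨g, hg⟩ := e.ev h a 2 h2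
    have := hB g a a
    rw [hg] at this
    simp only [map_smul, LinearMap.smul_apply, smul_eq_mul] at this
    exact (mul_eq_zero.1 (show 3 * B a a = 0 by linear_combination this)).resolve_left h3
  · exact (mul_eq_zero.1 (show 2 * B a a = 0 by linear_combination hs a a)).resolve_left h2

end CfsgLib.AH
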