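import Cfsg.Agent.Lib.AH.Q

set_option autoImplicit false

namespace CfsgLib.AH

open Subgroup
open scoped commutatorElement

variable {k Γ W : Type*} [Field k] [Group Γ] [Finite Γ] [AddCommGroup W] [Module k W]
  [DistribMulAction Γ W] [SMulCommClass Γ k W] {B : W →ₗ[k] W →ₗ[k] k}

theorem Ctx.ext' (c : Ctx Γ B) {g h : Γ} (e : ∀ w : W, g • w = h • w) : g = h := by
  have := c.faith (h⁻¹ * g) fun w => by rw [mul_smul, e, inv_smul_smul]
  exact (inv_mul_eq_one.mp this).symm

theorem Ctx.neg_ne (c : Ctx Γ B) {w : W} (hw : w ≠ 0) : -w ≠ w := by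
  intro e
  have : (2 : k) • w = 0 := by rw [two_smul]; nth_rw 1 [← e]; exact neg_add_cancel w
  exact hw ((smul_eq_zero.mp this).resolve_left c.h2)

theorem Ctx.exists_z (c : Ctx Γ B) : ∃ z : Γ, ∀ w : W, z • w = -w := by
  obtain ⟨w, hw⟩ := c.nt
  obtain ⟨g, hg⟩ := c.ev w (-1) (neg_ne_zero.mpr one_ne_zero)
  haveI : Nontrivial Γ := ⟨⟨g, 1, fun e => c.neg_ne hw (by
    rw [e, one_smul, neg_smul, one_smul] at hg; exact hg.symm)⟩⟩
  obtain ⟨M, hM⟩ := exists_isMinNormal (G := Γ)
  haveI := hM.1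
  haveI := c.solv
  haveI := hM.isMulCommutative_of_isSolvable inferInstance
  obtain ⟨a, ha, a1⟩ := M.bot_or_exists_ne_one.resolve_left hM.2.1
  exact ⟨a, (c.ab M (fun a ha b hb => congrArg Subtype.val
    (mul_comm' (⟨a, ha⟩ : M) ⟨b, hb⟩)) a ha).resolve_left a1⟩

/-- (plan X) the self-centralizing extraspecial normal subgroup -/
theorem Ctx.exists_XS (c : Ctx Γ B) : ∃ (z : Γ) (X : Subgroup Γ), XS W z X := by
  obtain ⟨z, hz⟩ := c.exists_z
  obtain ⟨w, hw⟩ := c.nt
  haveI := c.solv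
  have zc : ∀ g : Γ, z * g = g * z := fun g => c.ext' fun v => by
    rw [mul_smul, mul_smul, hz, hz, smul_neg]
  have zz : z * z = 1 := c.faith _ fun v => by rw [mul_smul, hz, hz, neg_neg]
  have z1 : z ≠ 1 := fun e => c.neg_ne hw (by rw [← hz, e, one_smul])
  let Z : Subgroup Γ :=
    { carrier := {x | x = 1 ∨ x = z}
      one_mem' := Or.inl rfl
      mul_mem' := by
        rintro a b (rfl | rfl) (rfl | rfl) <;> simp [zz]
      inv_mem' := by
        rintro a (rfl | rfl)
        · simp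
        · exact Or.inr (inv_eq_of_mul_eq_one_right zz) }
  have Zc : ∀ x ∈ Z, ∀ g, x * g = g * x := by
    rintro x (rfl | rfl) g
    · simp
    · exact zc g
  haveI hZ : Z.Normal := ⟨fun x hx g => by rw [← Zc x hx g, mul_inv_cancel_right]; exact hx⟩
  have hab : ∀ (A : Subgroup Γ) [A.Normal], (∀ a ∈ A, ∀ b ∈ A, a * b = b * a) → A ≤ Z := by
    intro A _ hA a ha
    rcases c.ab A hA a ha with e | e
    · exact Or.inl e
    · exact Or.inr (c.ext' fun v => by rw [e, hz])
  have hcomm : ∀ {e f : Γ}, e * f * (f * e)⁻¹ ∈ Z → e * f = f * e ∨ e * f = z * (f * e) := by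
    rintro e f (h | h)
    · exact Or.inl (mul_inv_eq_one.mp h)
    · exact Or.inr (mul_inv_eq_iff_eq_mul.mp h)
  obtain ⟨X, hZX, ⟨hXn, hX⟩, hmax⟩ := Finite.exists_le_maximal
    (p := fun X : Subgroup Γ => X.Normal ∧ ∀ e ∈ X, e * e ∈ Z) (a := Z)
    ⟨hZ, fun e he => Z.mul_mem he he⟩
  have hXc : ∀ e ∈ X, ∀ f ∈ X, e * f = f * e ∨ e * f = z * (f * e) := by
    intro e he f hf
    refine hcomm ?_
    have h1 : e * f * (f * e)⁻¹ = e * f * (e * f) * (f⁻¹ * (e * e)⁻¹ * f) * (f * f)⁻¹ := by group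
    rw [h1]
    refine Z.mul_mem (Z.mul_mem (hX _ (X.mul_mem he hf)) ?_) (Z.inv_mem (hX f hf))
    simpa using hZ.conj_mem _ (Z.inv_mem (hX e he)) f⁻¹
  have hcent : centralizer (X : Set Γ) ≤ Z := by
    by_contra hne
    have hlt : Z < centralizer (X : Set Γ) :=
      lt_of_le_not_ge (fun x hx => mem_centralizer_iff.mpr fun g _ => (Zc x hx g).symm) hne
    obtain ⟨D, hDn, hZD, hDC, hch⟩ := exists_chief_above hlt
    have hD' := commutator_le_of_chief_of_isSolvable (N := D) (M := Z) inferInstance hZD hch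
    have hDc : ∀ e ∈ D, ∀ f ∈ D, e * f = f * e ∨ e * f = z * (f * e) := by
      intro e he f hf
      refine hcomm ?_
      have := hD' (commutator_mem_commutator he hf)
      rwa [commutatorElement_def, show e * f * e⁻¹ * f⁻¹ = e * f * (f * e)⁻¹ by group] at this
    have hDsq : ∀ d ∈ D, d * d ∈ Z := by
      intro d hd
      refine hab (D ⊓ centralizer (D : Set Γ)) (fun a ha b hb => mem_centralizer_iff.mp hb.2 a ha.1)
        (mem_inf.mpr ⟨D.mul_mem hd hd, mem_centralizer_iff.mpr fun f hf => ?_⟩)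
      rcases hDc f hf d hd with e | e
      · rw [← mul_assoc, e, mul_assoc, e, mul_assoc]
      · calc f * (d * d) = (f * d) * d := by group
          _ = z * (d * (f * d)) := by nth_rw 1 [e]; group
          _ = (z * z) * (d * d * f) := by
            rw [e, ← mul_assoc d z, ← zc d]; group
          _ = d * d * f := by rw [zz, one_mul]
    have hle : X ⊔ D ≤ X := by
      refine hmax ⟨inferInstance, fun x hx => ?_⟩ le_sup_left
      obtain ⟨e, he, d, hd, rfl⟩ := mem_sup_of_normal_right.mp hx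
      have h1 : e * d = d * e := mem_centralizer_iff.mp (hDC hd) e he
      have h2 : e * d * (e * d) = e * e * (d * d) := by
        rw [mul_assoc, ← mul_assoc d e, ← h1]; group
      rw [h2]
      exact Z.mul_mem (hX e he) (hDsq d hd)
    exact hZD.not_ge (hab D fun a ha b hb =>
      mem_centralizer_iff.mp (hDC hb) a (hle (mem_sup_right ha)))
  have hcent' : ∀ g : Γ, (∀ e ∈ X, g * e = e * g) → g = 1 ∨ g = z := fun g hg =>
    hcent (mem_centralizer_iff.mpr fun e he => (hg e he).symm)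
  refine ⟨z, X, hz, zc, zz, z1, hZX (Or.inr rfl), hXn, hX, hXc, hcent', ?_⟩
  by_contra hne
  push Not at hne
  have hXZ : X ≤ Z := hab X fun a ha b hb => (hXc a ha b hb).resolve_right (hne a ha b hb)
  obtain ⟨g, hg⟩ := c.ev w 2 c.h2
  rcases hcent' g (fun e he => (Zc e (hXZ he) g).symm) with rfl | rfl
  · rw [one_smul, two_smul] at hg
    exact hw (left_eq_add.mp hg)
  · rw [hz] at hg
    have : (3 : k) • w = 0 := by
      rw [show (3 : k) = 2 + 1 by norm_num, add_smul, one_smul, ← hg, neg_add_cancel]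
    exact hw ((smul_eq_zero.mp this).resolve_left c.h3)

end CfsgLib.AH
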